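import Mathlib
import Cfsg.Agent.S4252

namespace Cfsg.Agent.Lib.Helper7

open Pointwise

theorem conj_inv_smul_eq {L : Type*} [Group L] (g c : L) :
    (MulAut.conj g)⁻¹ • c = g⁻¹ * c * g := by
  rw [← map_inv, MulAut.smul_def, MulAut.conj_apply, inv_inv]

theorem frobComplement_map {L L' : Type*} [Group L] [Group L'] (e : L ≃* L') (C : Subgroup L)
    (hC : Cfsg.IsFrobeniusComplement C) : Cfsg.IsFrobeniusComplement (C.map e.toMonoidHom) := by
  obtain ⟨h1, h2, h3⟩ := hC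
  refine ⟨?_, ?_, ?_⟩
  · intro h
    apply h1
    rw [eq_bot_iff] at h ⊢
    intro c hc
    have h4 : e c ∈ C.map e.toMonoidHom := ⟨c, hc, rfl⟩
    have h5 := h h4
    rw [Subgroup.mem_bot] at h5 ⊢
    exact e.injective (by rw [h5, map_one])
  · intro h
    apply h2
    rw [eq_top_iff] at h ⊢
    intro g _
    obtain ⟨c, hc, hce⟩ := h (Subgroup.mem_top (e g))
    have h4 : c = g := e.injective hce
    rw [← h4]; exact hc
  · intro g hg
    rw [eq_bot_iff]
    intro x hx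
    rw [Subgroup.mem_inf] at hx
    obtain ⟨⟨c, hc, rfl⟩, hx2⟩ := hx
    rw [Subgroup.mem_pointwise_smul_iff_inv_smul_mem, conj_inv_smul_eq] at hx2
    obtain ⟨c', hc', hce⟩ := hx2
    obtain ⟨g0, rfl⟩ := e.surjective g
    have hg0 : g0 ∉ C := fun h => hg ⟨g0, h, rfl⟩
    have h5 : c' = g0⁻¹ * c * g0 := by
      apply e.injective
      have h6 : e c' = (e g0)⁻¹ * e c * e g0 := hce
      rw [h6, map_mul, map_mul, map_inv]
    have h7 : c ∈ MulAut.conj g0 • C := by
      rw [Subgroup.mem_pointwise_smul_iff_inv_smul_mem, conj_inv_smul_eq, ← h5]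
      exact hc'
    have h6 : c ∈ C ⊓ MulAut.conj g0 • C := Subgroup.mem_inf.mpr ⟨hc, h7⟩
    rw [h3 g0 hg0, Subgroup.mem_bot] at h6
    rw [Subgroup.mem_bot, h6]
    exact map_one e.toMonoidHom

theorem exists_frob_of_fpf {K V : Type*} [Group K] [Finite K] [AddCommGroup V] [Finite V]
    [DistribMulAction K V] [Nontrivial K] [Nontrivial V]
    (hfpf : ∀ k : K, k ≠ 1 → ∀ v : V, k • v = v → v = 0) :
    ∃ (L : Type) (_ : Group L) (_ : Finite L) (C : Subgroup L),
      Cfsg.IsFrobeniusComplement C ∧ Nonempty (K ≃* C) := by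
  classical
  letI := Fintype.ofFinite V
  obtain ⟨ψ, hψ⟩ : ∃ ψ : K →* Equiv.Perm V, ∀ (k : K) (v : V), ψ k v = k • v :=
    ⟨MulAction.toPermHom K V, fun k v => rfl⟩
  have hψinj : Function.Injective ψ := by
    rw [injective_iff_map_eq_one]
    intro k hk
    by_contra hk1
    obtain ⟨v, hv⟩ := exists_ne (0 : V)
    apply hv
    apply hfpf k hk1 v
    rw [← hψ, hk]; rfl
  obtain ⟨Lsub, hLsub⟩ : ∃ Lsub : Subgroup (Equiv.Perm V), ∀ σ, σ ∈ Lsub ↔
      ∃ k : K, ∃ b : V, ∀ v, σ v = k • v + b :=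
    ⟨{ carrier := {σ | ∃ k : K, ∃ b : V, ∀ v, σ v = k • v + b}
       mul_mem' := by
        rintro σ τ ⟨k, b, hσ⟩ ⟨k', b', hτ⟩
        refine ⟨k * k', k • b' + b, fun v => ?_⟩
        rw [Equiv.Perm.mul_apply, hτ, hσ, smul_add, mul_smul, add_assoc]
       one_mem' := ⟨1, 0, fun v => by simp⟩
       inv_mem' := by
        rintro σ ⟨k, b, hσ⟩
        refine ⟨k⁻¹, -(k⁻¹ • b), fun v => ?_⟩
        rw [Equiv.Perm.inv_eq_iff_eq, hσ, smul_add, smul_neg, smul_inv_smul, smul_inv_smul]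
        abel }, fun σ => Iff.rfl⟩
  have hsmul : ∀ (g : Lsub) (v : V), g • v = (g : Equiv.Perm V) v := fun g v => rfl
  have hΩ : 1 < Fintype.card V := Fintype.one_lt_card
  have htrans : ∀ α β : V, ∃ g : Lsub, g • α = β := by
    intro α β
    refine ⟨⟨Equiv.addRight (β - α), (hLsub _).mpr ⟨1, β - α, fun v => ?_⟩⟩, ?_⟩
    · simp
    · rw [hsmul]; simp
  have hmem : ∀ k : K, ψ k ∈ Lsub := fun k => (hLsub _).mpr ⟨k, 0, fun v => by rw [hψ, add_zero]⟩
  have hnreg : ∃ g : Lsub, g ≠ 1 ∧ ∃ α : V, g • α = α := by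
    obtain ⟨k, hk⟩ := exists_ne (1 : K)
    refine ⟨⟨ψ k, hmem k⟩, ?_, 0, ?_⟩
    · intro h
      apply hk
      apply hψinj
      rw [map_one]
      exact congrArg Subtype.val h
    · rw [hsmul]
      show ψ k 0 = 0
      rw [hψ, smul_zero]
  have hfix : ∀ g : Lsub, g ≠ 1 → ∀ α β : V, g • α = α → g • β = β → α = β := by
    intro g hg α β hα hβ
    obtain ⟨k, b, hσ⟩ := (hLsub g.1).mp g.2
    rw [hsmul, hσ] at hα hβ
    have h1 : k • (α - β) = α - β := by
      rw [smul_sub]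
      have h2 : k • α = α - b := by rw [← hα]; abel_nf; rw [hα]
      have h3 : k • β = β - b := by rw [← hβ]; abel_nf; rw [hβ]
      rw [h2, h3]; abel
    by_cases hk : k = 1
    · exfalso
      apply hg
      apply Subtype.ext
      ext v
      rw [hk, one_smul] at hα
      have hb : b = 0 := by
        have h4 : α + b = α + 0 := by rw [hα, add_zero]
        exact add_left_cancel h4
      rw [hσ, hk, hb, one_smul, add_zero]
      rfl
    · exact sub_eq_zero.mp (hfpf k hk _ h1)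
  have hfrob := Cfsg.Agent.S4252.frob_of_action (G := Lsub) (Ω := V) hΩ htrans hnreg hfix 0
  obtain ⟨ψ', hψ'⟩ : ∃ ψ' : K →* Lsub, ∀ k, ((ψ' k : Lsub) : Equiv.Perm V) = ψ k :=
    ⟨ψ.codRestrict Lsub hmem, fun k => rfl⟩
  have hψ'inj : Function.Injective ψ' := by
    intro k k' h
    apply hψinj
    rw [← hψ', ← hψ', h]
  have hstab : MulAction.stabilizer Lsub (0 : V) = ψ'.range := by
    apply le_antisymm
    · intro g hg
      rw [MulAction.mem_stabilizer_iff, hsmul] at hg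
      obtain ⟨k, b, hσ⟩ := (hLsub g.1).mp g.2
      rw [hσ, smul_zero, zero_add] at hg
      refine ⟨k, ?_⟩
      apply Subtype.ext
      rw [hψ']
      ext v
      rw [hψ, hσ, hg, add_zero]
    · rintro g ⟨k, rfl⟩
      rw [MulAction.mem_stabilizer_iff, hsmul, hψ', hψ, smul_zero]
  rw [hstab] at hfrob
  let e₀ : Lsub ≃ {i : ℕ // i < Nat.card Lsub} := (Finite.equivFin _).trans Fin.equivSubtype
  letI : Group {i : ℕ // i < Nat.card Lsub} := e₀.symm.group
  haveI : Finite {i : ℕ // i < Nat.card Lsub} := Finite.of_equiv _ e₀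
  let e : Lsub ≃* {i : ℕ // i < Nat.card Lsub} := (Equiv.mulEquiv e₀.symm).symm
  refine ⟨{i : ℕ // i < Nat.card Lsub}, inferInstance, inferInstance, ψ'.range.map e.toMonoidHom,
    frobComplement_map e _ hfrob, ⟨?_⟩⟩
  exact (MonoidHom.ofInjective hψ'inj).trans (e.subgroupMap ψ'.range)

end Cfsg.Agent.Lib.Helper7
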