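import Mathlib
import Cfsg.Prelude

set_option autoImplicit false

namespace Cfsg.Agent.Lib.Helper7

open Equiv

section
variable (n : ℕ) (F : Type*) [Field F]

/-- sum functional -/
noncomputable def apSum : (Fin (n + 1) → F) →ₗ[F] F :=
  { toFun := fun v => ∑ i, v i
    map_add' := fun v w => by simp [Finset.sum_add_distrib]
    map_smul' := fun c v => by simp [Finset.mul_sum] }

theorem ap_sum_apply (v : Fin (n + 1) → F) : apSum n F v = ∑ i, v i := rfl

/-- the permutation linear map -/
noncomputable def apPerm (σ : Perm (Fin (n + 1))) :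
    (Fin (n + 1) → F) →ₗ[F] (Fin (n + 1) → F) :=
  LinearMap.funLeft F F (σ⁻¹ : Perm (Fin (n + 1)))

theorem ap_perm_apply (σ : Perm (Fin (n + 1))) (v : Fin (n + 1) → F) (i : Fin (n + 1)) :
    apPerm n F σ v i = v (σ⁻¹ i) := rfl

theorem ap_perm_mem (σ : Perm (Fin (n + 1))) (w : Fin (n + 1) → F)
    (hw : w ∈ LinearMap.ker (apSum n F)) : apPerm n F σ w ∈ LinearMap.ker (apSum n F) := by
  rw [LinearMap.mem_ker, ap_sum_apply] at hw ⊢
  have e : ∑ i, apPerm n F σ w i = ∑ i, w i := Equiv.sum_comp (σ⁻¹ : Perm (Fin (n + 1))) w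
  rw [e]
  exact hw

/-- the representation on the sum-zero submodule -/
noncomputable def apRep : Perm (Fin (n + 1)) →* Module.End F (LinearMap.ker (apSum n F)) where
  toFun σ := (apPerm n F σ).restrict (fun w hw => ap_perm_mem n F σ w hw)
  map_one' := by
    apply LinearMap.ext
    intro w
    apply Subtype.ext
    funext i
    rfl
  map_mul' σ τ := by
    apply LinearMap.ext
    intro w
    apply Subtype.ext
    funext i
    rfl

theorem ap_rep_apply (σ : Perm (Fin (n + 1))) (w : LinearMap.ker (apSum n F))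
    (i : Fin (n + 1)) : ((apRep n F σ w : LinearMap.ker (apSum n F)) : Fin (n + 1) → F) i =
      (w : Fin (n + 1) → F) (σ⁻¹ i) := rfl

theorem ap_finrank : Module.finrank F (LinearMap.ker (apSum n F)) = n := by
  have h := LinearMap.finrank_range_add_finrank_ker (apSum n F)
  have hr : LinearMap.range (apSum n F) = ⊤ := by
    rw [LinearMap.range_eq_top]
    intro c
    refine ⟨Pi.single 0 c, ?_⟩
    rw [ap_sum_apply]
    simp
  rw [hr, finrank_top, Module.finrank_self, Module.finrank_fin_fun] at h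
  omega

noncomputable def apBasis : Module.Basis (Fin n) F (LinearMap.ker (apSum n F)) :=
  Module.finBasisOfFinrankEq F _ (ap_finrank n F)

noncomputable def apMat : Perm (Fin (n + 1)) →* Matrix (Fin n) (Fin n) F :=
  (MonoidHomClass.toMonoidHom (LinearMap.toMatrixAlgEquiv (apBasis n F))).comp (apRep n F)

theorem ap_det_three (c : Perm (Fin (n + 1))) (hc : c.IsThreeCycle) :
    Matrix.det (apMat n F c) = 1 := by
  have hD : ∀ σ τ : Perm (Fin (n + 1)), IsConj σ τ →
      Matrix.det (apMat n F σ) = Matrix.det (apMat n F τ) := by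
    intro σ τ h
    obtain ⟨g, rfl⟩ := isConj_iff.mp h
    have e : Matrix.det (apMat n F g) * Matrix.det (apMat n F g⁻¹) = 1 := by
      rw [← Matrix.det_mul, ← map_mul, mul_inv_cancel, map_one, Matrix.det_one]
    rw [map_mul, map_mul, Matrix.det_mul, Matrix.det_mul, mul_right_comm, e, one_mul]
  have h1 : Matrix.det (apMat n F c) = Matrix.det (apMat n F c⁻¹) :=
    hD c c⁻¹ (Equiv.Perm.isConj_iff_cycleType_eq.mpr (Equiv.Perm.cycleType_inv c).symm)
  have h2 : Matrix.det (apMat n F c) * Matrix.det (apMat n F c⁻¹) = 1 := by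
    rw [← Matrix.det_mul, ← map_mul, mul_inv_cancel, map_one, Matrix.det_one]
  have h3 : Matrix.det (apMat n F c) ^ 3 = 1 := by
    rw [← Matrix.det_pow, ← map_pow, ← hc.orderOf, pow_orderOf_eq_one, map_one, Matrix.det_one]
  rw [← h1] at h2
  calc Matrix.det (apMat n F c)
      = Matrix.det (apMat n F c) * (Matrix.det (apMat n F c) * Matrix.det (apMat n F c)) := by
        rw [h2, mul_one]
    _ = Matrix.det (apMat n F c) ^ 3 := by ring
    _ = 1 := h3

theorem ap_det_alt (σ : Perm (Fin (n + 1))) (hσ : σ ∈ alternatingGroup (Fin (n + 1))) :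
    Matrix.det (apMat n F σ) = 1 := by
  rw [← Equiv.Perm.closure_three_cycles_eq_alternating] at hσ
  refine Subgroup.closure_induction (p := fun σ _ => Matrix.det (apMat n F σ) = 1) ?_ ?_ ?_ ?_ hσ
  · intro c hc
    exact ap_det_three n F c hc
  · rw [map_one, Matrix.det_one]
  · intro x y _ _ hx hy
    rw [map_mul, Matrix.det_mul, hx, hy, mul_one]
  · intro x _ hx
    have e : Matrix.det (apMat n F x) * Matrix.det (apMat n F x⁻¹) = 1 := by
      rw [← Matrix.det_mul, ← map_mul, mul_inv_cancel, map_one, Matrix.det_one]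
    rw [hx, one_mul] at e
    exact e

noncomputable def apSL :
    alternatingGroup (Fin (n + 1)) →* Matrix.SpecialLinearGroup (Fin n) F where
  toFun σ := ⟨apMat n F σ.1, ap_det_alt n F σ.1 σ.2⟩
  map_one' := by
    apply Subtype.ext
    show apMat n F (1 : Perm (Fin (n + 1))) = 1
    exact map_one _
  map_mul' σ τ := by
    apply Subtype.ext
    show apMat n F (σ.1 * τ.1) = apMat n F σ.1 * apMat n F τ.1
    exact map_mul _ _ _

theorem ap_scalar (hn : 2 ≤ n) (σ : Perm (Fin (n + 1))) (r : F)
    (h : apMat n F σ = Matrix.scalar (Fin n) r) : σ = 1 := by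
  have h1 : apRep n F σ = r • (1 : Module.End F (LinearMap.ker (apSum n F))) := by
    apply (LinearMap.toMatrixAlgEquiv (apBasis n F)).injective
    have e : LinearMap.toMatrixAlgEquiv (apBasis n F) (apRep n F σ) = apMat n F σ := rfl
    rw [e, h, map_smul, map_one]
    ext i j
    simp [Matrix.scalar_apply, Matrix.diagonal_apply, Matrix.one_apply]
  have h2 : ∀ w : Fin (n + 1) → F, (∑ i, w i = 0) → ∀ i, w (σ⁻¹ i) = r * w i := by
    intro w hw i
    have hwm : w ∈ LinearMap.ker (apSum n F) := by
      rw [LinearMap.mem_ker, ap_sum_apply]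
      exact hw
    have e := congrArg (fun f : Module.End F (LinearMap.ker (apSum n F)) =>
      ((f ⟨w, hwm⟩ : LinearMap.ker (apSum n F)) : Fin (n + 1) → F) i) h1
    simpa [ap_rep_apply] using e
  ext i
  by_contra hne
  have hne' : σ i ≠ i := fun h => hne (by rw [h]; rfl)
  obtain ⟨j, hji, hjs⟩ : ∃ j : Fin (n + 1), j ≠ i ∧ j ≠ σ i := by
    by_contra hcon
    push_neg at hcon
    have hsub : (Finset.univ : Finset (Fin (n + 1))) ⊆ {i, σ i} := by
      intro j _
      by_cases hj : j = i
      · simp [hj]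
      · simp [hcon j hj]
    have hc1 := Finset.card_le_card hsub
    have hc2 := Finset.card_le_two (a := i) (b := σ i)
    rw [Finset.card_univ, Fintype.card_fin] at hc1
    omega
  have hw := h2 (Pi.single i 1 - Pi.single j 1) (by simp [Finset.sum_sub_distrib]) (σ i)
  simp [Pi.single_apply, hji, hjs, hne', Ne.symm hji, Ne.symm hjs] at hw

end

theorem ap_main (n : ℕ) (hn : 5 ≤ n) (F : Type*) [Field F] [Finite F] :
    ∃ f : alternatingGroup (Fin (n + 1)) →* Matrix.ProjectiveSpecialLinearGroup (Fin n) F,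
      Function.Injective f := by
  refine ⟨(QuotientGroup.mk' _).comp (apSL n F), ?_⟩
  rw [injective_iff_map_eq_one]
  intro σ hσ
  have h1 : apSL n F σ ∈ Subgroup.center (Matrix.SpecialLinearGroup (Fin n) F) :=
    (QuotientGroup.eq_one_iff _).mp hσ
  obtain ⟨r, _, hr⟩ := Matrix.SpecialLinearGroup.mem_center_iff.mp h1
  have h2 : apMat n F σ.1 = Matrix.scalar (Fin n) r := hr.symm
  have h3 := ap_scalar n F (by omega) σ.1 r h2
  exact Subtype.ext h3

end Cfsg.Agent.Lib.Helper7
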