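import Mathlib
import Cfsg.Prelude

set_option autoImplicit false

namespace Cfsg.Agent.Lib.Helper7

/-- interval complement lemma -/
theorem cl_interval {G : Type*} [Group G] [Finite G] (T X M : Subgroup G)
    (hTX : T ≤ X)
    (hint : ∀ Y : Subgroup G, T ≤ Y → Y ≤ X →
      ∃ C : Subgroup G, T ≤ C ∧ C ≤ X ∧ Y ⊔ C = X ∧ Y ⊓ C = T)
    (huniq : ∀ M' : Subgroup G, IsCoatom M' → X ≤ M' → M' = M)
    (H : Subgroup G) (hH : ¬ H ≤ M) (hHT : H ⊓ T = ⊥) :
    ∃ C : Subgroup G, H ⊔ C = ⊤ ∧ H ⊓ C = ⊥ := by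
  obtain ⟨C, hTC, hCX, hsup, hinf⟩ := hint ((H ⊓ X) ⊔ T) le_sup_right (sup_le inf_le_right hTX)
  refine ⟨C, ?_, ?_⟩
  · have hXle : X ≤ H ⊔ C := by
      rw [← hsup]
      apply sup_le
      · apply sup_le
        · exact le_trans inf_le_left le_sup_left
        · exact le_trans hTC le_sup_right
      · exact le_sup_right
    rcases eq_top_or_exists_le_coatom (H ⊔ C) with h | ⟨M', hM', hle⟩
    · exact h
    · exfalso
      have := huniq M' hM' (le_trans hXle hle)
      rw [this] at hle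
      exact hH (le_trans le_sup_left hle)
  · rw [eq_bot_iff, ← hHT]
    apply le_inf inf_le_left
    have h1 : H ⊓ C ≤ ((H ⊓ X) ⊔ T) ⊓ C := by
      apply le_inf
      · exact le_trans (le_inf inf_le_left (le_trans inf_le_right hCX)) le_sup_left
      · exact inf_le_right
    rw [hinf] at h1
    exact h1

/-- the interval above `N` in `X` is complemented when `X/N` is -/
theorem cl_hint {G : Type*} [Group G] (X N : Subgroup G) (hNX : N ≤ X)
    [(N.subgroupOf X).Normal] (hK : ComplementedLattice (Subgroup (X ⧸ N.subgroupOf X))) :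
    ∀ Y : Subgroup G, N ≤ Y → Y ≤ X →
      ∃ C : Subgroup G, N ≤ C ∧ C ≤ X ∧ Y ⊔ C = X ∧ Y ⊓ C = N := by
  intro Y hNY hYX
  obtain ⟨π, hsurj, hker⟩ : ∃ π : X →* X ⧸ N.subgroupOf X, Function.Surjective π ∧
      π.ker = N.subgroupOf X :=
    ⟨QuotientGroup.mk' (N.subgroupOf X), QuotientGroup.mk'_surjective _,
      QuotientGroup.ker_mk' _⟩
  obtain ⟨Cb, hCb⟩ := hK.exists_isCompl ((Y.subgroupOf X).map π)
  have hY' : ((Y.subgroupOf X).map π).comap π = Y.subgroupOf X := by
    rw [Subgroup.comap_map_eq, hker]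
    exact sup_eq_left.mpr (Subgroup.comap_mono hNY)
  have hsup : Y.subgroupOf X ⊔ Cb.comap π = ⊤ := by
    rw [← hY', Subgroup.comap_sup_eq _ _ _ hsurj, hCb.sup_eq_top, Subgroup.comap_top]
  have hinf : Y.subgroupOf X ⊓ Cb.comap π = N.subgroupOf X := by
    rw [← hY', ← Subgroup.comap_inf, hCb.inf_eq_bot]
    exact (MonoidHom.comap_bot π).trans hker
  refine ⟨(Cb.comap π).map X.subtype, ?_, Subgroup.map_subtype_le _, ?_, ?_⟩
  · have h1 : (N.subgroupOf X).map X.subtype ≤ (Cb.comap π).map X.subtype := by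
      apply Subgroup.map_mono
      have h0 := Subgroup.ker_le_comap π Cb
      rw [hker] at h0
      exact h0
    rw [Subgroup.map_subgroupOf_eq_of_le hNX] at h1
    exact h1
  · have h1 : Y ⊔ (Cb.comap π).map X.subtype =
        (Y.subgroupOf X ⊔ Cb.comap π).map X.subtype := by
      rw [Subgroup.map_sup, Subgroup.map_subgroupOf_eq_of_le hYX]
    rw [h1, hsup, ← MonoidHom.range_eq_map, Subgroup.range_subtype]
  · have h1 : Y ⊓ (Cb.comap π).map X.subtype =
        (Y.subgroupOf X ⊓ Cb.comap π).map X.subtype := by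
      rw [Subgroup.map_inf_eq _ _ _ (Subgroup.subtype_injective X),
        Subgroup.map_subgroupOf_eq_of_le hYX]
    rw [h1, hinf, Subgroup.map_subgroupOf_eq_of_le hNX]

/-- the key conjugate -/
theorem cl_key {G : Type*} [Group G] [Finite G] [IsSimpleGroup G] (M N : Subgroup G)
    (hN : (Nat.card N).Prime) (hcen : ∀ n ∈ N, ∀ m ∈ M, m * n = n * m)
    (H : Subgroup G) (hHb : H ≠ ⊥) (hHt : H ≠ ⊤) :
    ∃ g : G, (∃ n ∈ N, g * n * g⁻¹ ∉ H) ∧ (∃ h ∈ H, g⁻¹ * h * g ∉ M) := by
  by_contra hcon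
  push_neg at hcon
  have htype : ∀ g : G, (∀ n ∈ N, g * n * g⁻¹ ∈ H) ∨
      (∀ n ∈ N, ∀ h ∈ H, (g * n * g⁻¹) * h = h * (g * n * g⁻¹)) := by
    intro g
    by_cases h1 : ∀ n ∈ N, g * n * g⁻¹ ∈ H
    · exact Or.inl h1
    · right
      push_neg at h1
      obtain ⟨n1, hn1, hn1H⟩ := h1
      have h2 := hcon g ⟨n1, hn1, hn1H⟩
      intro n hn h hh
      have h3 := hcen n hn _ (h2 h hh)
      calc g * n * g⁻¹ * h = g * (n * (g⁻¹ * h * g)) * g⁻¹ := by group
        _ = g * ((g⁻¹ * h * g) * n) * g⁻¹ := by rw [h3]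
        _ = h * (g * n * g⁻¹) := by group
  obtain ⟨n0, hn0, hn01⟩ : ∃ n ∈ N, n ≠ 1 := by
    have hnt : Nontrivial N := Finite.one_lt_card_iff_nontrivial.mp hN.one_lt
    obtain ⟨⟨x, hx⟩, hx1⟩ := exists_ne (1 : N)
    exact ⟨x, hx, fun h => hx1 (Subtype.ext h)⟩
  have hnc : Subgroup.normalClosure (N : Set G) = ⊤ := by
    rcases (Subgroup.normalClosure_normal (s := (N : Set G))).eq_bot_or_eq_top with h | h
    · exfalso
      have hmem : n0 ∈ Subgroup.normalClosure (N : Set G) := Subgroup.subset_normalClosure hn0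
      rw [h] at hmem
      exact hn01 (Subgroup.mem_bot.mp hmem)
    · exact h
  obtain ⟨S, hS⟩ : ∃ S : Set G, S = {x | ∃ g n, n ∈ N ∧ (∀ n' ∈ N, g * n' * g⁻¹ ∈ H) ∧
      x = g * n * g⁻¹} := ⟨_, rfl⟩
  have hAH : Subgroup.closure S ≤ H := by
    rw [Subgroup.closure_le, hS]
    rintro x ⟨g, n, hn, hg, rfl⟩
    exact hg n hn
  have hstep : ∀ (g' n' : G), n' ∈ N → ∀ a ∈ Subgroup.closure S,
      (g' * n' * g'⁻¹) * a * (g' * n' * g'⁻¹)⁻¹ ∈ Subgroup.closure S := by
    intro g' n' hn' a ha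
    rcases htype g' with h1 | h2
    · have hs : g' * n' * g'⁻¹ ∈ H := h1 n' hn'
      have hle : (Subgroup.closure S).map (MulAut.conj (g' * n' * g'⁻¹)).toMonoidHom ≤
          Subgroup.closure S := by
        rw [MonoidHom.map_closure, Subgroup.closure_le]
        rintro _ ⟨x, hx, rfl⟩
        rw [hS] at hx
        obtain ⟨g, n, hn, hg, rfl⟩ := hx
        apply Subgroup.subset_closure
        rw [hS]
        refine ⟨g' * n' * g'⁻¹ * g, n, hn, ?_, ?_⟩
        · intro n2 hn2
          have e : g' * n' * g'⁻¹ * g * n2 * (g' * n' * g'⁻¹ * g)⁻¹ =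
              (g' * n' * g'⁻¹) * (g * n2 * g⁻¹) * (g' * n' * g'⁻¹)⁻¹ := by group
          rw [e]
          exact H.mul_mem (H.mul_mem hs (hg n2 hn2)) (H.inv_mem hs)
        · show (g' * n' * g'⁻¹) * (g * n * g⁻¹) * (g' * n' * g'⁻¹)⁻¹ = _
          group
      exact hle (Subgroup.mem_map_of_mem _ ha)
    · have hc := h2 n' hn' a (hAH ha)
      rw [hc, mul_inv_cancel_right]
      exact ha
  have hconj : ∀ x : G, x ∈ Subgroup.normalClosure (N : Set G) → ∀ a ∈ Subgroup.closure S,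
      x * a * x⁻¹ ∈ Subgroup.closure S ∧ x⁻¹ * a * x ∈ Subgroup.closure S := by
    intro x hx
    refine Subgroup.closure_induction (p := fun x _ => ∀ a ∈ Subgroup.closure S,
      x * a * x⁻¹ ∈ Subgroup.closure S ∧ x⁻¹ * a * x ∈ Subgroup.closure S) ?_ ?_ ?_ ?_ hx
    · intro y hy a ha
      obtain ⟨n', hn', hc⟩ := Group.mem_conjugatesOfSet_iff.mp hy
      obtain ⟨g', rfl⟩ := isConj_iff.mp hc
      refine ⟨hstep g' n' hn' a ha, ?_⟩
      have h2 := hstep g' n'⁻¹ (N.inv_mem hn') a ha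
      have e : (g' * n' * g'⁻¹)⁻¹ * a * (g' * n' * g'⁻¹) =
          (g' * n'⁻¹ * g'⁻¹) * a * (g' * n'⁻¹ * g'⁻¹)⁻¹ := by group
      rw [e]
      exact h2
    · intro a ha
      simpa using ha
    · intro y z _ _ hy hz a ha
      constructor
      · have e : y * z * a * (y * z)⁻¹ = y * (z * a * z⁻¹) * y⁻¹ := by group
        rw [e]
        exact (hy _ (hz a ha).1).1
      · have e : (y * z)⁻¹ * a * (y * z) = z⁻¹ * (y⁻¹ * a * y) * z := by group
        rw [e]
        exact (hz _ (hy a ha).2).2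
    · intro y _ hy a ha
      constructor
      · rw [inv_inv]
        exact (hy a ha).2
      · rw [inv_inv]
        exact (hy a ha).1
  have hAn : (Subgroup.closure S).Normal :=
    ⟨fun a ha x => (hconj x (by rw [hnc]; exact Subgroup.mem_top x) a ha).1⟩
  rcases hAn.eq_bot_or_eq_top with hA | hA
  · have hno : ∀ g : G, ¬ (∀ n ∈ N, g * n * g⁻¹ ∈ H) := by
      intro g hg
      have hmem : g * n0 * g⁻¹ ∈ Subgroup.closure S := by
        apply Subgroup.subset_closure
        rw [hS]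
        exact ⟨g, n0, hn0, hg, rfl⟩
      rw [hA, Subgroup.mem_bot] at hmem
      apply hn01
      have h2 := congrArg (fun z => g⁻¹ * z * g) hmem
      simpa [mul_assoc] using h2
    have hII : ∀ g : G, ∀ n ∈ N, ∀ h ∈ H, (g * n * g⁻¹) * h = h * (g * n * g⁻¹) := by
      intro g
      rcases htype g with h1 | h2
      · exact absurd h1 (hno g)
      · exact h2
    have hcent : ∀ x : G, x ∈ Subgroup.normalClosure (N : Set G) → ∀ h ∈ H, x * h = h * x := by
      intro x hx
      refine Subgroup.closure_induction (p := fun x _ => ∀ h ∈ H, x * h = h * x) ?_ ?_ ?_ ?_ hx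
      · intro y hy h hh
        obtain ⟨n', hn', hc⟩ := Group.mem_conjugatesOfSet_iff.mp hy
        obtain ⟨g', rfl⟩ := isConj_iff.mp hc
        exact hII g' n' hn' h hh
      · intro h _
        rw [one_mul, mul_one]
      · intro y z _ _ hy hz h hh
        rw [mul_assoc, hz h hh, ← mul_assoc, hy h hh, mul_assoc]
      · intro y _ hy h hh
        have e := hy h hh
        calc y⁻¹ * h = y⁻¹ * (h * y) * y⁻¹ := by group
          _ = y⁻¹ * (y * h) * y⁻¹ := by rw [e]
          _ = h * y⁻¹ := by group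
    have hHn : H.Normal := by
      refine ⟨fun h hh x => ?_⟩
      have e := hcent x (by rw [hnc]; exact Subgroup.mem_top x) h hh
      rw [e, mul_inv_cancel_right]
      exact hh
    rcases hHn.eq_bot_or_eq_top with h | h
    · exact hHb h
    · exact hHt h
  · apply hHt
    rw [eq_top_iff, ← hA]
    exact hAH

theorem cl_main {G : Type*} [Group G] [Finite G] [IsSimpleGroup G] (X M N : Subgroup G)
    (hM : IsCoatom M) (hXM : X ≤ M) (huniq : ∀ M' : Subgroup G, IsCoatom M' → X ≤ M' → M' = M)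
    (hNX : N ≤ X) (hN : (Nat.card N).Prime) (hcen : ∀ n ∈ N, ∀ m ∈ M, m * n = n * m)
    [(N.subgroupOf X).Normal] (hK : ComplementedLattice (Subgroup (X ⧸ N.subgroupOf X))) :
    ComplementedLattice (Subgroup G) := by
  have hint := cl_hint X N hNX hK
  constructor
  intro H
  by_cases hHb : H = ⊥
  · exact ⟨⊤, by rw [hHb]; exact isCompl_bot_top⟩
  by_cases hHt : H = ⊤
  · exact ⟨⊥, by rw [hHt]; exact isCompl_top_bot⟩
  obtain ⟨g, ⟨n, hn, hnH⟩, ⟨h, hh, hhM⟩⟩ := cl_key M N hN hcen H hHb hHt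
  have hφs : Function.Surjective (MulAut.conj g).toMonoidHom := (MulAut.conj g).surjective
  have hφi : Function.Injective (MulAut.conj g).toMonoidHom := (MulAut.conj g).injective
  have hH'M : ¬ H.comap (MulAut.conj g).toMonoidHom ≤ M := by
    intro hle
    apply hhM
    apply hle
    show g * (g⁻¹ * h * g) * g⁻¹ ∈ H
    have e : g * (g⁻¹ * h * g) * g⁻¹ = h := by group
    rw [e]
    exact hh
  have hH'N : H.comap (MulAut.conj g).toMonoidHom ⊓ N = ⊥ := by
    rw [eq_bot_iff]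
    rintro x ⟨hx1, hx2⟩
    rw [Subgroup.mem_bot]
    by_contra hx
    have hzp : Subgroup.zpowers x = N := by
      apply Subgroup.eq_of_le_of_card_ge (Subgroup.zpowers_le.mpr hx2)
      rw [Nat.card_zpowers]
      have hdvd : orderOf x ∣ Nat.card N := by
        have h1 := orderOf_dvd_natCard (⟨x, hx2⟩ : N)
        rwa [Subgroup.orderOf_mk] at h1
      rcases (Nat.dvd_prime hN).mp hdvd with h1 | h1
      · exact absurd (orderOf_eq_one_iff.mp h1) hx
      · rw [h1]
    have hmem : n ∈ H.comap (MulAut.conj g).toMonoidHom := by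
      have h1 : n ∈ Subgroup.zpowers x := by
        rw [hzp]
        exact hn
      exact (Subgroup.zpowers_le.mpr hx1) h1
    exact hnH hmem
  obtain ⟨C', hsup, hinf⟩ := cl_interval N X M hNX hint huniq _ hH'M hH'N
  refine ⟨C'.map (MulAut.conj g).toMonoidHom, ?_⟩
  have hHe : (H.comap (MulAut.conj g).toMonoidHom).map (MulAut.conj g).toMonoidHom = H :=
    Subgroup.map_comap_eq_self_of_surjective hφs H
  rw [isCompl_iff, disjoint_iff, codisjoint_iff]
  constructor
  · rw [← hHe, ← Subgroup.map_inf_eq _ _ _ hφi, hinf, Subgroup.map_bot]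
  · rw [← hHe, ← Subgroup.map_sup, hsup, Subgroup.map_top_of_surjective _ hφs]

end Cfsg.Agent.Lib.Helper7
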