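import Mathlib
import Cfsg.Agent.Lib.Helper7.Coprime2

set_option autoImplicit false

namespace Cfsg.Agent.Lib.Helper7

open scoped commutatorElement

section
variable {G A : Type*} [Group G] [Group A] [MulDistribMulAction A G]

/-- Coprime action (external form): `G = [G,A] C_G(A)` elementwise. -/
theorem ext_exists_mul_fixed [Finite G] [Finite A] (hcop : (Nat.card A).Coprime (Nat.card G))
    (hsolv : Group.IsSolvable A ∨ Group.IsSolvable G) (g : G) :
    ∃ x ∈ Subgroup.closure {y : G | ∃ (a : A) (h : G), y = h⁻¹ * a • h},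
      ∃ c ∈ MulAction.fixedPoints A G, g = x * c := by
  classical
  obtain ⟨φ, hφ⟩ : ∃ φ : A →* MulAut G, ∀ a g, φ a g = a • g :=
    ⟨MulDistribMulAction.toMulAut A G, fun a g => rfl⟩
  haveI : Finite (G ⋊[φ] A) := Finite.of_equiv _ SemidirectProduct.equivProd.symm
  obtain ⟨G₀, hG₀⟩ : ∃ G₀ : Subgroup (G ⋊[φ] A), G₀ = (SemidirectProduct.inl : G →* G ⋊[φ] A).range :=
    ⟨_, rfl⟩
  obtain ⟨A₀, hA₀⟩ : ∃ A₀ : Subgroup (G ⋊[φ] A), A₀ = (SemidirectProduct.inr : A →* G ⋊[φ] A).range :=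
    ⟨_, rfl⟩
  have hG₀mem : ∀ x, x ∈ G₀ ↔ ∃ g : G, SemidirectProduct.inl g = x := by
    intro x; rw [hG₀]; exact MonoidHom.mem_range
  have hA₀mem : ∀ x, x ∈ A₀ ↔ ∃ a : A, SemidirectProduct.inr a = x := by
    intro x; rw [hA₀]; exact MonoidHom.mem_range
  have hG₀n : G₀.Normal := by
    rw [hG₀, SemidirectProduct.range_inl_eq_ker_rightHom]
    exact MonoidHom.normal_ker _
  have hAK : A₀ ≤ Subgroup.normalizer (G₀ : Set (G ⋊[φ] A)) := by
    intro x _
    rw [Subgroup.mem_normalizer_iff]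
    intro h
    constructor
    · intro hh
      exact hG₀n.conj_mem h hh x
    · intro hh
      have h1 := hG₀n.conj_mem _ hh x⁻¹
      have h2 : x⁻¹ * (x * h * x⁻¹) * x⁻¹⁻¹ = h := by group
      rwa [h2] at h1
  have hcG : Nat.card G₀ = Nat.card G := by
    rw [hG₀]
    exact (Nat.card_congr (MonoidHom.ofInjective SemidirectProduct.inl_injective).toEquiv).symm
  have hcA : Nat.card A₀ = Nat.card A := by
    rw [hA₀]
    exact (Nat.card_congr (MonoidHom.ofInjective SemidirectProduct.inr_injective).toEquiv).symm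
  have hcop' : (Nat.card A₀).Coprime (Nat.card G₀) := by
    rw [hcG, hcA]; exact hcop
  have hsolv' : Group.IsSolvable A₀ ∨ Group.IsSolvable G₀ := by
    rcases hsolv with h | h
    · left
      rw [hA₀]
      exact Group.isSolvable_of_surjective
        (f := (SemidirectProduct.inr : A →* G ⋊[φ] A).rangeRestrict)
        (MonoidHom.rangeRestrict_surjective _)
    · right
      rw [hG₀]
      exact Group.isSolvable_of_surjective
        (f := (SemidirectProduct.inl : G →* G ⋊[φ] A).rangeRestrict)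
        (MonoidHom.rangeRestrict_surjective _)
  obtain ⟨x, hx, c, hc, hxc⟩ := exists_commutator_mul_centralizer A₀ G₀ hAK hcop' hsolv'
    (SemidirectProduct.inl g) ((hG₀mem _).mpr ⟨g, rfl⟩)
  have hcomm : ⁅G₀, A₀⁆ ≤ (Subgroup.closure {y : G | ∃ (a : A) (h : G), y = h⁻¹ * a • h}).map
      (SemidirectProduct.inl : G →* G ⋊[φ] A) := by
    rw [Subgroup.commutator_le]
    intro u hu v hv
    obtain ⟨h, rfl⟩ := (hG₀mem u).mp hu
    obtain ⟨a, rfl⟩ := (hA₀mem v).mp hv
    refine ⟨h * a • h⁻¹, Subgroup.subset_closure ⟨a, h⁻¹, by rw [inv_inv]⟩, ?_⟩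
    rw [commutatorElement_def, map_mul]
    have h1 := SemidirectProduct.inl_aut (φ := φ) a h⁻¹
    rw [hφ] at h1
    rw [h1, map_inv, map_inv]
    group
  obtain ⟨x', hx', rfl⟩ := hcomm hx
  obtain ⟨hcG₀, hcC⟩ := Subgroup.mem_inf.mp hc
  obtain ⟨c', rfl⟩ := (hG₀mem c).mp hcG₀
  refine ⟨x', hx', c', ?_, ?_⟩
  · intro a
    have h1 := Subgroup.mem_centralizer_iff.mp hcC (SemidirectProduct.inr a) ((hA₀mem _).mpr ⟨a, rfl⟩)
    have h2 := SemidirectProduct.inl_aut (φ := φ) a c'
    rw [hφ, h1, map_inv, mul_inv_cancel_right] at h2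
    exact SemidirectProduct.inl_injective h2
  · apply SemidirectProduct.inl_injective (φ := φ)
    rw [map_mul]; exact hxc

end

end Cfsg.Agent.Lib.Helper7
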