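import Mathlib
import Cfsg.Prelude

set_option autoImplicit false

namespace Cfsg.Agent.Lib.Helper7

section
variable {ι : Type*} [Fintype ι] [DecidableEq ι]

theorem g24_norm_eq (u : ι → ZMod 2) : hammingNorm u = (Cfsg.support₂ u).card := by
  unfold hammingNorm Cfsg.support₂
  congr

theorem g24_mem_supp (u : ι → ZMod 2) (i : ι) : i ∈ Cfsg.support₂ u ↔ u i ≠ 0 := by
  simp [Cfsg.support₂]

theorem g24_sub_ne (a b : ZMod 2) : a - b ≠ 0 ↔ (a ≠ 0 ↔ ¬ b ≠ 0) := by
  revert a b; decide

theorem g24_supp_sub (u v : ι → ZMod 2) : Cfsg.support₂ (u - v) =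
    (Cfsg.support₂ u \ Cfsg.support₂ v) ∪ (Cfsg.support₂ v \ Cfsg.support₂ u) := by
  ext i
  simp only [g24_mem_supp, Finset.mem_union, Finset.mem_sdiff, Pi.sub_apply, g24_sub_ne]
  tauto

theorem g24_norm_sub (u v : ι → ZMod 2) :
    hammingNorm (u - v) + 2 * (Cfsg.support₂ u ∩ Cfsg.support₂ v).card =
      hammingNorm u + hammingNorm v := by
  rw [g24_norm_eq, g24_norm_eq, g24_norm_eq, g24_supp_sub, Finset.card_union_of_disjoint]
  · have h1 := Finset.card_sdiff_add_card_inter (Cfsg.support₂ u) (Cfsg.support₂ v)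
    have h2 := Finset.card_sdiff_add_card_inter (Cfsg.support₂ v) (Cfsg.support₂ u)
    rw [Finset.inter_comm] at h2
    omega
  · exact disjoint_sdiff_sdiff

/-- indicator word of a set -/
def g24Ind (s : Finset ι) : ι → ZMod 2 := fun i => if i ∈ s then 1 else 0

theorem g24_supp_ind (s : Finset ι) : Cfsg.support₂ (g24Ind s) = s := by
  ext i
  simp [g24_mem_supp, g24Ind]

theorem g24_ind_supp (u : ι → ZMod 2) : g24Ind (Cfsg.support₂ u) = u := by
  funext i
  have key : ∀ a : ZMod 2, (if a ≠ 0 then (1 : ZMod 2) else 0) = a := by decide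
  simp only [g24Ind, g24_mem_supp]
  exact key (u i)

theorem g24_card_weight (k : ℕ) :
    ((Finset.univ : Finset (ι → ZMod 2)).filter (fun u => hammingNorm u = k)).card =
      (Fintype.card ι).choose k := by
  rw [← Finset.card_univ (α := ι), ← Finset.card_powersetCard]
  apply Finset.card_nbij' (fun u => Cfsg.support₂ u) (fun s => g24Ind s)
  · intro u hu
    simp only [Finset.coe_filter, Finset.mem_univ, true_and, Set.mem_setOf_eq] at hu
    simp only [Finset.mem_coe, Finset.mem_powersetCard]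
    exact ⟨Finset.subset_univ _, by rw [← g24_norm_eq]; exact hu⟩
  · intro s hs
    simp only [Finset.mem_coe, Finset.mem_powersetCard] at hs
    simp only [Finset.coe_filter, Finset.mem_univ, true_and, Set.mem_setOf_eq]
    rw [g24_norm_eq, g24_supp_ind]; exact hs.2
  · intro u _; exact g24_ind_supp u
  · intro s _; exact g24_supp_ind s

theorem g24_double_count {V : Type*} [AddCommGroup V] [Fintype V] [DecidableEq V]
    (p : V → Prop) [DecidablePred p] (S : Finset V) :
    ∑ w : V, (S.filter (fun u => p (u - w))).card =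
      S.card * (Finset.univ.filter (fun c => p c)).card := by
  simp_rw [Finset.card_filter]
  rw [Finset.sum_comm, Finset.card_eq_sum_ones, Finset.sum_mul]
  apply Finset.sum_congr rfl
  intro u _
  rw [one_mul, ← Finset.card_filter, ← Finset.card_filter]
  apply Finset.card_nbij' (fun w => u - w) (fun c => u - c)
  · intro w hw
    simp only [Finset.coe_filter, Finset.mem_univ, true_and, Set.mem_setOf_eq] at hw ⊢
    exact hw
  · intro c hc
    simp only [Finset.coe_filter, Finset.mem_univ, true_and, Set.mem_setOf_eq] at hc ⊢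
    rw [sub_sub_cancel]; exact hc
  · intro w _; simp
  · intro c _; simp

end

section golay

theorem g24_card_le3 :
    ((Finset.univ : Finset (Fin 24 → ZMod 2)).filter (fun u => hammingNorm u ≤ 3)).card = 2325 := by
  have e : (Finset.univ.filter (fun u : Fin 24 → ZMod 2 => hammingNorm u ≤ 3)) =
      (Finset.range 4).biUnion (fun k => Finset.univ.filter (fun u => hammingNorm u = k)) := by
    ext u
    simp only [Finset.mem_filter, Finset.mem_univ, true_and, Finset.mem_biUnion, Finset.mem_range]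
    constructor
    · intro h; exact ⟨hammingNorm u, by omega, rfl⟩
    · rintro ⟨k, hk, rfl⟩; omega
  rw [e, Finset.card_biUnion]
  · simp_rw [g24_card_weight]
    simp only [Fintype.card_fin, Finset.sum_range_succ, Finset.sum_range_zero]
    rfl
  · intro k _ k' _ hne
    show Disjoint (Finset.univ.filter (fun u : Fin 24 → ZMod 2 => hammingNorm u = k))
      (Finset.univ.filter (fun u : Fin 24 → ZMod 2 => hammingNorm u = k'))
    rw [Finset.disjoint_filter]
    intro u _ h1 h2
    exact hne (h1.symm.trans h2)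

theorem g24_card_eq4 :
    ((Finset.univ : Finset (Fin 24 → ZMod 2)).filter (fun u => hammingNorm u = 4)).card = 10626 := by
  rw [g24_card_weight, Fintype.card_fin]; rfl

/-- An abstract extended binary Golay code. -/
structure G24Hyp (C : Submodule (ZMod 2) (Fin 24 → ZMod 2)) : Prop where
  dim : Module.finrank (ZMod 2) C = 12
  orth : ∀ v ∈ C, ∀ w ∈ C, ∑ i, v i * w i = 0
  min : ∀ w ∈ C, w ≠ 0 → 8 ≤ hammingNorm w

variable {C : Submodule (ZMod 2) (Fin 24 → ZMod 2)}

theorem G24Hyp.card (h : G24Hyp C) [DecidablePred (fun c => c ∈ C)] :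
    (Finset.univ.filter (fun c : Fin 24 → ZMod 2 => c ∈ C)).card = 4096 := by
  have h1 := Module.natCard_eq_pow_finrank (K := ZMod 2) (V := C)
  rw [h.dim, Nat.card_eq_fintype_card (α := ZMod 2), ZMod.card] at h1
  rw [← Fintype.card_subtype, ← Nat.card_eq_fintype_card]
  exact h1

theorem G24Hyp.dist (h : G24Hyp C) {w u u' : Fin 24 → ZMod 2} (hu : u - w ∈ C)
    (hu' : u' - w ∈ C) (hne : u ≠ u') :
    8 + 2 * (Cfsg.support₂ u ∩ Cfsg.support₂ u').card ≤ hammingNorm u + hammingNorm u' := by
  have h1 : u - u' ∈ C := by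
    have := C.sub_mem hu hu'
    rwa [sub_sub_sub_cancel_right] at this
  have h2 := h.min _ h1 (sub_ne_zero.mpr hne)
  have h3 := g24_norm_sub u u'
  omega

/-- Structure of the cosets of an abstract Golay code. -/
theorem G24Hyp.coset (h : G24Hyp C) [DecidablePred (fun c => c ∈ C)] (w : Fin 24 → ZMod 2) :
    ((Finset.univ.filter (fun u : Fin 24 → ZMod 2 => hammingNorm u ≤ 3 ∧ u - w ∈ C)).card = 1 ∧
      (Finset.univ.filter (fun u : Fin 24 → ZMod 2 => hammingNorm u = 4 ∧ u - w ∈ C)).card = 0) ∨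
    ((Finset.univ.filter (fun u : Fin 24 → ZMod 2 => hammingNorm u ≤ 3 ∧ u - w ∈ C)).card = 0 ∧
      (Finset.univ.filter (fun u : Fin 24 → ZMod 2 => hammingNorm u = 4 ∧ u - w ∈ C)).card = 6) := by
  have hA1 : ∀ w : Fin 24 → ZMod 2,
      (Finset.univ.filter (fun u : Fin 24 → ZMod 2 => hammingNorm u ≤ 3 ∧ u - w ∈ C)).card ≤ 1 := by
    intro w
    rw [Finset.card_le_one]
    intro u hu u' hu'
    simp only [Finset.mem_filter, Finset.mem_univ, true_and] at hu hu'
    by_contra hne
    have := h.dist hu.2 hu'.2 hne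
    omega
  have hA2 : ∀ w : Fin 24 → ZMod 2,
      (Finset.univ.filter (fun u : Fin 24 → ZMod 2 => hammingNorm u ≤ 3 ∧ u - w ∈ C)).card = 1 →
      (Finset.univ.filter (fun u : Fin 24 → ZMod 2 => hammingNorm u = 4 ∧ u - w ∈ C)).card = 0 := by
    intro w h1
    have hpos : 0 < (Finset.univ.filter
        (fun u : Fin 24 → ZMod 2 => hammingNorm u ≤ 3 ∧ u - w ∈ C)).card := by omega
    obtain ⟨u, hu⟩ := Finset.card_pos.mp hpos
    rw [Finset.card_eq_zero, Finset.eq_empty_iff_forall_notMem]
    intro u' hu'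
    simp only [Finset.mem_filter, Finset.mem_univ, true_and] at hu hu'
    have hne : u ≠ u' := by rintro rfl; omega
    have := h.dist hu.2 hu'.2 hne
    omega
  have hT : ∀ w : Fin 24 → ZMod 2,
      (Finset.univ.filter (fun u : Fin 24 → ZMod 2 => hammingNorm u = 4 ∧ u - w ∈ C)).card ≤ 6 := by
    intro w
    have hd : ((Finset.univ.filter (fun u : Fin 24 → ZMod 2 => hammingNorm u = 4 ∧ u - w ∈ C)).biUnion
        Cfsg.support₂).card = ∑ u ∈ Finset.univ.filter
          (fun u : Fin 24 → ZMod 2 => hammingNorm u = 4 ∧ u - w ∈ C), (Cfsg.support₂ u).card := by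
      apply Finset.card_biUnion
      intro u hu u' hu' hne
      have hu := Finset.mem_coe.mp hu
      have hu' := Finset.mem_coe.mp hu'
      simp only [Finset.mem_filter, Finset.mem_univ, true_and] at hu hu'
      have := h.dist hu.2 hu'.2 hne
      show Disjoint (Cfsg.support₂ u) (Cfsg.support₂ u')
      rw [Finset.disjoint_iff_inter_eq_empty, ← Finset.card_eq_zero]
      omega
    have h4 : ∀ u ∈ Finset.univ.filter
        (fun u : Fin 24 → ZMod 2 => hammingNorm u = 4 ∧ u - w ∈ C), (Cfsg.support₂ u).card = 4 := by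
      intro u hu
      simp only [Finset.mem_filter, Finset.mem_univ, true_and] at hu
      rw [← g24_norm_eq]; exact hu.1
    rw [Finset.sum_congr rfl h4, Finset.sum_const, smul_eq_mul] at hd
    have hle := Finset.card_le_univ ((Finset.univ.filter
      (fun u : Fin 24 → ZMod 2 => hammingNorm u = 4 ∧ u - w ∈ C)).biUnion Cfsg.support₂)
    rw [Fintype.card_fin] at hle
    omega
  have hle : ∀ w : Fin 24 → ZMod 2,
      6 * (Finset.univ.filter (fun u : Fin 24 → ZMod 2 => hammingNorm u ≤ 3 ∧ u - w ∈ C)).card +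
        (Finset.univ.filter (fun u : Fin 24 → ZMod 2 => hammingNorm u = 4 ∧ u - w ∈ C)).card ≤ 6 := by
    intro w
    have h1 := hA1 w
    have h2 := hA2 w
    have h3 := hT w
    rcases Nat.eq_zero_or_pos (Finset.univ.filter
      (fun u : Fin 24 → ZMod 2 => hammingNorm u ≤ 3 ∧ u - w ∈ C)).card with h0 | hpos
    · omega
    · have := h2 (by omega); omega
  have hsumA : ∑ w : Fin 24 → ZMod 2,
      (Finset.univ.filter (fun u : Fin 24 → ZMod 2 => hammingNorm u ≤ 3 ∧ u - w ∈ C)).card =
        2325 * 4096 := by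
    have := g24_double_count (fun c : Fin 24 → ZMod 2 => c ∈ C)
      (Finset.univ.filter (fun u : Fin 24 → ZMod 2 => hammingNorm u ≤ 3))
    rw [g24_card_le3, h.card] at this
    rw [← this]
    apply Finset.sum_congr rfl
    intro w _
    rw [Finset.filter_filter]
  have hsumT : ∑ w : Fin 24 → ZMod 2,
      (Finset.univ.filter (fun u : Fin 24 → ZMod 2 => hammingNorm u = 4 ∧ u - w ∈ C)).card =
        10626 * 4096 := by
    have := g24_double_count (fun c : Fin 24 → ZMod 2 => c ∈ C)
      (Finset.univ.filter (fun u : Fin 24 → ZMod 2 => hammingNorm u = 4))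
    rw [g24_card_eq4, h.card] at this
    rw [← this]
    apply Finset.sum_congr rfl
    intro w _
    rw [Finset.filter_filter]
  have hcardV : Fintype.card (Fin 24 → ZMod 2) = 2 ^ 24 := by
    rw [Fintype.card_fun, ZMod.card, Fintype.card_fin]
  have hsum : ∑ w : Fin 24 → ZMod 2,
      (6 * (Finset.univ.filter (fun u : Fin 24 → ZMod 2 => hammingNorm u ≤ 3 ∧ u - w ∈ C)).card +
        (Finset.univ.filter (fun u : Fin 24 → ZMod 2 => hammingNorm u = 4 ∧ u - w ∈ C)).card) =
      ∑ _w : Fin 24 → ZMod 2, 6 := by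
    rw [Finset.sum_add_distrib, ← Finset.mul_sum, hsumA, hsumT, Finset.sum_const, Finset.card_univ,
      hcardV]
    norm_num
  have heq := (Finset.sum_eq_sum_iff_of_le (fun w _ => hle w)).mp hsum w (Finset.mem_univ w)
  rcases Nat.eq_zero_or_pos (Finset.univ.filter
    (fun u : Fin 24 → ZMod 2 => hammingNorm u ≤ 3 ∧ u - w ∈ C)).card with h0 | hpos
  · right; exact ⟨h0, by omega⟩
  · left
    have h1 : (Finset.univ.filter
        (fun u : Fin 24 → ZMod 2 => hammingNorm u ≤ 3 ∧ u - w ∈ C)).card = 1 := by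
      have := hA1 w; omega
    exact ⟨h1, hA2 w h1⟩

/-- Every 5-set lies in the support of a codeword of weight 8. -/
theorem G24Hyp.exists_octad (h : G24Hyp C) (s : Finset (Fin 24)) (hs : s.card = 5) :
    ∃ c ∈ C, hammingNorm c = 8 ∧ s ⊆ Cfsg.support₂ c := by
  classical
  obtain ⟨s₀, hs₀, hs₀c⟩ := Finset.exists_subset_card_eq (by omega : 4 ≤ s.card)
  obtain ⟨p, hp, hpn⟩ := Finset.exists_mem_notMem_of_card_lt_card (s := s₀) (t := s) (by omega)
  have hu₀s : Cfsg.support₂ (g24Ind s₀) = s₀ := g24_supp_ind s₀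
  generalize g24Ind s₀ = u₀ at hu₀s
  have hu₀4 : hammingNorm u₀ = 4 := by rw [g24_norm_eq, hu₀s, hs₀c]
  have hmem : u₀ ∈ Finset.univ.filter
      (fun u : Fin 24 → ZMod 2 => hammingNorm u = 4 ∧ u - u₀ ∈ C) := by
    simp only [Finset.mem_filter, Finset.mem_univ, true_and]
    exact ⟨hu₀4, by rw [sub_self]; exact C.zero_mem⟩
  rcases h.coset u₀ with ⟨_, h0⟩ | ⟨_, h6⟩
  · rw [Finset.card_eq_zero] at h0
    rw [h0] at hmem
    simp at hmem
  · generalize hK : Finset.univ.filter
      (fun u : Fin 24 → ZMod 2 => hammingNorm u = 4 ∧ u - u₀ ∈ C) = K at hmem h6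
    have hKmem : ∀ u ∈ K, hammingNorm u = 4 ∧ u - u₀ ∈ C := by
      intro u hu
      rw [← hK] at hu
      simpa using hu
    have hd : (K.biUnion Cfsg.support₂).card = ∑ u ∈ K, (Cfsg.support₂ u).card := by
      apply Finset.card_biUnion
      intro u hu u' hu' hne
      have hu := Finset.mem_coe.mp hu
      have hu' := Finset.mem_coe.mp hu'
      have := h.dist (hKmem u hu).2 (hKmem u' hu').2 hne
      have e1 := (hKmem u hu).1
      have e2 := (hKmem u' hu').1
      show Disjoint (Cfsg.support₂ u) (Cfsg.support₂ u')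
      rw [Finset.disjoint_iff_inter_eq_empty, ← Finset.card_eq_zero]
      omega
    have h4 : ∀ u ∈ K, (Cfsg.support₂ u).card = 4 := fun u hu => by
      rw [← g24_norm_eq]; exact (hKmem u hu).1
    rw [Finset.sum_congr rfl h4, Finset.sum_const, smul_eq_mul, h6] at hd
    have hall : K.biUnion Cfsg.support₂ = Finset.univ := by
      apply Finset.eq_univ_of_card; rw [hd, Fintype.card_fin]
    have hpU : p ∈ K.biUnion Cfsg.support₂ := by rw [hall]; exact Finset.mem_univ p
    obtain ⟨u₁, hu₁K, hpu₁⟩ := Finset.mem_biUnion.mp hpU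
    have hne : u₁ ≠ u₀ := by
      intro e; rw [e, hu₀s] at hpu₁; exact hpn hpu₁
    have hdist := h.dist (hKmem u₁ hu₁K).2 (hKmem u₀ hmem).2 hne
    have e1 := (hKmem u₁ hu₁K).1
    have hinter : (Cfsg.support₂ u₁ ∩ Cfsg.support₂ u₀).card = 0 := by omega
    have hnorm := g24_norm_sub u₁ u₀
    refine ⟨u₁ - u₀, (hKmem u₁ hu₁K).2, by omega, ?_⟩
    rw [g24_supp_sub]
    rw [Finset.card_eq_zero] at hinter
    intro i hi
    by_cases hi0 : i ∈ s₀
    · apply Finset.mem_union_right
      rw [Finset.mem_sdiff, hu₀s]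
      refine ⟨hi0, fun hi1 => ?_⟩
      have hmem2 : i ∈ Cfsg.support₂ u₁ ∩ Cfsg.support₂ u₀ :=
        Finset.mem_inter.mpr ⟨hi1, by rw [hu₀s]; exact hi0⟩
      rw [hinter] at hmem2
      simp at hmem2
    · have hsd : (s \ s₀).card = 1 := by rw [Finset.card_sdiff_of_subset hs₀, hs, hs₀c]
      obtain ⟨q, hq⟩ := Finset.card_eq_one.mp hsd
      have hiq : i ∈ s \ s₀ := Finset.mem_sdiff.mpr ⟨hi, hi0⟩
      have hpq : p ∈ s \ s₀ := Finset.mem_sdiff.mpr ⟨hp, hpn⟩
      rw [hq, Finset.mem_singleton] at hiq hpq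
      rw [hiq, ← hpq]
      apply Finset.mem_union_left
      rw [Finset.mem_sdiff, hu₀s]
      exact ⟨hpu₁, hpn⟩

theorem G24Hyp.octad_unique (h : G24Hyp C) {c c' : Fin 24 → ZMod 2} (hc : c ∈ C) (hc' : c' ∈ C)
    (h8 : hammingNorm c = 8) (h8' : hammingNorm c' = 8) {s : Finset (Fin 24)} (hs : s.card = 5)
    (hsc : s ⊆ Cfsg.support₂ c) (hsc' : s ⊆ Cfsg.support₂ c') : c = c' := by
  by_contra hne
  have h1 : c - 0 ∈ C := by rwa [sub_zero]
  have h1' : c' - 0 ∈ C := by rwa [sub_zero]
  have h2 := h.dist h1 h1' hne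
  have h3 : 5 ≤ (Cfsg.support₂ c ∩ Cfsg.support₂ c').card := by
    rw [← hs]; exact Finset.card_le_card (Finset.subset_inter hsc hsc')
  omega

theorem G24Hyp.span (h : G24Hyp C) :
    Submodule.span (ZMod 2) {w : Fin 24 → ZMod 2 | w ∈ C ∧ hammingNorm w = 8} = C := by
  apply le_antisymm
  · rw [Submodule.span_le]; intro w hw; exact hw.1
  · have key : ∀ n : ℕ, ∀ w ∈ C, hammingNorm w ≤ n →
        w ∈ Submodule.span (ZMod 2) {w : Fin 24 → ZMod 2 | w ∈ C ∧ hammingNorm w = 8} := by
      intro n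
      induction n with
      | zero =>
        intro w _ hw
        have e : w = 0 := hammingNorm_eq_zero.mp (by omega)
        rw [e]; exact Submodule.zero_mem _
      | succ n ih =>
        intro w hw hwn
        by_cases hw0 : w = 0
        · rw [hw0]; exact Submodule.zero_mem _
        have h8 := h.min w hw hw0
        rw [g24_norm_eq] at h8
        obtain ⟨s, hs, hsc⟩ := Finset.exists_subset_card_eq (by omega : 5 ≤ (Cfsg.support₂ w).card)
        obtain ⟨c, hc, hc8, hsc'⟩ := h.exists_octad s hsc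
        have hnorm := g24_norm_sub w c
        have h5 : 5 ≤ (Cfsg.support₂ w ∩ Cfsg.support₂ c).card := by
          rw [← hsc]; exact Finset.card_le_card (Finset.subset_inter hs hsc')
        have hlt : hammingNorm (w - c) ≤ n := by omega
        have h1 := ih (w - c) (C.sub_mem hw hc) hlt
        have hcs : c ∈ Submodule.span (ZMod 2)
            {w : Fin 24 → ZMod 2 | w ∈ C ∧ hammingNorm w = 8} := Submodule.subset_span ⟨hc, hc8⟩
        have h2 := Submodule.add_mem _ h1 hcs
        rwa [sub_add_cancel] at h2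
    intro w hw
    exact key _ w hw le_rfl

theorem g24_inter_even (u v : Fin 24 → ZMod 2) (h0 : ∑ i, u i * v i = 0) :
    2 ∣ (Cfsg.support₂ u ∩ Cfsg.support₂ v).card := by
  have key : ∀ a b : ZMod 2, a ≠ 0 → b ≠ 0 → a * b = 1 := by decide
  have e : ∑ i, u i * v i = ((Cfsg.support₂ u ∩ Cfsg.support₂ v).card : ZMod 2) := by
    rw [← Finset.sum_subset (Finset.subset_univ (Cfsg.support₂ u ∩ Cfsg.support₂ v))]
    · have h1 : ∀ i ∈ Cfsg.support₂ u ∩ Cfsg.support₂ v, u i * v i = 1 := by
        intro i hi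
        rw [Finset.mem_inter, g24_mem_supp, g24_mem_supp] at hi
        exact key _ _ hi.1 hi.2
      rw [Finset.sum_congr rfl h1, Finset.sum_const, nsmul_eq_mul, mul_one]
    · intro i _ hi
      rw [Finset.mem_inter, g24_mem_supp, g24_mem_supp] at hi
      by_cases hu : u i = 0
      · rw [hu, zero_mul]
      · have hv : v i = 0 := by
          by_contra hv; exact hi ⟨hu, hv⟩
        rw [hv, mul_zero]
  rw [e] at h0
  exact (ZMod.natCast_eq_zero_iff _ 2).mp h0

theorem G24Hyp.doubly_even (h : G24Hyp C) : ∀ w ∈ C, 4 ∣ hammingNorm w := by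
  have key : ∀ w ∈ Submodule.span (ZMod 2) {w : Fin 24 → ZMod 2 | w ∈ C ∧ hammingNorm w = 8},
      w ∈ C ∧ 4 ∣ hammingNorm w := by
    intro w hw
    induction hw using Submodule.span_induction with
    | mem x hx => exact ⟨hx.1, by rw [hx.2]; norm_num⟩
    | zero => exact ⟨C.zero_mem, by simp⟩
    | add x y _ _ hx hy =>
      refine ⟨C.add_mem hx.1 hy.1, ?_⟩
      have e : x + y = x - y := by
        funext i
        have k2 : ∀ a b : ZMod 2, a + b = a - b := by decide
        exact k2 _ _
      rw [e]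
      have hn := g24_norm_sub x y
      have hev := g24_inter_even x y (h.orth x hx.1 y hy.1)
      have h1 := hx.2
      have h2 := hy.2
      omega
    | smul a x _ hx =>
      have ha : a = 0 ∨ a = 1 := by revert a; decide
      rcases ha with rfl | rfl
      · rw [zero_smul]; exact ⟨C.zero_mem, by simp⟩
      · rw [one_smul]; exact hx
  intro w hw
  rw [← h.span] at hw
  exact (key w hw).2

end golay

end Cfsg.Agent.Lib.Helper7
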