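import Mathlib
import Cfsg.Prelude
import Cfsg.Agent.Lib.Helper7.Golay24

set_option autoImplicit false

namespace Cfsg.Agent.Lib.Helper7

section
variable {ι : Type*} [Fintype ι] [DecidableEq ι]

theorem g24g_card_le3 (hι : Fintype.card ι = 24) :
    ((Finset.univ : Finset (ι → ZMod 2)).filter (fun u => hammingNorm u ≤ 3)).card = 2325 := by
  have e : (Finset.univ.filter (fun u : ι → ZMod 2 => hammingNorm u ≤ 3)) =
      (Finset.range 4).biUnion (fun k => Finset.univ.filter (fun u => hammingNorm u = k)) := by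
    ext u
    simp only [Finset.mem_filter, Finset.mem_univ, true_and, Finset.mem_biUnion, Finset.mem_range]
    constructor
    · intro h; exact ⟨hammingNorm u, by omega, rfl⟩
    · rintro ⟨k, hk, rfl⟩; omega
  rw [e, Finset.card_biUnion]
  · simp_rw [g24_card_weight]
    simp only [hι, Finset.sum_range_succ, Finset.sum_range_zero]
    rfl
  · intro k _ k' _ hne
    show Disjoint (Finset.univ.filter (fun u : ι → ZMod 2 => hammingNorm u = k))
      (Finset.univ.filter (fun u : ι → ZMod 2 => hammingNorm u = k'))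
    rw [Finset.disjoint_filter]
    intro u _ h1 h2
    exact hne (h1.symm.trans h2)

theorem g24g_card_eq4 (hι : Fintype.card ι = 24) :
    ((Finset.univ : Finset (ι → ZMod 2)).filter (fun u => hammingNorm u = 4)).card = 10626 := by
  rw [g24_card_weight, hι]; rfl

theorem g24g_inter_even (u v : ι → ZMod 2) (h0 : ∑ i, u i * v i = 0) :
    2 ∣ (Cfsg.support₂ u ∩ Cfsg.support₂ v).card := by
  have key : ∀ a b : ZMod 2, a ≠ 0 → b ≠ 0 → a * b = 1 := by decide
  have e : ∑ i, u i * v i = ((Cfsg.support₂ u ∩ Cfsg.support₂ v).card : ZMod 2) := by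
    rw [← Finset.sum_subset (Finset.subset_univ (Cfsg.support₂ u ∩ Cfsg.support₂ v))]
    · have h1 : ∀ i ∈ Cfsg.support₂ u ∩ Cfsg.support₂ v, u i * v i = 1 := by
        intro i hi
        rw [Finset.mem_inter, g24_mem_supp, g24_mem_supp] at hi
        exact key _ _ hi.1 hi.2
      rw [Finset.sum_congr rfl h1, Finset.sum_const, nsmul_eq_mul, mul_one]
    · intro i _ hi
      rw [Finset.mem_inter, g24_mem_supp, g24_mem_supp] at hi
      by_cases hu : u i = 0
      · rw [hu, zero_mul]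
      · have hv : v i = 0 := by
          by_contra hv; exact hi ⟨hu, hv⟩
        rw [hv, mul_zero]
  rw [e] at h0
  exact (ZMod.natCast_eq_zero_iff _ 2).mp h0

variable {C : Submodule (ZMod 2) (ι → ZMod 2)}

theorem g24g_dist (hmin : ∀ w ∈ C, w ≠ 0 → 8 ≤ hammingNorm w) {w u u' : ι → ZMod 2}
    (hu : u - w ∈ C) (hu' : u' - w ∈ C) (hne : u ≠ u') :
    8 + 2 * (Cfsg.support₂ u ∩ Cfsg.support₂ u').card ≤ hammingNorm u + hammingNorm u' := by
  have h1 : u - u' ∈ C := by
    have := C.sub_mem hu hu'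
    rwa [sub_sub_sub_cancel_right] at this
  have h2 := hmin _ h1 (sub_ne_zero.mpr hne)
  have h3 := g24_norm_sub u u'
  omega

theorem g24g_local (hι : Fintype.card ι = 24) (hmin : ∀ w ∈ C, w ≠ 0 → 8 ≤ hammingNorm w)
    [DecidablePred (fun c => c ∈ C)] (w : ι → ZMod 2) :
    (Finset.univ.filter (fun u : ι → ZMod 2 => hammingNorm u ≤ 3 ∧ u - w ∈ C)).card ≤ 1 ∧
    ((Finset.univ.filter (fun u : ι → ZMod 2 => hammingNorm u ≤ 3 ∧ u - w ∈ C)).card = 1 →
      (Finset.univ.filter (fun u : ι → ZMod 2 => hammingNorm u = 4 ∧ u - w ∈ C)).card = 0) ∧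
    (Finset.univ.filter (fun u : ι → ZMod 2 => hammingNorm u = 4 ∧ u - w ∈ C)).card ≤ 6 := by
  refine ⟨?_, ?_, ?_⟩
  · rw [Finset.card_le_one]
    intro u hu u' hu'
    simp only [Finset.mem_filter, Finset.mem_univ, true_and] at hu hu'
    by_contra hne
    have := g24g_dist hmin hu.2 hu'.2 hne
    omega
  · intro h1
    have hpos : 0 < (Finset.univ.filter
        (fun u : ι → ZMod 2 => hammingNorm u ≤ 3 ∧ u - w ∈ C)).card := by omega
    obtain ⟨u, hu⟩ := Finset.card_pos.mp hpos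
    rw [Finset.card_eq_zero, Finset.eq_empty_iff_forall_notMem]
    intro u' hu'
    simp only [Finset.mem_filter, Finset.mem_univ, true_and] at hu hu'
    have hne : u ≠ u' := by rintro rfl; omega
    have := g24g_dist hmin hu.2 hu'.2 hne
    omega
  · have hd : ((Finset.univ.filter (fun u : ι → ZMod 2 => hammingNorm u = 4 ∧ u - w ∈ C)).biUnion
        Cfsg.support₂).card = ∑ u ∈ Finset.univ.filter
          (fun u : ι → ZMod 2 => hammingNorm u = 4 ∧ u - w ∈ C), (Cfsg.support₂ u).card := by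
      apply Finset.card_biUnion
      intro u hu u' hu' hne
      have hu := Finset.mem_coe.mp hu
      have hu' := Finset.mem_coe.mp hu'
      simp only [Finset.mem_filter, Finset.mem_univ, true_and] at hu hu'
      have := g24g_dist hmin hu.2 hu'.2 hne
      show Disjoint (Cfsg.support₂ u) (Cfsg.support₂ u')
      rw [Finset.disjoint_iff_inter_eq_empty, ← Finset.card_eq_zero]
      omega
    have h4 : ∀ u ∈ Finset.univ.filter
        (fun u : ι → ZMod 2 => hammingNorm u = 4 ∧ u - w ∈ C), (Cfsg.support₂ u).card = 4 := by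
      intro u hu
      simp only [Finset.mem_filter, Finset.mem_univ, true_and] at hu
      rw [← g24_norm_eq]; exact hu.1
    rw [Finset.sum_congr rfl h4, Finset.sum_const, smul_eq_mul] at hd
    have hle := Finset.card_le_univ ((Finset.univ.filter
      (fun u : ι → ZMod 2 => hammingNorm u = 4 ∧ u - w ∈ C)).biUnion Cfsg.support₂)
    rw [hι] at hle
    omega

theorem g24g_le6 (hι : Fintype.card ι = 24) (hmin : ∀ w ∈ C, w ≠ 0 → 8 ≤ hammingNorm w)
    [DecidablePred (fun c => c ∈ C)] (w : ι → ZMod 2) :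
    6 * (Finset.univ.filter (fun u : ι → ZMod 2 => hammingNorm u ≤ 3 ∧ u - w ∈ C)).card +
      (Finset.univ.filter (fun u : ι → ZMod 2 => hammingNorm u = 4 ∧ u - w ∈ C)).card ≤ 6 := by
  obtain ⟨h1, h2, h3⟩ := g24g_local hι hmin w
  rcases Nat.eq_zero_or_pos (Finset.univ.filter
    (fun u : ι → ZMod 2 => hammingNorm u ≤ 3 ∧ u - w ∈ C)).card with h0 | hpos
  · omega
  · have := h2 (by omega); omega

theorem g24g_sum (hι : Fintype.card ι = 24) [DecidablePred (fun c => c ∈ C)] :
    ∑ w : ι → ZMod 2,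
      (6 * (Finset.univ.filter (fun u : ι → ZMod 2 => hammingNorm u ≤ 3 ∧ u - w ∈ C)).card +
        (Finset.univ.filter (fun u : ι → ZMod 2 => hammingNorm u = 4 ∧ u - w ∈ C)).card) =
      24576 * (Finset.univ.filter (fun c : ι → ZMod 2 => c ∈ C)).card := by
  have hsumA : ∑ w : ι → ZMod 2,
      (Finset.univ.filter (fun u : ι → ZMod 2 => hammingNorm u ≤ 3 ∧ u - w ∈ C)).card =
        2325 * (Finset.univ.filter (fun c : ι → ZMod 2 => c ∈ C)).card := by
    have := g24_double_count (fun c : ι → ZMod 2 => c ∈ C)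
      (Finset.univ.filter (fun u : ι → ZMod 2 => hammingNorm u ≤ 3))
    rw [g24g_card_le3 hι] at this
    rw [← this]
    apply Finset.sum_congr rfl
    intro w _
    rw [Finset.filter_filter]
  have hsumT : ∑ w : ι → ZMod 2,
      (Finset.univ.filter (fun u : ι → ZMod 2 => hammingNorm u = 4 ∧ u - w ∈ C)).card =
        10626 * (Finset.univ.filter (fun c : ι → ZMod 2 => c ∈ C)).card := by
    have := g24_double_count (fun c : ι → ZMod 2 => c ∈ C)
      (Finset.univ.filter (fun u : ι → ZMod 2 => hammingNorm u = 4))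
    rw [g24g_card_eq4 hι] at this
    rw [← this]
    apply Finset.sum_congr rfl
    intro w _
    rw [Finset.filter_filter]
  rw [Finset.sum_add_distrib, ← Finset.mul_sum, hsumA, hsumT]
  ring

theorem g24g_cardV (hι : Fintype.card ι = 24) : Fintype.card (ι → ZMod 2) = 2 ^ 24 := by
  rw [Fintype.card_fun, ZMod.card, hι]

/-- Sphere-packing bound: a binary code of length 24 with minimum weight 8 has at most
`2 ^ 12` words. -/
theorem g24g_packing (hι : Fintype.card ι = 24) (hmin : ∀ w ∈ C, w ≠ 0 → 8 ≤ hammingNorm w)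
    [DecidablePred (fun c => c ∈ C)] :
    (Finset.univ.filter (fun c : ι → ZMod 2 => c ∈ C)).card ≤ 4096 := by
  have h1 := g24g_sum (C := C) hι
  have h2 : ∑ w : ι → ZMod 2,
      (6 * (Finset.univ.filter (fun u : ι → ZMod 2 => hammingNorm u ≤ 3 ∧ u - w ∈ C)).card +
        (Finset.univ.filter (fun u : ι → ZMod 2 => hammingNorm u = 4 ∧ u - w ∈ C)).card) ≤
      ∑ _w : ι → ZMod 2, 6 := Finset.sum_le_sum (fun w _ => g24g_le6 hι hmin w)
  rw [h1, Finset.sum_const, Finset.card_univ, g24g_cardV hι] at h2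
  simp only [smul_eq_mul] at h2
  omega

/-- Structure of the cosets. -/
theorem g24g_coset (hι : Fintype.card ι = 24) (hmin : ∀ w ∈ C, w ≠ 0 → 8 ≤ hammingNorm w)
    [DecidablePred (fun c => c ∈ C)]
    (hcard : (Finset.univ.filter (fun c : ι → ZMod 2 => c ∈ C)).card = 4096) (w : ι → ZMod 2) :
    ((Finset.univ.filter (fun u : ι → ZMod 2 => hammingNorm u ≤ 3 ∧ u - w ∈ C)).card = 1 ∧
      (Finset.univ.filter (fun u : ι → ZMod 2 => hammingNorm u = 4 ∧ u - w ∈ C)).card = 0) ∨
    ((Finset.univ.filter (fun u : ι → ZMod 2 => hammingNorm u ≤ 3 ∧ u - w ∈ C)).card = 0 ∧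
      (Finset.univ.filter (fun u : ι → ZMod 2 => hammingNorm u = 4 ∧ u - w ∈ C)).card = 6) := by
  have hsum : ∑ w : ι → ZMod 2,
      (6 * (Finset.univ.filter (fun u : ι → ZMod 2 => hammingNorm u ≤ 3 ∧ u - w ∈ C)).card +
        (Finset.univ.filter (fun u : ι → ZMod 2 => hammingNorm u = 4 ∧ u - w ∈ C)).card) =
      ∑ _w : ι → ZMod 2, 6 := by
    rw [g24g_sum hι, hcard, Finset.sum_const, Finset.card_univ, g24g_cardV hι]
    norm_num
  have heq := (Finset.sum_eq_sum_iff_of_le (fun w _ => g24g_le6 hι hmin w)).mp hsum w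
    (Finset.mem_univ w)
  obtain ⟨h1, h2, h3⟩ := g24g_local hι hmin w
  rcases Nat.eq_zero_or_pos (Finset.univ.filter
    (fun u : ι → ZMod 2 => hammingNorm u ≤ 3 ∧ u - w ∈ C)).card with h0 | hpos
  · right; exact ⟨h0, by omega⟩
  · left
    have h1' : (Finset.univ.filter
        (fun u : ι → ZMod 2 => hammingNorm u ≤ 3 ∧ u - w ∈ C)).card = 1 := by omega
    exact ⟨h1', h2 h1'⟩

/-- A binary code of length 24 with `2 ^ 12` words and minimum weight at least 8. -/
structure G24 (C : Submodule (ZMod 2) (ι → ZMod 2)) : Prop where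
  card24 : Fintype.card ι = 24
  min : ∀ w ∈ C, w ≠ 0 → 8 ≤ hammingNorm w
  size : Nat.card C = 4096

theorem G24.cardf (h : G24 C) [DecidablePred (fun c => c ∈ C)] :
    (Finset.univ.filter (fun c : ι → ZMod 2 => c ∈ C)).card = 4096 := by
  rw [← Fintype.card_subtype, ← Nat.card_eq_fintype_card]
  exact h.size

/-- Every 5-set lies in the support of a codeword of weight 8. -/
theorem G24.exists_octad (h : G24 C) (s : Finset ι) (hs : s.card = 5) :
    ∃ c ∈ C, hammingNorm c = 8 ∧ s ⊆ Cfsg.support₂ c := by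
  classical
  obtain ⟨s₀, hs₀, hs₀c⟩ := Finset.exists_subset_card_eq (by omega : 4 ≤ s.card)
  obtain ⟨p, hp, hpn⟩ := Finset.exists_mem_notMem_of_card_lt_card (s := s₀) (t := s) (by omega)
  have hu₀s : Cfsg.support₂ (g24Ind s₀) = s₀ := g24_supp_ind s₀
  generalize g24Ind s₀ = u₀ at hu₀s
  have hu₀4 : hammingNorm u₀ = 4 := by rw [g24_norm_eq, hu₀s, hs₀c]
  have hmem : u₀ ∈ Finset.univ.filter
      (fun u : ι → ZMod 2 => hammingNorm u = 4 ∧ u - u₀ ∈ C) := by
    simp only [Finset.mem_filter, Finset.mem_univ, true_and]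
    exact ⟨hu₀4, by rw [sub_self]; exact C.zero_mem⟩
  rcases g24g_coset h.card24 h.min h.cardf u₀ with ⟨_, h0⟩ | ⟨_, h6⟩
  · rw [Finset.card_eq_zero] at h0
    rw [h0] at hmem
    simp at hmem
  · generalize hK : Finset.univ.filter
      (fun u : ι → ZMod 2 => hammingNorm u = 4 ∧ u - u₀ ∈ C) = K at hmem h6
    have hKmem : ∀ u ∈ K, hammingNorm u = 4 ∧ u - u₀ ∈ C := by
      intro u hu
      rw [← hK] at hu
      simpa using hu
    have hd : (K.biUnion Cfsg.support₂).card = ∑ u ∈ K, (Cfsg.support₂ u).card := by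
      apply Finset.card_biUnion
      intro u hu u' hu' hne
      have hu := Finset.mem_coe.mp hu
      have hu' := Finset.mem_coe.mp hu'
      have := g24g_dist h.min (hKmem u hu).2 (hKmem u' hu').2 hne
      have e1 := (hKmem u hu).1
      have e2 := (hKmem u' hu').1
      show Disjoint (Cfsg.support₂ u) (Cfsg.support₂ u')
      rw [Finset.disjoint_iff_inter_eq_empty, ← Finset.card_eq_zero]
      omega
    have h4 : ∀ u ∈ K, (Cfsg.support₂ u).card = 4 := fun u hu => by
      rw [← g24_norm_eq]; exact (hKmem u hu).1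
    rw [Finset.sum_congr rfl h4, Finset.sum_const, smul_eq_mul, h6] at hd
    have hall : K.biUnion Cfsg.support₂ = Finset.univ := by
      apply Finset.eq_univ_of_card; rw [hd, h.card24]
    have hpU : p ∈ K.biUnion Cfsg.support₂ := by rw [hall]; exact Finset.mem_univ p
    obtain ⟨u₁, hu₁K, hpu₁⟩ := Finset.mem_biUnion.mp hpU
    have hne : u₁ ≠ u₀ := by
      intro e; rw [e, hu₀s] at hpu₁; exact hpn hpu₁
    have hdist := g24g_dist h.min (hKmem u₁ hu₁K).2 (hKmem u₀ hmem).2 hne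
    have e1 := (hKmem u₁ hu₁K).1
    have hinter : (Cfsg.support₂ u₁ ∩ Cfsg.support₂ u₀).card = 0 := by omega
    have hnorm := g24_norm_sub u₁ u₀
    refine ⟨u₁ - u₀, (hKmem u₁ hu₁K).2, by omega, ?_⟩
    rw [g24_supp_sub]
    rw [Finset.card_eq_zero] at hinter
    intro i hi
    by_cases hi0 : i ∈ s₀
    · apply Finset.mem_union_right
      rw [Finset.mem_sdiff, hu₀s]
      refine ⟨hi0, fun hi1 => ?_⟩
      have hmem2 : i ∈ Cfsg.support₂ u₁ ∩ Cfsg.support₂ u₀ :=
        Finset.mem_inter.mpr ⟨hi1, by rw [hu₀s]; exact hi0⟩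
      rw [hinter] at hmem2
      simp at hmem2
    · have hsd : (s \ s₀).card = 1 := by rw [Finset.card_sdiff_of_subset hs₀, hs, hs₀c]
      obtain ⟨q, hq⟩ := Finset.card_eq_one.mp hsd
      have hiq : i ∈ s \ s₀ := Finset.mem_sdiff.mpr ⟨hi, hi0⟩
      have hpq : p ∈ s \ s₀ := Finset.mem_sdiff.mpr ⟨hp, hpn⟩
      rw [hq, Finset.mem_singleton] at hiq hpq
      rw [hiq, ← hpq]
      apply Finset.mem_union_left
      rw [Finset.mem_sdiff, hu₀s]
      exact ⟨hpu₁, hpn⟩

theorem G24.octad_unique (h : G24 C) {c c' : ι → ZMod 2} (hc : c ∈ C) (hc' : c' ∈ C)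
    (h8 : hammingNorm c = 8) (h8' : hammingNorm c' = 8) {s : Finset ι} (hs : s.card = 5)
    (hsc : s ⊆ Cfsg.support₂ c) (hsc' : s ⊆ Cfsg.support₂ c') : c = c' := by
  by_contra hne
  have h1 : c - 0 ∈ C := by rwa [sub_zero]
  have h1' : c' - 0 ∈ C := by rwa [sub_zero]
  have h2 := g24g_dist h.min h1 h1' hne
  have h3 : 5 ≤ (Cfsg.support₂ c ∩ Cfsg.support₂ c').card := by
    rw [← hs]; exact Finset.card_le_card (Finset.subset_inter hsc hsc')
  omega

/-- The octads form a Steiner system `S(5,8,24)`. -/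
theorem G24.steiner (h : G24 C) :
    Cfsg.IsSteinerSystem 5 8 (Cfsg.wordsOfWeight (C : Set (ι → ZMod 2)) 8) := by
  refine ⟨fun b hb => hb.2, ?_⟩
  intro s hs
  obtain ⟨c, hc, hc8, hsc⟩ := h.exists_octad s hs
  refine ⟨Cfsg.support₂ c, ⟨⟨⟨c, hc, rfl⟩, by rw [← g24_norm_eq]; exact hc8⟩, hsc⟩, ?_⟩
  rintro b ⟨⟨⟨c', hc', rfl⟩, hb8⟩, hsb⟩
  have e := h.octad_unique hc' hc (by rw [g24_norm_eq]; exact hb8) hc8 hs hsb hsc
  rw [e]

end

end Cfsg.Agent.Lib.Helper7
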