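import Mathlib
import Cfsg.Prelude
import Cfsg.Agent.Lib.Helper7.Golay24g

set_option autoImplicit false

namespace Cfsg.Agent.Lib.Helper7

/-- the point with a given index below 24 -/
def gcPt (a : Fin 24) : Cfsg.GolayPt :=
  if h : a.val < 23 then some (show ZMod 23 from (⟨a.val, h⟩ : Fin 23)) else none

/-- the index of a point -/
def gcIdx : Cfsg.GolayPt → Fin 24
  | none => 23
  | some x => ⟨ZMod.val x, lt_trans (ZMod.val_lt x) (by norm_num)⟩

/-- the 24 points indexed by `Fin 24` -/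
def gcEquiv : Fin 24 ≃ Cfsg.GolayPt where
  toFun := gcPt
  invFun := gcIdx
  left_inv := by decide
  right_inv := by decide

/-- bitmask of the support of `qrWord t` -/
def gcMask (t : ℕ) : ℕ := ((340831 <<< t) ||| (340831 >>> (23 - t))) % 2 ^ 23

/-- table of the generators -/
def gcTb (t : ZMod 23) (a : Fin 24) : Bool := Nat.testBit (gcMask (ZMod.val t)) a.val

/-- Boolean to `ZMod 2` -/
def gcB2z (b : Bool) : ZMod 2 := if b then 1 else 0

set_option maxRecDepth 100000 in
theorem gc_bridge : ∀ t : ZMod 23, ∀ a : Fin 24, Cfsg.qrWord t (gcPt a) = gcB2z (gcTb t a) := by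
  decide

set_option maxRecDepth 100000 in
theorem gc_orth_tab : ∀ s t : ZMod 23,
    ∑ a : Fin 24, gcB2z (gcTb s a) * gcB2z (gcTb t a) = 0 := by
  decide

set_option maxRecDepth 100000 in
theorem gc_even_tab : ∀ t : ZMod 23, ∑ a : Fin 24, gcB2z (gcTb t a) = 0 := by
  decide

set_option maxRecDepth 100000 in
theorem gc_wt_tab : ∀ t : ZMod 23,
    (Finset.univ.filter (fun a : Fin 24 => gcB2z (gcTb t a) ≠ 0)).card = 12 := by
  decide

/-- columns of the generator table -/
def gcColL : List ℕ := [8047777, 7706947, 7025287, 5661967, 2935327, 5870654, 3352701, 6705402,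
  5022197, 1655787, 3311574, 6623148, 4857689, 1326771, 2653542, 5307084, 2225561, 4451122, 513637,
  1027274, 2054548, 4109096, 8218192, 0]

/-- column of a point -/
def gcCol (a : ℕ) : ℕ := gcColL.getD a 0

theorem gc_no4_col : ∀ a < 24, ∀ b < a, ∀ c < b, ∀ d < c,
    (gcCol a ^^^ gcCol b ^^^ gcCol c ^^^ gcCol d) ≠ 0 := by
  decide +kernel

theorem gc_col_bit : ∀ a < 24, ∀ t < 23, Nat.testBit (gcCol a) t = Nat.testBit (gcMask t) a := by
  decide +kernel

theorem gc_col_lt : ∀ a < 24, gcCol a < 2 ^ 23 := by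
  decide +kernel

theorem gc_no4_tb (a b c d : Fin 24) (hab : b < a) (hbc : c < b) (hcd : d < c) :
    ∃ t : ZMod 23,
      gcB2z (gcTb t a) + gcB2z (gcTb t b) + gcB2z (gcTb t c) + gcB2z (gcTb t d) ≠ 0 := by
  have hne := gc_no4_col a.val a.isLt b.val hab c.val hbc d.val hcd
  obtain ⟨t, ht⟩ := Nat.exists_testBit_of_ne_zero hne
  have ht23 : t < 23 := by
    by_contra hge
    simp only [not_lt] at hge
    have hlt : ∀ x < 24, Nat.testBit (gcCol x) t = false := fun x hx =>
      Nat.testBit_lt_two_pow (lt_of_lt_of_le (gc_col_lt x hx)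
        (Nat.pow_le_pow_right (by norm_num) hge))
    rw [Nat.testBit_xor, Nat.testBit_xor, Nat.testBit_xor, hlt a a.isLt, hlt b b.isLt,
      hlt c c.isLt, hlt d d.isLt] at ht
    simp at ht
  rw [Nat.testBit_xor, Nat.testBit_xor, Nat.testBit_xor, gc_col_bit a a.isLt t ht23,
    gc_col_bit b b.isLt t ht23, gc_col_bit c c.isLt t ht23, gc_col_bit d d.isLt t ht23] at ht
  refine ⟨(t : ZMod 23), ?_⟩
  have hval : ZMod.val (t : ZMod 23) = t := ZMod.val_natCast_of_lt ht23
  unfold gcTb
  rw [hval]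
  revert ht
  generalize Nat.testBit (gcMask t) a.val = x1
  generalize Nat.testBit (gcMask t) b.val = x2
  generalize Nat.testBit (gcMask t) c.val = x3
  generalize Nat.testBit (gcMask t) d.val = x4
  revert x1 x2 x3 x4
  decide

theorem gc_sum (f : Cfsg.GolayPt → ZMod 2) : ∑ i, f i = ∑ a : Fin 24, f (gcPt a) :=
  (Equiv.sum_comp gcEquiv f).symm

theorem gc_orth_gen (s t : ZMod 23) : ∑ i, Cfsg.qrWord s i * Cfsg.qrWord t i = 0 := by
  rw [gc_sum]
  simp only [gc_bridge]
  exact gc_orth_tab s t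

theorem gc_even_gen (t : ZMod 23) : ∑ i, Cfsg.qrWord t i = 0 := by
  rw [gc_sum]
  simp only [gc_bridge]
  exact gc_even_tab t

theorem gc_ones : ∑ _i : Cfsg.GolayPt, (1 : ZMod 2) = 0 := by decide

theorem gc_orth_add_left (x y z : Cfsg.GolayPt → ZMod 2) (h1 : ∑ i, x i * z i = 0)
    (h2 : ∑ i, y i * z i = 0) : ∑ i, (x + y) i * z i = 0 := by
  simp only [Pi.add_apply, add_mul, Finset.sum_add_distrib, h1, h2, add_zero]

theorem gc_orth_smul_left (r : ZMod 2) (x z : Cfsg.GolayPt → ZMod 2) (h1 : ∑ i, x i * z i = 0) :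
    ∑ i, (r • x) i * z i = 0 := by
  simp only [Pi.smul_apply, smul_eq_mul, mul_assoc, ← Finset.mul_sum, h1, mul_zero]

theorem gc_orth_comm (x z : Cfsg.GolayPt → ZMod 2) (h1 : ∑ i, x i * z i = 0) :
    ∑ i, z i * x i = 0 := by
  rw [← h1]
  exact Finset.sum_congr rfl (fun i _ => mul_comm _ _)

theorem gc_orth_gen_all (x : Cfsg.GolayPt → ZMod 2) (hx : x ∈ Set.range Cfsg.qrWord ∪ {1})
    (y : Cfsg.GolayPt → ZMod 2) (hy : y ∈ Set.range Cfsg.qrWord ∪ {1}) :
    ∑ i, x i * y i = 0 := by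
  rcases hx with ⟨s, rfl⟩ | hx <;> rcases hy with ⟨t, rfl⟩ | hy
  · exact gc_orth_gen s t
  · rw [Set.mem_singleton_iff] at hy
    subst hy
    simpa using gc_even_gen s
  · rw [Set.mem_singleton_iff] at hx
    subst hx
    simpa using gc_even_gen t
  · rw [Set.mem_singleton_iff] at hx hy
    subst hx hy
    simpa using gc_ones

theorem gc_orth_half (x : Cfsg.GolayPt → ZMod 2) (hx : x ∈ Set.range Cfsg.qrWord ∪ {1})
    (w : Cfsg.GolayPt → ZMod 2) (hw : w ∈ Submodule.span (ZMod 2) (Set.range Cfsg.qrWord ∪ {1})) :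
    ∑ i, w i * x i = 0 := by
  induction hw using Submodule.span_induction with
  | mem y hy => exact gc_orth_gen_all y hy x hx
  | zero => simp
  | add y z _ _ h1 h2 => exact gc_orth_add_left y z x h1 h2
  | smul r y _ h => exact gc_orth_smul_left r y x h

theorem gc_orth_span (v : Cfsg.GolayPt → ZMod 2)
    (hv : v ∈ Submodule.span (ZMod 2) (Set.range Cfsg.qrWord ∪ {1}))
    (w : Cfsg.GolayPt → ZMod 2) (hw : w ∈ Submodule.span (ZMod 2) (Set.range Cfsg.qrWord ∪ {1})) :
    ∑ i, v i * w i = 0 := by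
  induction hv using Submodule.span_induction with
  | mem y hy => exact gc_orth_comm _ _ (gc_orth_half y hy w hw)
  | zero => simp
  | add y z _ _ h1 h2 => exact gc_orth_add_left y z w h1 h2
  | smul r y _ h => exact gc_orth_smul_left r y w h

theorem gc_orth : ∀ v ∈ Cfsg.golayCode, ∀ w ∈ Cfsg.golayCode, ∑ i, v i * w i = 0 :=
  fun v hv w hw => gc_orth_span v hv w hw

theorem gc_norm (w : Cfsg.GolayPt → ZMod 2) :
    hammingNorm w = (Finset.univ.filter (fun a : Fin 24 => w (gcPt a) ≠ 0)).card := by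
  rw [g24_norm_eq]
  have e : Cfsg.support₂ w =
      (Finset.univ.filter (fun a : Fin 24 => w (gcPt a) ≠ 0)).map gcEquiv.toEmbedding := by
    ext i
    simp only [g24_mem_supp, Finset.mem_map, Finset.mem_filter, Finset.mem_univ, true_and,
      Equiv.coe_toEmbedding]
    constructor
    · intro h
      refine ⟨gcEquiv.symm i, ?_, gcEquiv.apply_symm_apply i⟩
      have e2 : gcPt (gcEquiv.symm i) = i := gcEquiv.apply_symm_apply i
      rw [e2]; exact h
    · rintro ⟨a, ha, rfl⟩; exact ha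
  rw [e, Finset.card_map]

theorem gc_wt_gen (t : ZMod 23) : hammingNorm (Cfsg.qrWord t) = 12 := by
  rw [gc_norm]
  simp only [gc_bridge]
  exact gc_wt_tab t

theorem gc_card_pt : Fintype.card Cfsg.GolayPt = 24 := by decide

theorem gc_wt_one : hammingNorm (1 : Cfsg.GolayPt → ZMod 2) = 24 := by
  rw [g24_norm_eq]
  have e : Cfsg.support₂ (1 : Cfsg.GolayPt → ZMod 2) = Finset.univ := by
    ext i; simp [g24_mem_supp]
  rw [e, Finset.card_univ, gc_card_pt]

theorem gc_doubly_even : ∀ w ∈ Cfsg.golayCode, 4 ∣ hammingNorm w := by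
  have key : ∀ w ∈ Submodule.span (ZMod 2) (Set.range Cfsg.qrWord ∪ {1}),
      w ∈ Cfsg.golayCode ∧ 4 ∣ hammingNorm w := by
    intro w hw
    induction hw using Submodule.span_induction with
    | mem x hx =>
      refine ⟨Submodule.subset_span hx, ?_⟩
      rcases hx with ⟨t, rfl⟩ | hx
      · rw [gc_wt_gen t]; norm_num
      · rw [Set.mem_singleton_iff] at hx
        subst hx
        rw [gc_wt_one]; norm_num
    | zero => exact ⟨Submodule.zero_mem _, by simp⟩
    | add x y _ _ hx hy =>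
      refine ⟨Submodule.add_mem _ hx.1 hy.1, ?_⟩
      have e : x + y = x - y := by
        funext i
        have k2 : ∀ a b : ZMod 2, a + b = a - b := by decide
        exact k2 _ _
      rw [e]
      have hn := g24_norm_sub x y
      have hev := g24g_inter_even x y (gc_orth x hx.1 y hy.1)
      have h1 := hx.2
      have h2 := hy.2
      omega
    | smul a x _ hx =>
      have ha : a = 0 ∨ a = 1 := by revert a; decide
      rcases ha with rfl | rfl
      · rw [zero_smul]; exact ⟨Submodule.zero_mem _, by simp⟩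
      · rw [one_smul]; exact hx
  intro w hw
  exact (key w hw).2

theorem gc_no4 (w : Cfsg.GolayPt → ZMod 2) (hw : w ∈ Cfsg.golayCode) : hammingNorm w ≠ 4 := by
  intro h4
  rw [gc_norm] at h4
  generalize hS : Finset.univ.filter (fun a : Fin 24 => w (gcPt a) ≠ 0) = S at h4
  have hlt : ∀ i j : Fin 4, i < j → S.orderEmbOfFin h4 i < S.orderEmbOfFin h4 j :=
    fun i j hij => (S.orderEmbOfFin h4).strictMono hij
  obtain ⟨t, ht⟩ := gc_no4_tb (S.orderEmbOfFin h4 3) (S.orderEmbOfFin h4 2)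
    (S.orderEmbOfFin h4 1) (S.orderEmbOfFin h4 0) (hlt 2 3 (by decide)) (hlt 1 2 (by decide))
    (hlt 0 1 (by decide))
  apply ht
  have ho := gc_orth w hw (Cfsg.qrWord t) (Submodule.subset_span (Or.inl ⟨t, rfl⟩))
  rw [gc_sum] at ho
  simp only [gc_bridge] at ho
  have h1 : ∑ a : Fin 24, w (gcPt a) * gcB2z (gcTb t a) = ∑ a ∈ S, gcB2z (gcTb t a) := by
    rw [← hS, Finset.sum_filter]
    apply Finset.sum_congr rfl
    intro a _
    have key : ∀ x y : ZMod 2, x * y = if x ≠ 0 then y else 0 := by decide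
    exact key _ _
  have h2 : ∑ a ∈ S, gcB2z (gcTb t a) =
      ∑ i : Fin 4, gcB2z (gcTb t (S.orderEmbOfFin h4 i)) := by
    conv_lhs => rw [← Finset.map_orderEmbOfFin_univ S h4]
    rw [Finset.sum_map]
    rfl
  rw [h1, h2, Fin.sum_univ_four] at ho
  rw [← ho]
  ring

theorem gc_min : ∀ w ∈ Cfsg.golayCode, w ≠ 0 → 8 ≤ hammingNorm w := by
  intro w hw hw0
  have h4 := gc_doubly_even w hw
  have hne4 := gc_no4 w hw
  have h0 : hammingNorm w ≠ 0 := fun h => hw0 (hammingNorm_eq_zero.mp h)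
  omega

/-- generator combinations giving a systematic basis -/
def gcT : ℕ → List (ZMod 23)
  | 0 => [0, 3, 5, 7, 9, 10]
  | 1 => [3, 4, 8]
  | 2 => [0, 3, 4, 7, 10]
  | 3 => [3, 4, 5, 6, 8, 10]
  | 4 => [1, 3, 4, 5, 7, 9, 10]
  | 5 => [0, 1, 2, 4, 7, 8, 9, 10]
  | 6 => [0, 2, 3, 6, 7, 8, 10]
  | 7 => [4, 6, 7, 8, 9, 10]
  | 8 => [0, 1, 6, 8, 10]
  | 9 => [0, 2, 5, 6]
  | 10 => [0, 1, 5, 6, 9, 10]
  | 11 => [0, 2, 5, 9, 10]
  | _ => []

/-- whether the all-ones word is added -/
def gcE : ℕ → ZMod 2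
  | 0 => 1
  | 1 => 0
  | 2 => 1
  | 3 => 0
  | 4 => 1
  | 5 => 1
  | 6 => 1
  | 7 => 0
  | 8 => 0
  | 9 => 0
  | 10 => 1
  | 11 => 1
  | _ => 0

/-- a combination of generators -/
def gcComb (L : List (ZMod 23)) (e : ZMod 2) : Cfsg.GolayPt → ZMod 2 :=
  fun p => (L.map (fun t => Cfsg.qrWord t p)).sum + e

theorem gc_comb_mem (L : List (ZMod 23)) (e : ZMod 2) : gcComb L e ∈ Cfsg.golayCode := by
  have h1 : ∀ L : List (ZMod 23),
      (fun p => (L.map (fun t => Cfsg.qrWord t p)).sum) ∈ Cfsg.golayCode := by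
    intro L
    induction L with
    | nil =>
      have e0 : (fun p : Cfsg.GolayPt => (([] : List (ZMod 23)).map
          (fun t => Cfsg.qrWord t p)).sum) = 0 := by
        funext p; simp
      rw [e0]; exact Submodule.zero_mem _
    | cons t L ih =>
      have e1 : (fun p => ((t :: L).map (fun t => Cfsg.qrWord t p)).sum) =
          Cfsg.qrWord t + (fun p => (L.map (fun t => Cfsg.qrWord t p)).sum) := by
        funext p; simp
      rw [e1]
      exact Submodule.add_mem _ (Submodule.subset_span (Or.inl ⟨t, rfl⟩)) ih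
  have h2 : (fun _ : Cfsg.GolayPt => e) ∈ Cfsg.golayCode := by
    have e2 : (fun _ : Cfsg.GolayPt => e) = e • (1 : Cfsg.GolayPt → ZMod 2) := by
      funext p; simp
    rw [e2]
    exact Submodule.smul_mem _ _ (Submodule.subset_span (Or.inr rfl))
  have e3 : gcComb L e = (fun p => (L.map (fun t => Cfsg.qrWord t p)).sum) +
      (fun _ : Cfsg.GolayPt => e) := rfl
  rw [e3]
  exact Submodule.add_mem _ (h1 L) h2

theorem gc_basis_tab : ∀ j k : Fin 12,
    ((gcT j.val).map (fun t => gcB2z (gcTb t (Fin.castLE (by norm_num) k)))).sum + gcE j.val =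
      if j = k then 1 else 0 := by
  decide +kernel

theorem gc_basis_delta (j k : Fin 12) :
    gcComb (gcT j.val) (gcE j.val) (gcPt (Fin.castLE (by norm_num) k)) =
      if j = k then 1 else 0 := by
  unfold gcComb
  simp only [gc_bridge]
  exact gc_basis_tab j k

theorem gc_finrank_ge : 12 ≤ Module.finrank (ZMod 2) Cfsg.golayCode := by
  have hli : LinearIndependent (ZMod 2) (fun j : Fin 12 =>
      (⟨gcComb (gcT j.val) (gcE j.val), gc_comb_mem _ _⟩ : Cfsg.golayCode)) := by
    rw [Fintype.linearIndependent_iff]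
    intro g hg k
    have h1 := congrArg (fun x : Cfsg.golayCode =>
      (x : Cfsg.GolayPt → ZMod 2) (gcPt (Fin.castLE (by norm_num) k))) hg
    simp only [Submodule.coe_sum, Submodule.coe_smul, Finset.sum_apply, Pi.smul_apply, smul_eq_mul,
      ZeroMemClass.coe_zero, Pi.zero_apply, gc_basis_delta] at h1
    simpa using h1
  simpa using hli.fintype_card_le_finrank

theorem gc_finrank : Module.finrank (ZMod 2) Cfsg.golayCode = 12 := by
  classical
  have h1 := Module.natCard_eq_pow_finrank (K := ZMod 2) (V := Cfsg.golayCode)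
  rw [Nat.card_eq_fintype_card (α := ZMod 2), ZMod.card] at h1
  have h2 : (Finset.univ.filter
      (fun c : Cfsg.GolayPt → ZMod 2 => c ∈ Cfsg.golayCode)).card ≤ 4096 :=
    g24g_packing gc_card_pt gc_min
  rw [← Fintype.card_subtype, ← Nat.card_eq_fintype_card, h1] at h2
  have h3 := gc_finrank_ge
  have h4 : Module.finrank (ZMod 2) Cfsg.golayCode ≤ 12 :=
    (Nat.pow_le_pow_iff_right (by norm_num : 1 < 2)).mp h2
  exact le_antisymm h4 h3

theorem gc_size : Nat.card Cfsg.golayCode = 4096 := by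
  have h1 := Module.natCard_eq_pow_finrank (K := ZMod 2) (V := Cfsg.golayCode)
  rw [Nat.card_eq_fintype_card (α := ZMod 2), ZMod.card, gc_finrank] at h1
  rw [h1]; norm_num

theorem gc_g24 : G24 Cfsg.golayCode := ⟨gc_card_pt, gc_min, gc_size⟩

end Cfsg.Agent.Lib.Helper7
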