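import Mathlib
import Cfsg.Prelude
import Cfsg.Agent.Lib.Helper7.GolayC8

set_option autoImplicit false

namespace Cfsg.Agent.Lib.Helper7

open scoped Pointwise

/-- index table of the shift -/
def gcShiftL : List ℕ := [1, 2, 3, 4, 5, 6, 7, 8, 9, 10, 11, 12, 13, 14, 15, 16, 17, 18, 19, 20, 21, 22, 0, 23]

/-- index table of a generator -/
def gcGenL (g : ℕ) : List ℕ := if g = 0 then gcShiftL else if g = 1 then gcProjL else gcCubeL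

/-- a generator acting on indices -/
def gcGenTab (g : ℕ) (a : Fin 24) : Fin 24 := Fin.ofNat 24 ((gcGenL g).getD a.val 0)

/-- a word in the generators acting on indices -/
def gcEval : List ℕ → Fin 24 → Fin 24
  | [], a => a
  | g :: w, a => gcGenTab g (gcEval w a)

/-- a generator as a permutation of the points -/
noncomputable def gcGen (g : ℕ) : Equiv.Perm Cfsg.GolayPt :=
  if g = 0 then Equiv.optionCongr (Equiv.addRight (1 : ZMod 23))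
  else if g = 1 then Cfsg.projInv else Cfsg.cubeTwist

/-- a word in the generators as a permutation of the points -/
noncomputable def gcWord : List ℕ → Equiv.Perm Cfsg.GolayPt
  | [] => 1
  | g :: w => gcGen g * gcWord w

theorem gc_gen_mem (g : ℕ) : gcGen g ∈ Cfsg.M24 := by
  unfold gcGen
  split_ifs
  · exact gc_shift_mem
  · exact gc_projInv_mem
  · exact gc_cubeTwist_mem

theorem gc_word_mem (w : List ℕ) : gcWord w ∈ Cfsg.M24 := by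
  induction w with
  | nil => exact one_mem _
  | cons g w ih => exact mul_mem (gc_gen_mem g) ih

set_option maxRecDepth 100000 in
theorem gc_shift_pt : ∀ a : Fin 24, (Equiv.optionCongr (Equiv.addRight (1 : ZMod 23))) (gcPt a) =
    gcPt (Fin.ofNat 24 (gcShiftL.getD a.val 0)) := by
  decide

theorem gc_gen_rep (g : ℕ) (a : Fin 24) : gcGen g (gcPt a) = gcPt (gcGenTab g a) := by
  unfold gcGen gcGenTab gcGenL
  split_ifs with h0 h1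
  · exact gc_shift_pt a
  · exact gc_proj_pt a
  · exact gc_cube_pt a

theorem gc_word_rep (w : List ℕ) (a : Fin 24) : gcWord w (gcPt a) = gcPt (gcEval w a) := by
  induction w with
  | nil => rfl
  | cons g w ih =>
    show gcGen g (gcWord w (gcPt a)) = gcPt (gcGenTab g (gcEval w a))
    rw [ih, gc_gen_rep]

/-- words moving a point to the next base point while fixing the earlier ones -/
def gcLvlL : List (List (List ℕ)) := [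
  [[1], [1, 0, 1], [1, 0, 1, 2, 2], [1, 0, 0, 2, 0, 0], [1, 0, 0, 2, 0], [1, 0, 0, 2], [1, 0, 1,
    2], [1, 0, 0, 2, 2], [1, 0, 0, 0, 1], [1, 0, 0, 1, 2], [1, 0, 2, 2, 0], [1, 0, 2, 2], [1, 0,
    0, 1], [1, 0, 0, 1, 2, 2], [1, 0, 2, 0, 1], [1, 0, 0, 2, 0, 0, 1], [1, 0, 2, 0, 0, 0], [1, 0,
    2, 0, 0], [1, 0, 2, 0], [1, 0, 2], [1, 0, 0, 0], [1, 0, 0], [1, 0], []],
  [[], [0, 2, 0, 2], [0, 0, 2, 0, 0, 0], [0, 0, 2, 0, 0], [0, 0, 2, 0], [0, 0, 2], [0, 0, 2, 2,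
    0], [0, 0, 2, 2], [0, 2, 0, 0, 0, 2], [0, 2, 2, 0, 0], [0, 2, 2, 0], [0, 2, 2], [0, 2, 0, 0,
    0, 2, 2], [0, 2, 0, 0, 2, 0], [0, 2, 0, 0, 2], [0, 2, 0, 0, 0, 0], [0, 2, 0, 0, 0], [0, 2, 0,
    0], [0, 2, 0], [0, 2], [0, 0, 0], [0, 0], [0], []],
  [[], [], [2, 2], [2, 2, 2, 0, 2, 0, 2, 0], [2, 2, 2], [0, 0, 2, 0, 2, 2, 0], [2], [0, 0, 2, 0,
    2, 2, 0, 2], [0, 0, 2, 0, 0, 0, 2, 2, 2, 0], [0, 1, 0, 1, 2, 2, 0, 0, 1, 2], [0, 0, 0, 0, 0,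
    2, 0], [0, 0, 2, 0, 0, 2, 0, 0, 0], [0, 1, 0, 1, 2, 2, 0, 0, 1], [0, 2, 2, 0, 2, 0, 0, 2, 0],
    [0, 0, 2, 0, 0, 0, 0, 0], [0, 2, 0, 2, 2, 2, 0, 0], [1, 0, 1, 0, 1, 2, 2, 0, 0], [1, 0, 0, 2,
    0, 2, 2, 0, 1], [2, 2, 2, 2], [0, 0, 2, 0, 0, 0, 0, 0, 2, 2], [0, 0, 0, 0, 0, 2, 0, 2], [2,
    0, 0, 2, 0, 2, 2, 0], [0, 0, 2, 0, 0, 0, 0, 0, 2], []],
  [[], [], [], [2, 0, 2, 0, 2, 0], [2, 0, 2, 0, 2, 0, 0, 2, 0, 2, 0, 2], [1, 2, 0, 2, 0, 2, 0,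
    1], [1, 2, 2, 2, 2, 0, 2, 0, 2, 0, 1, 2], [0, 0, 2, 0, 0, 2, 2, 2, 0, 2, 2, 2, 0], [1, 0, 0,
    2, 2, 0, 0, 0, 2, 2, 0, 1, 2, 2], [0, 0, 2, 2, 0, 2, 2, 2, 2, 0, 2, 2, 2, 2], [0, 2, 0, 0, 2,
    2, 0, 2, 0, 2, 2, 0], [2, 2, 2, 0, 0, 2, 0, 0, 2, 0, 0, 0], [1, 0, 2, 0, 2, 0, 1, 2, 2], [0,
    0, 0, 2, 2, 0, 0, 2, 2, 2, 2, 0, 0, 0, 2], [0, 0, 2, 2, 0, 2, 0, 0, 2], [1, 2, 2, 0, 1, 0, 1,
    2, 2, 0, 0], [1, 0, 2, 2, 0, 2, 0, 0, 2, 0, 1], [0, 2, 0, 0, 2, 2, 0, 2, 2, 0, 2, 0, 0], [0,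
    0, 0, 2, 2, 0, 0, 0, 0, 0, 2, 2, 2], [0, 1, 0, 2, 0, 2, 0, 2, 0, 1, 0, 1], [2, 2, 0, 2, 0, 2,
    2, 2, 0, 0, 2], [0, 0, 0, 2, 2, 0, 0, 2, 0, 0, 0, 2, 2], [0, 0, 2, 0, 0, 0, 2, 0, 0, 0, 0, 2,
    2], []],
  [[], [], [], [], [0, 2, 0, 2, 0, 2], [2, 0, 0, 2, 0, 2, 0, 0, 2, 0, 0, 2, 2, 2, 2, 0, 2, 2],
    [0, 1, 2, 0, 2, 0, 2, 0, 0, 1, 0, 1], [2, 2, 0, 0, 2, 0, 0, 2, 2, 0, 0, 0, 2, 2], [0, 0, 0,
    0, 0, 2, 2, 2, 2, 0, 0, 0, 0, 2], [0, 0, 0, 0, 2, 0, 0, 0, 0, 0, 0, 0, 2, 2, 0, 2], [0, 0, 2,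
    2, 0, 0, 0, 2, 0, 2, 2, 2, 0, 2, 0, 2, 2], [0, 2, 2, 0, 2, 2, 0, 2, 2, 2, 0, 2, 2, 2, 2, 0],
    [1, 2, 0, 0, 0, 1, 2, 2, 0, 1, 0, 1, 2, 0, 0, 1, 2], [1, 2, 0, 1, 0, 1, 2, 0, 0, 0, 0, 0, 0,
    2, 2], [1, 0, 0, 0, 2, 2, 0, 2, 2, 2, 2, 0, 0, 1, 2, 2, 2], [0, 2, 0, 1, 0, 2, 2, 2, 2, 0, 2,
    0, 1, 0, 0, 0, 1, 0], [0, 0, 2, 2, 2, 0, 2, 0, 2, 2, 2, 2, 0, 0, 2, 0, 0], [0, 0, 0, 0, 2, 2,
    0, 2, 0, 0, 0, 0, 2, 2, 0, 2], [2, 2, 2, 0, 1, 0, 1, 2, 0, 2, 0, 2, 0, 0, 1, 2, 2], [2, 2, 2,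
    0, 0, 2, 0, 2, 2, 2, 2, 0, 0], [0, 0, 2, 0, 0, 1, 2, 0, 0, 2, 0, 2, 2, 0, 1, 2, 0], [0, 1, 0,
    2, 0, 1, 0, 2, 0, 1, 0, 2, 2, 2, 0, 1, 0], [1, 0, 2, 2, 0, 2, 2, 0, 0, 0, 2, 2, 0, 0, 2, 2,
    0, 1], []]]

/-- the word for level `k` and point `a` -/
def gcLvl (k a : ℕ) : List ℕ := (gcLvlL.getD k []).getD a []

/-- the base points -/
def gcBase (j : ℕ) : Fin 24 := Fin.ofNat 24 ([23, 0, 1, 2, 3].getD j 0)

theorem gc_lvl_tab : ∀ k < 5, ∀ a : Fin 24, (∀ j < k, a ≠ gcBase j) →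
    (∀ j < k, gcEval (gcLvl k a.val) (gcBase j) = gcBase j) ∧
      gcEval (gcLvl k a.val) a = gcBase k := by
  decide +kernel

theorem gc_lvl (k : ℕ) (hk : k < 5) (p : Cfsg.GolayPt) (hp : ∀ j < k, p ≠ gcPt (gcBase j)) :
    ∃ g ∈ Cfsg.M24, (∀ j < k, g (gcPt (gcBase j)) = gcPt (gcBase j)) ∧ g p = gcPt (gcBase k) := by
  obtain ⟨a, rfl⟩ := gcEquiv.surjective p
  have ha : ∀ j < k, a ≠ gcBase j := fun j hj h => hp j hj (by rw [h]; rfl)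
  obtain ⟨h1, h2⟩ := gc_lvl_tab k hk a ha
  refine ⟨gcWord (gcLvl k a.val), gc_word_mem _, fun j hj => ?_, ?_⟩
  · rw [gc_word_rep, h1 j hj]
  · show gcWord (gcLvl k a.val) (gcPt a) = gcPt (gcBase k)
    rw [gc_word_rep, h2]

theorem gc_five_aux (x : Fin 5 ↪ Cfsg.GolayPt) (n : ℕ) (hn : n ≤ 5) :
    ∃ g ∈ Cfsg.M24, ∀ i : Fin 5, i.val < n → g (x i) = gcPt (gcBase i.val) := by
  induction n with
  | zero => exact ⟨1, one_mem _, fun i hi => absurd hi (Nat.not_lt_zero _)⟩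
  | succ n ih =>
    obtain ⟨g, hg, hgx⟩ := ih (by omega)
    have hn5 : n < 5 := by omega
    have hp : ∀ j < n, g (x ⟨n, hn5⟩) ≠ gcPt (gcBase j) := by
      intro j hj h
      have hj5 : j < 5 := by omega
      have h1 := hgx ⟨j, hj5⟩ hj
      rw [← h1] at h
      have h2 := x.injective (g.injective h)
      rw [Fin.mk.injEq] at h2
      omega
    obtain ⟨h, hh, hfix, hmap⟩ := gc_lvl n hn5 _ hp
    refine ⟨h * g, mul_mem hh hg, fun i hi => ?_⟩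
    rw [Equiv.Perm.mul_apply]
    rcases Nat.lt_succ_iff_lt_or_eq.mp hi with hlt | heq
    · rw [hgx i hlt]
      exact hfix i.val hlt
    · have hi' : i = ⟨n, hn5⟩ := Fin.ext heq
      rw [hi']
      exact hmap

theorem gc_five : MulAction.IsMultiplyPretransitive Cfsg.M24 Cfsg.GolayPt 5 := by
  rw [MulAction.isMultiplyPretransitive_iff]
  intro x y
  obtain ⟨g, hg, hgx⟩ := gc_five_aux x 5 le_rfl
  obtain ⟨h, hh, hhy⟩ := gc_five_aux y 5 le_rfl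
  refine ⟨⟨h⁻¹ * g, mul_mem (inv_mem hh) hg⟩, ?_⟩
  refine DFunLike.ext _ _ (fun i => ?_)
  show (h⁻¹ * g) (x i) = y i
  rw [Equiv.Perm.mul_apply, hgx i i.isLt, ← hhy i i.isLt]
  exact h.symm_apply_apply (y i)

theorem gc_trans_octads (o o' : Finset Cfsg.GolayPt) (ho : o ∈ Cfsg.octads)
    (ho' : o' ∈ Cfsg.octads) : ∃ g : Cfsg.M24, g • o = o' := by
  obtain ⟨s, hs, hs5⟩ := Finset.exists_subset_card_eq
    (by rw [gc_octad_card ho]; norm_num : 5 ≤ o.card)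
  obtain ⟨s', hs', hs5'⟩ := Finset.exists_subset_card_eq
    (by rw [gc_octad_card ho']; norm_num : 5 ≤ o'.card)
  obtain ⟨g, hg⟩ := (MulAction.isMultiplyPretransitive_iff.mp gc_five)
    ((s.equivFinOfCardEq hs5).symm.toEmbedding.trans (Function.Embedding.subtype _))
    ((s'.equivFinOfCardEq hs5').symm.toEmbedding.trans (Function.Embedding.subtype _))
  refine ⟨g, ?_⟩
  have h1 : (g : Equiv.Perm Cfsg.GolayPt) • o ∈ Cfsg.octads := gc_M24_words g.2 8 o ho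
  have h2 : s' ⊆ (g : Equiv.Perm Cfsg.GolayPt) • o := by
    intro q hq
    have h3 := congrArg (fun e : Fin 5 ↪ Cfsg.GolayPt => e (s'.equivFinOfCardEq hs5' ⟨q, hq⟩)) hg
    simp only [Function.Embedding.trans_apply, Equiv.coe_toEmbedding, Equiv.symm_apply_apply,
      Function.Embedding.subtype_apply] at h3
    rw [← h3]
    exact Finset.smul_mem_smul_finset
      (hs ((s.equivFinOfCardEq hs5).symm (s'.equivFinOfCardEq hs5' ⟨q, hq⟩)).2)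
  obtain ⟨b, _, huniq⟩ := gc_steiner.2 s' hs5'
  have e1 := huniq _ ⟨h1, h2⟩
  have e2 := huniq o' ⟨ho', hs'⟩
  show (g : Equiv.Perm Cfsg.GolayPt) • o = o'
  rw [e1, e2]

end Cfsg.Agent.Lib.Helper7
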