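import Mathlib
import Cfsg.Prelude
import Cfsg.Agent.Lib.Helper7.GolayC9

set_option autoImplicit false

namespace Cfsg.Agent.Lib.Helper7

open scoped Pointwise

/-- the points of a bit mask -/
def gcSet (m : ℕ) : Finset Cfsg.GolayPt :=
  (Finset.univ.filter (fun a : Fin 24 => m.testBit a.val = true)).map gcEquiv.toEmbedding

theorem gc_mem_set (m : ℕ) (a : Fin 24) : gcPt a ∈ gcSet m ↔ m.testBit a.val = true := by
  unfold gcSet
  rw [Finset.mem_map]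
  constructor
  · rintro ⟨b, hb, hba⟩
    have hba' : b = a := gcEquiv.injective hba
    subst hba'
    exact (Finset.mem_filter.mp hb).2
  · intro h
    exact ⟨a, Finset.mem_filter.mpr ⟨Finset.mem_univ _, h⟩, rfl⟩

/-- number of points of a bit mask -/
def gcPop (m : ℕ) : ℕ := (Finset.univ.filter (fun a : Fin 24 => m.testBit a.val = true)).card

theorem gc_set_card (m : ℕ) : (gcSet m).card = gcPop m := Finset.card_map _

theorem gc_set_octad (m : ℕ) (L : List (ZMod 23)) (e : ZMod 2)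
    (h : ∀ a : Fin 24, gcB2z (m.testBit a.val) = (L.map (fun s => gcB2z (gcTb s a))).sum + e)
    (hc : gcPop m = 8) : gcSet m ∈ Cfsg.octads := by
  rw [gc_octad_iff]
  refine ⟨?_, by rw [gc_set_card, hc]⟩
  have e1 : g24Ind (gcSet m) = gcComb L e := by
    funext p
    obtain ⟨a, rfl⟩ := gcEquiv.surjective p
    show g24Ind (gcSet m) (gcPt a) = gcComb L e (gcPt a)
    unfold gcComb g24Ind
    simp only [gc_bridge, gc_mem_set]
    rw [← h a]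
    rfl
  rw [e1]
  exact gc_comb_mem L e

/-- the octad through the five base points -/
def gcO0 : ℕ := 8536111

/-- octads through five of the seven base points -/
def gcO1 : List ℕ := [5279, 10558, 786999, 2162811, 5275709, 8391797, 8978620, 8421811, 11538486, 10486557, 12656663, 8663097, 9963547, 8683614, 12584506, 8536111]

/-- an octad separating the last two points -/
def gcO2 : List ℕ := [3277413]

/-- all octads used -/
def gcOL : List ℕ := gcO0 :: (gcO1 ++ gcO2)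

/-- generator combinations of the octads used -/
def gcOT : ℕ → List (ZMod 23)
  | 0 => [0, 1, 2, 6, 7, 8]
  | 1 => [0, 3, 4, 6, 8]
  | 2 => [1, 4, 5, 7, 9]
  | 3 => [5, 6, 9]
  | 4 => [0, 3, 5, 9, 10]
  | 5 => [0, 2, 5, 6, 9, 10]
  | 6 => [1, 2, 4, 7, 9, 10]
  | 7 => [2, 3, 4, 8, 9, 10]
  | 8 => [0, 1, 2, 3, 10]
  | 9 => [2, 3, 5, 7, 10]
  | 10 => [2, 4, 6, 7, 10]
  | 11 => [1, 4, 7, 8, 10]
  | 12 => [2, 3, 4, 5, 6, 7, 9]
  | 13 => [1, 2, 4, 6, 9]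
  | 14 => [1, 2, 3, 7, 8, 9]
  | 15 => [0, 1, 3, 6, 8, 9]
  | 16 => [0, 1, 2, 6, 7, 8]
  | 17 => [0, 1, 2, 3]
  | _ => []

/-- whether the all-ones word is added -/
def gcOE : ℕ → ZMod 2
  | 0 => 1
  | 1 => 0
  | 2 => 0
  | 3 => 0
  | 4 => 0
  | 5 => 0
  | 6 => 1
  | 7 => 1
  | 8 => 1
  | 9 => 1
  | 10 => 1
  | 11 => 1
  | 12 => 1
  | 13 => 1
  | 14 => 1
  | 15 => 1
  | 16 => 1
  | 17 => 0
  | _ => 0

theorem gc_ol_tab : ∀ i < 18,
    (∀ a : Fin 24, gcB2z ((gcOL.getD i 0).testBit a.val) =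
      ((gcOT i).map (fun s => gcB2z (gcTb s a))).sum + gcOE i) ∧ gcPop (gcOL.getD i 0) = 8 := by
  decide +kernel

theorem gc_ol_octad (m : ℕ) (hm : m ∈ gcOL) : gcSet m ∈ Cfsg.octads := by
  obtain ⟨i, hi, rfl⟩ := List.mem_iff_getElem.mp hm
  have hi18 : i < 18 := hi
  obtain ⟨h1, h2⟩ := gc_ol_tab i hi18
  rw [List.getD_eq_getElem _ _ hi] at h1 h2
  exact gc_set_octad _ _ _ h1 h2

theorem gc_octad_eq5 {o o' : Finset Cfsg.GolayPt} (ho : o ∈ Cfsg.octads)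
    (ho' : o' ∈ Cfsg.octads) (h : 5 ≤ (o ∩ o').card) : o' = o := by
  have h1 := gc_octad_octad ho ho'
  exact gc_octad_eq ho ho' (by omega)

/-- an octad with five fixed points is invariant -/
theorem gc_inv_octad (g : Equiv.Perm Cfsg.GolayPt) (hg : g ∈ Cfsg.M24) (F : ℕ)
    (hF : ∀ a : Fin 24, F.testBit a.val = true → g (gcPt a) = gcPt a) (m : ℕ)
    (hoct : gcSet m ∈ Cfsg.octads) (h5 : 5 ≤ gcPop (m &&& F)) : g • gcSet m = gcSet m := by
  have hoct' : g • gcSet m ∈ Cfsg.octads := gc_M24_words hg 8 _ hoct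
  apply gc_octad_eq5 hoct hoct'
  have hsub : gcSet (m &&& F) ⊆ gcSet m ∩ g • gcSet m := by
    intro p hp
    obtain ⟨a, rfl⟩ := gcEquiv.surjective p
    have hp' : (m &&& F).testBit a.val = true := (gc_mem_set _ a).mp hp
    rw [Nat.testBit_and, Bool.and_eq_true] at hp'
    rw [Finset.mem_inter]
    refine ⟨(gc_mem_set m a).mpr hp'.1, ?_⟩
    have h4 : g • (gcPt a) ∈ g • gcSet m :=
      Finset.smul_mem_smul_finset ((gc_mem_set m a).mpr hp'.1)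
    rw [Equiv.Perm.smul_def, hF a hp'.2] at h4
    exact h4
  calc 5 ≤ gcPop (m &&& F) := h5
    _ = (gcSet (m &&& F)).card := (gc_set_card _).symm
    _ ≤ _ := Finset.card_le_card hsub

theorem gc_fix_step (g : Equiv.Perm Cfsg.GolayPt) (hg : g ∈ Cfsg.M24) (F : ℕ)
    (hF : ∀ a : Fin 24, F.testBit a.val = true → g (gcPt a) = gcPt a)
    (O : List ℕ) (hO : ∀ m ∈ O, gcSet m ∈ Cfsg.octads ∧ 5 ≤ gcPop (m &&& F))
    (q : Fin 24) (hq : F.testBit q.val = false)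
    (hsep : ∀ q' : Fin 24, F.testBit q'.val = false →
      (∀ m ∈ O, m.testBit q.val = m.testBit q'.val) → q' = q) : g (gcPt q) = gcPt q := by
  obtain ⟨q', hq'⟩ := gcEquiv.surjective (g (gcPt q))
  have hq'' : gcPt q' = g (gcPt q) := hq'
  have hFq' : F.testBit q'.val = false := by
    by_contra hcon
    have ht : F.testBit q'.val = true := by simpa using hcon
    have h1 := hF q' ht
    rw [hq''] at h1
    have h2 := g.injective h1
    rw [← hq''] at h2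
    have h3 : q' = q := gcEquiv.injective h2
    rw [h3] at ht
    rw [ht] at hq
    exact Bool.noConfusion hq
  have hqq : q' = q := by
    apply hsep q' hFq'
    intro m hm
    obtain ⟨hoct, h5⟩ := hO m hm
    have hinv := gc_inv_octad g hg F hF m hoct h5
    rw [Bool.eq_iff_iff, ← gc_mem_set, ← gc_mem_set, hq'', ← Equiv.Perm.smul_def]
    conv_rhs => rw [← hinv]
    rw [Finset.smul_mem_smul_finset_iff]
  rw [← hq'', hqq]

/-- mask of the seven base points -/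
def gcF1 : ℕ := 8388671

/-- mask of the points fixed after the first stage -/
def gcF2 : ℕ := 16629759

/-- mask of the five base points -/
def gcF5 : ℕ := 8388623

theorem gc_sep1 : ∀ q : Fin 24, gcF1.testBit q.val = false → gcF2.testBit q.val = true →
    ∀ q' : Fin 24, gcF1.testBit q'.val = false →
      (∀ m ∈ gcO1, m.testBit q.val = m.testBit q'.val) → q' = q := by
  decide +kernel

theorem gc_sep2 : ∀ q : Fin 24, gcF2.testBit q.val = false →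
    ∀ q' : Fin 24, gcF2.testBit q'.val = false →
      (∀ m ∈ gcO2, m.testBit q.val = m.testBit q'.val) → q' = q := by
  decide +kernel

theorem gc_pop1 : ∀ m ∈ gcO1, 5 ≤ gcPop (m &&& gcF1) := by
  decide +kernel

theorem gc_pop2 : ∀ m ∈ gcO2, 5 ≤ gcPop (m &&& gcF2) := by
  decide +kernel

theorem gc_pop0 : 5 ≤ gcPop (gcO0 &&& gcF5) := by
  decide +kernel

/-- an element of `M24` fixing the seven base points is trivial -/
theorem gc_base7 (g : Equiv.Perm Cfsg.GolayPt) (hg : g ∈ Cfsg.M24)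
    (h : ∀ a : Fin 24, gcF1.testBit a.val = true → g (gcPt a) = gcPt a) : g = 1 := by
  have h2 : ∀ a : Fin 24, gcF2.testBit a.val = true → g (gcPt a) = gcPt a := by
    intro a ha
    by_cases h1 : gcF1.testBit a.val = true
    · exact h a h1
    · have h1' : gcF1.testBit a.val = false := by simpa using h1
      exact gc_fix_step g hg gcF1 h gcO1
        (fun m hm => ⟨gc_ol_octad m (List.mem_cons_of_mem _ (List.mem_append_left _ hm)),
          gc_pop1 m hm⟩) a h1' (gc_sep1 a h1' ha)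
  refine Equiv.ext (fun p => ?_)
  obtain ⟨a, rfl⟩ := gcEquiv.surjective p
  show g (gcPt a) = gcPt a
  by_cases h1 : gcF2.testBit a.val = true
  · exact h2 a h1
  · have h1' : gcF2.testBit a.val = false := by simpa using h1
    exact gc_fix_step g hg gcF2 h2 gcO2
      (fun m hm => ⟨gc_ol_octad m (List.mem_cons_of_mem _ (List.mem_append_right _ hm)),
        gc_pop2 m hm⟩) a h1' (gc_sep2 a h1')

/-- words realising the 48 elements of the five-point stabiliser -/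
def gcW48L : List (List (List ℕ)) := [
  [[], [], [], [], [], [], [], [], [], [], [], [], [], [], [], [], [], [], [], [], [], [], [],
    []],
  [[], [], [], [], [], [], [], [], [], [], [], [], [], [], [], [], [], [], [], [], [], [], [],
    []],
  [[], [], [], [], [], [], [], [], [], [], [], [], [], [], [], [], [], [], [], [], [], [], [],
    []],
  [[], [], [], [], [], [], [], [], [], [], [], [], [], [], [], [], [], [], [], [], [], [], [],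
    []],
  [[], [], [], [], [], [], [], [], [], [], [], [], [], [], [], [], [], [], [], [], [], [], [],
    []],
  [[], [], [], [], [1, 1], [], [1, 2, 2, 0, 0, 2, 0, 2, 2, 0, 0, 0, 2, 0, 2, 0, 1, 2, 2, 0, 1,
    0], [0, 0, 2, 0, 2, 2, 2, 0, 2, 0, 0, 0, 0, 0, 2, 0, 2, 0, 0, 0, 2, 2], [2, 2, 2, 0, 2, 0, 0,
    2, 2, 0, 2, 2, 0, 2, 0, 0, 2, 2], [2, 2, 2, 0, 0, 2, 2, 0, 2, 2, 0, 2, 0, 0, 0, 2, 2, 2], [0,
    2, 0, 0, 1, 0, 1, 2, 2, 0, 1, 0, 1, 2, 2, 0, 1, 0, 0, 0, 2, 0, 2, 1], [2, 0, 2, 2, 2, 2, 0,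
    0, 0, 2, 2, 2, 2, 0, 2, 0, 2, 2, 2], [2, 2, 0, 2, 2, 0, 2, 2, 0, 2, 0, 0, 0, 2, 0, 2, 2, 2],
    [0, 0, 2, 0, 0, 0, 0, 2, 2, 0, 2, 2, 2, 0, 2, 2, 0, 0, 0, 2], [], [2, 0, 1, 2, 0, 2, 0, 0, 2,
    0, 0, 0, 1, 0, 0, 2, 1, 0, 0, 0], [0, 2, 0, 1, 0, 1, 2, 2, 0, 2, 0, 0, 2, 2, 0, 0, 1, 0, 1,
    2, 2, 0], [], [0, 2, 2, 0, 1, 2, 0, 0, 0, 0, 1, 0, 0, 2, 2, 0, 2, 1, 0, 2, 2, 2], [2, 2, 2,
    0, 2, 0, 0, 0, 0, 0, 0, 2, 2, 0, 2, 2, 0, 0, 2, 0, 2], [2, 0, 0, 0, 0, 2, 2, 2, 2, 0, 0, 0,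
    0, 2, 2, 2, 2, 0, 0, 0, 0, 2, 2, 2], [2, 2, 2, 0, 2, 0, 2, 2, 2, 2, 0, 2, 2, 2, 2, 0, 0, 0,
    2], [1, 2, 0, 1, 0, 2, 2, 0, 0, 2, 0, 2, 2, 0, 2, 2, 1, 0, 2, 0, 0, 2], []],
  [[], [], [], [], [], [], [], [], [], [], [], [], [], [], [], [], [], [], [], [], [], [], [],
    []],
  [[], [], [], [], [], [], [], [], [], [], [], [], [], [], [], [], [], [], [], [], [], [], [],
    []],
  [[], [], [], [], [], [], [], [], [], [], [], [], [], [], [], [], [], [], [], [], [], [], [],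
    []],
  [[], [], [], [], [], [], [], [], [], [], [], [], [], [], [], [], [], [], [], [], [], [], [],
    []],
  [[], [], [], [], [], [], [], [], [], [], [], [], [], [], [], [], [], [], [], [], [], [], [],
    []],
  [[], [], [], [], [], [], [], [], [], [], [], [], [], [], [], [], [], [], [], [], [], [], [],
    []],
  [[], [], [], [], [], [], [], [], [], [], [], [], [], [], [], [], [], [], [], [], [], [], [],
    []],
  [[], [], [], [], [], [], [], [], [], [], [], [], [], [], [], [], [], [], [], [], [], [], [],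
    []],
  [[], [], [], [], [1, 2, 0, 2, 0, 0, 0, 1, 2, 0, 1, 2, 2, 2, 2, 0, 1, 0, 0, 0, 0], [], [0, 0, 2,
    2, 2, 2, 0, 0, 2, 0, 0, 0, 2, 0, 2, 2, 0], [0, 0, 1, 0, 1, 2, 2, 0, 0, 1, 2, 2, 2, 2, 0, 0,
    0, 0, 0, 2, 2, 2, 0], [0, 0, 0, 2, 0, 0, 0, 0, 2, 2, 0, 2, 0, 0, 2, 0, 2, 2, 2, 0, 2], [1, 0,
    0, 0, 1, 0, 1, 2, 2, 0, 2, 2, 0, 1, 2, 0, 0, 2, 1, 2, 0], [0, 0, 2, 2, 2, 0, 0, 0, 2, 2, 0,
    0, 2, 2, 0, 2, 0, 2, 2, 2, 2, 0], [1, 0, 1, 0, 2, 2, 0, 1, 0, 1, 2, 2, 2, 2, 0, 2, 0, 0, 0,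
    0], [2, 0, 0, 2, 0, 2, 2, 2, 2, 0, 2, 0, 0, 0, 2, 2, 2, 0, 2, 2, 2, 0], [2, 2, 0, 2, 2, 2, 0,
    2, 2, 0, 2, 2, 2, 0, 2, 0, 0, 0, 0, 0, 2], [], [1, 2, 0, 2, 2, 0, 2, 2, 0, 2, 0, 0, 0, 2, 0,
    1, 0, 2, 0, 2, 0], [0, 1, 0, 0, 1, 2, 2, 0, 0, 1, 0, 2, 0, 0, 2, 2, 0, 1, 2], [], [0, 1, 0,
    1, 2, 0, 2, 0, 2, 0, 0, 2, 1, 0, 2, 0, 2, 0], [1, 2, 0, 0, 2, 0, 0, 2, 0, 2, 0, 2, 0, 0, 0,
    1, 2], [0, 1, 0, 2, 0, 0, 1, 2, 0, 1, 0, 0, 0, 0, 2, 2, 1, 0, 0, 0, 2, 0], [2, 0, 0, 0, 1, 2,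
    0, 2, 0, 0, 1, 2, 0, 1, 2, 2, 0, 1, 0, 2, 0, 0], [0, 0, 2, 0, 2, 2, 2, 0, 0, 0, 0, 2, 0, 0,
    2, 0, 2, 0, 0, 0], []],
  [[], [], [], [], [], [], [], [], [], [], [], [], [], [], [], [], [], [], [], [], [], [], [],
    []],
  [[], [], [], [], [], [], [], [], [], [], [], [], [], [], [], [], [], [], [], [], [], [], [],
    []],
  [[], [], [], [], [2, 0, 0, 0, 0, 0, 0, 2, 0, 0, 0, 1, 2, 0, 1, 0, 2, 1, 0, 2], [], [1, 0, 2, 0,
    2, 0, 0, 1, 0, 2, 0, 2, 0, 2, 0, 1, 0], [1, 2, 0, 0, 0, 1, 2, 2, 0, 0, 1, 0, 0, 1, 0, 0, 2,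
    1, 0, 2, 2, 2], [0, 0, 0, 0, 0, 0, 0, 2, 2, 0, 2, 0, 2, 0, 0, 0, 0, 2, 2, 0, 2], [2, 2, 2, 2,
    0, 2, 0, 2, 0, 2, 2, 2, 0, 0, 0, 2, 0, 0, 0, 2, 0], [0, 2, 0, 0, 1, 0, 0, 0, 0, 1, 2, 2, 0,
    2, 2, 2, 0, 0, 2, 2, 0, 0, 1], [0, 1, 0, 0, 2, 2, 2, 2, 0, 1, 2, 0, 1, 0, 2, 2, 0, 1, 0, 2,
    0, 1], [0, 1, 0, 2, 0, 0, 2, 2, 0, 2, 2, 2, 2, 0, 2, 2, 1, 2, 2, 0, 1], [0, 1, 0, 0, 1, 0, 0,
    1, 2, 0, 0, 0, 0, 2, 2, 0, 1, 0, 0, 0, 0], [], [2, 0, 2, 0, 2, 0, 0, 1, 0, 2, 1, 0, 2, 0, 2,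
    0, 0, 1], [0, 0, 2, 0, 0, 1, 0, 2, 2, 0, 0, 2, 0, 0, 1, 0, 0, 2, 1, 0, 0], [], [0, 0, 0, 0,
    2, 2, 0, 0, 0, 2, 0, 2, 0, 2, 2, 2, 0, 0, 0, 0, 0, 0, 2], [2, 2, 0, 2, 2, 0, 2, 2, 0, 0, 0,
    0, 2, 2, 0, 2, 0, 2, 2, 0], [0, 0, 2, 2, 0, 0, 0, 2, 0, 1, 2, 0, 1, 0, 1, 2, 0, 2, 2, 0, 2,
    0, 2], [2, 0, 0, 0, 0, 1, 2, 0, 1, 0, 1, 2, 0, 0, 0, 2, 2, 2, 2, 0], [2, 0, 0, 0, 0, 0, 0, 1,
    2, 2, 0, 1, 2, 0, 0, 0, 0, 0, 0, 2, 1, 2], []],
  [[], [], [], [], [], [], [], [], [], [], [], [], [], [], [], [], [], [], [], [], [], [], [],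
    []],
  [[], [], [], [], [], [], [], [], [], [], [], [], [], [], [], [], [], [], [], [], [], [], [],
    []],
  [[], [], [], [], [], [], [], [], [], [], [], [], [], [], [], [], [], [], [], [], [], [], [],
    []],
  [[], [], [], [], [], [], [], [], [], [], [], [], [], [], [], [], [], [], [], [], [], [], [],
    []],
  [[], [], [], [], [], [], [], [], [], [], [], [], [], [], [], [], [], [], [], [], [], [], [],
    []],
  [[], [], [], [], [], [], [], [], [], [], [], [], [], [], [], [], [], [], [], [], [], [], [],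
    []]]

/-- the word sending the sixth and seventh base points to `u` and `v` -/
def gcW48 (u v : ℕ) : List ℕ := (gcW48L.getD u []).getD v []

theorem gc_w48_tab : ∀ u v : Fin 24, gcO0.testBit u.val = true → gcF5.testBit u.val = false →
    gcO0.testBit v.val = false →
    (∀ j < 5, gcEval (gcW48 u.val v.val) (gcBase j) = gcBase j) ∧
      gcEval (gcW48 u.val v.val) 5 = u ∧ gcEval (gcW48 u.val v.val) 4 = v := by
  decide +kernel

end Cfsg.Agent.Lib.Helper7
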