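import Mathlib
import Cfsg.Prelude
import Cfsg.Agent.Lib.Helper7.GolayC10

set_option autoImplicit false

namespace Cfsg.Agent.Lib.Helper7

open scoped Pointwise

/-- the standard 5-tuple -/
def gcX0 : Fin 5 ↪ Cfsg.GolayPt := ⟨fun i => gcPt (gcBase i.val), by decide⟩

theorem gc_stab_x0 (g : Cfsg.M24) : g ∈ MulAction.stabilizer Cfsg.M24 gcX0 ↔
    ∀ j < 5, (g : Equiv.Perm Cfsg.GolayPt) (gcPt (gcBase j)) = gcPt (gcBase j) := by
  rw [MulAction.mem_stabilizer_iff]
  constructor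
  · intro h j hj
    have h1 := congrArg (fun e : Fin 5 ↪ Cfsg.GolayPt => e ⟨j, hj⟩) h
    exact h1
  · intro h
    refine DFunLike.ext _ _ (fun i => ?_)
    exact h i.val i.isLt

theorem gc_f5_base : ∀ a : Fin 24, gcF5.testBit a.val = true → ∃ j < 5, a = gcBase j := by
  decide

theorem gc_f1_cases : ∀ a : Fin 24, gcF1.testBit a.val = true →
    gcF5.testBit a.val = true ∨ a = 5 ∨ a = 4 := by
  decide

theorem gc_idx_pt (a : Fin 24) : gcIdx (gcPt a) = a := gcEquiv.left_inv a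

theorem gc_pt_idx (p : Cfsg.GolayPt) : gcPt (gcIdx p) = p := gcEquiv.right_inv p

theorem gc_fix5 {g : Equiv.Perm Cfsg.GolayPt}
    (hfix : ∀ j < 5, g (gcPt (gcBase j)) = gcPt (gcBase j)) (a : Fin 24)
    (ha : gcF5.testBit a.val = true) : g (gcPt a) = gcPt a := by
  obtain ⟨j, hj, rfl⟩ := gc_f5_base a ha
  exact hfix j hj

theorem gc_inv_o0 {g : Equiv.Perm Cfsg.GolayPt} (hg : g ∈ Cfsg.M24)
    (hfix : ∀ j < 5, g (gcPt (gcBase j)) = gcPt (gcBase j)) : g • gcSet gcO0 = gcSet gcO0 :=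
  gc_inv_octad g hg gcF5 (gc_fix5 hfix) gcO0 (gc_ol_octad gcO0 List.mem_cons_self) gc_pop0

/-- the possible images of the sixth and seventh base points -/
def gcS48 : Finset (Fin 24 × Fin 24) :=
  Finset.univ.filter (fun uv : Fin 24 × Fin 24 => gcO0.testBit uv.1.val = true ∧
    gcF5.testBit uv.1.val = false ∧ gcO0.testBit uv.2.val = false)

theorem gc_s48_card : gcS48.card = 48 := by
  decide +kernel

theorem gc_o0_five : gcO0.testBit (5 : Fin 24).val = true ∧
    gcF5.testBit (5 : Fin 24).val = false ∧ gcO0.testBit (4 : Fin 24).val = false := by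
  decide

theorem gc_phi_mem {g : Equiv.Perm Cfsg.GolayPt} (hg : g ∈ Cfsg.M24)
    (hfix : ∀ j < 5, g (gcPt (gcBase j)) = gcPt (gcBase j)) :
    (gcIdx (g (gcPt 5)), gcIdx (g (gcPt 4))) ∈ gcS48 := by
  have hinv := gc_inv_o0 hg hfix
  unfold gcS48
  rw [Finset.mem_filter]
  refine ⟨Finset.mem_univ _, ?_, ?_, ?_⟩
  · rw [← gc_mem_set, gc_pt_idx, ← hinv, ← Equiv.Perm.smul_def, Finset.smul_mem_smul_finset_iff,
      gc_mem_set]
    exact gc_o0_five.1
  · by_contra hcon
    have ht : gcF5.testBit (gcIdx (g (gcPt 5))).val = true := by simpa using hcon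
    have h1 := gc_fix5 hfix _ ht
    rw [gc_pt_idx] at h1
    have h2 := g.injective h1
    rw [h2, gc_idx_pt] at ht
    have h3 := gc_o0_five.2.1
    rw [ht] at h3
    exact Bool.noConfusion h3
  · by_contra hcon
    have ht : gcO0.testBit (gcIdx (g (gcPt 4))).val = true := by simpa using hcon
    rw [← gc_mem_set, gc_pt_idx, ← hinv, ← Equiv.Perm.smul_def, Finset.smul_mem_smul_finset_iff,
      gc_mem_set] at ht
    have h3 := gc_o0_five.2.2
    rw [ht] at h3
    exact Bool.noConfusion h3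

theorem gc_phi_inj {g g' : Equiv.Perm Cfsg.GolayPt} (hg : g ∈ Cfsg.M24) (hg' : g' ∈ Cfsg.M24)
    (hfix : ∀ j < 5, g (gcPt (gcBase j)) = gcPt (gcBase j))
    (hfix' : ∀ j < 5, g' (gcPt (gcBase j)) = gcPt (gcBase j))
    (h5 : g (gcPt 5) = g' (gcPt 5)) (h4 : g (gcPt 4) = g' (gcPt 4)) : g = g' := by
  have hk : g⁻¹ * g' = 1 := by
    apply gc_base7 _ (mul_mem (inv_mem hg) hg')
    intro a ha
    rw [Equiv.Perm.mul_apply]
    rcases gc_f1_cases a ha with h | rfl | rfl
    · rw [gc_fix5 hfix' a h]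
      have h1 := gc_fix5 hfix a h
      exact (Equiv.symm_apply_eq g).mpr h1.symm
    · rw [← h5]
      exact g.symm_apply_apply _
    · rw [← h4]
      exact g.symm_apply_apply _
  exact inv_mul_eq_one.mp hk

theorem gc_card_stab_x0 : Nat.card (MulAction.stabilizer Cfsg.M24 gcX0) = 48 := by
  have hbij : Function.Bijective (fun g : MulAction.stabilizer Cfsg.M24 gcX0 =>
      (⟨(gcIdx (((g : Cfsg.M24) : Equiv.Perm Cfsg.GolayPt) (gcPt 5)),
        gcIdx (((g : Cfsg.M24) : Equiv.Perm Cfsg.GolayPt) (gcPt 4))),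
        gc_phi_mem (g : Cfsg.M24).2 ((gc_stab_x0 _).mp g.2)⟩ : {uv // uv ∈ gcS48})) := by
    constructor
    · intro g g' h
      have h1 := congrArg Subtype.val h
      simp only [Prod.mk.injEq] at h1
      have e5 := congrArg gcPt h1.1
      have e4 := congrArg gcPt h1.2
      rw [gc_pt_idx, gc_pt_idx] at e5 e4
      have := gc_phi_inj (g : Cfsg.M24).2 (g' : Cfsg.M24).2 ((gc_stab_x0 _).mp g.2)
        ((gc_stab_x0 _).mp g'.2) e5 e4
      exact Subtype.ext (Subtype.ext this)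
    · rintro ⟨⟨u, v⟩, huv⟩
      have huv' := huv
      unfold gcS48 at huv'
      rw [Finset.mem_filter] at huv'
      obtain ⟨h1, h2, h3⟩ := gc_w48_tab u v huv'.2.1 huv'.2.2.1 huv'.2.2.2
      have hmem : (⟨gcWord (gcW48 u.val v.val), gc_word_mem _⟩ : Cfsg.M24) ∈
          MulAction.stabilizer Cfsg.M24 gcX0 := by
        rw [gc_stab_x0]
        intro j hj
        show gcWord (gcW48 u.val v.val) (gcPt (gcBase j)) = gcPt (gcBase j)
        rw [gc_word_rep, h1 j hj]
      refine ⟨⟨⟨gcWord (gcW48 u.val v.val), gc_word_mem _⟩, hmem⟩, ?_⟩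
      apply Subtype.ext
      show (gcIdx (gcWord (gcW48 u.val v.val) (gcPt 5)),
        gcIdx (gcWord (gcW48 u.val v.val) (gcPt 4))) = (u, v)
      rw [gc_word_rep, gc_word_rep, h2, h3, gc_idx_pt, gc_idx_pt]
  rw [Nat.card_eq_of_bijective _ hbij, Nat.card_eq_fintype_card, Fintype.card_coe, gc_s48_card]

theorem gc_orbit_stab {X : Type*} [MulAction Cfsg.M24 X] [MulAction.IsPretransitive Cfsg.M24 X]
    (x : X) : Nat.card Cfsg.M24 = Nat.card (MulAction.stabilizer Cfsg.M24 x) * Nat.card X := by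
  rw [← Subgroup.card_mul_index (MulAction.stabilizer Cfsg.M24 x), MulAction.index_stabilizer,
    MulAction.orbit_eq_univ, Set.ncard_univ]

theorem gc_card_M24 : Nat.card Cfsg.M24 = 244823040 := by
  have h := @gc_orbit_stab (Fin 5 ↪ Cfsg.GolayPt) _ gc_five gcX0
  rw [h, gc_card_stab_x0, Nat.card_eq_fintype_card, Fintype.card_embedding_eq,
    gc_card_pt, Fintype.card_fin]
  decide

end Cfsg.Agent.Lib.Helper7
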