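import Mathlib
import Cfsg.Prelude
import Cfsg.Agent.Lib.Helper7.GolayC11

set_option autoImplicit false

namespace Cfsg.Agent.Lib.Helper7

open scoped Pointwise

theorem gc_to_base1 (p : Cfsg.GolayPt) : ∃ g ∈ Cfsg.M24, g p = gcPt (gcBase 0) := by
  obtain ⟨g, hg, _, h⟩ := gc_lvl 0 (by norm_num) p (fun j hj => absurd hj (Nat.not_lt_zero _))
  exact ⟨g, hg, h⟩

theorem gc_to_base2 (p q : Cfsg.GolayPt) (hpq : p ≠ q) :
    ∃ g ∈ Cfsg.M24, g p = gcPt (gcBase 0) ∧ g q = gcPt (gcBase 1) := by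
  obtain ⟨g, hg, h⟩ := gc_to_base1 p
  have hne : ∀ j < 1, g q ≠ gcPt (gcBase j) := by
    intro j hj hcon
    have hj0 : j = 0 := by omega
    subst hj0
    rw [← h] at hcon
    exact hpq (g.injective hcon).symm
  obtain ⟨k, hk, hfix, hmap⟩ := gc_lvl 1 (by norm_num) (g q) hne
  refine ⟨k * g, mul_mem hk hg, ?_, ?_⟩
  · rw [Equiv.Perm.mul_apply, h]
    exact hfix 0 (by norm_num)
  · rw [Equiv.Perm.mul_apply]
    exact hmap

theorem gc_trans1 (p q : Cfsg.GolayPt) : ∃ g ∈ Cfsg.M24, g p = q := by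
  obtain ⟨g, hg, h⟩ := gc_to_base1 p
  obtain ⟨k, hk, h'⟩ := gc_to_base1 q
  refine ⟨k⁻¹ * g, mul_mem (inv_mem hk) hg, ?_⟩
  rw [Equiv.Perm.mul_apply, h, ← h']
  exact k.symm_apply_apply q

theorem gc_trans2 (p q p' q' : Cfsg.GolayPt) (hpq : p ≠ q) (hpq' : p' ≠ q') :
    ∃ g ∈ Cfsg.M24, g p = p' ∧ g q = q' := by
  obtain ⟨g, hg, h1, h2⟩ := gc_to_base2 p q hpq
  obtain ⟨k, hk, h1', h2'⟩ := gc_to_base2 p' q' hpq'
  refine ⟨k⁻¹ * g, mul_mem (inv_mem hk) hg, ?_, ?_⟩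
  · rw [Equiv.Perm.mul_apply, h1, ← h1']
    exact k.symm_apply_apply p'
  · rw [Equiv.Perm.mul_apply, h2, ← h2']
    exact k.symm_apply_apply q'

instance gc_pretrans : MulAction.IsPretransitive Cfsg.M24 Cfsg.GolayPt where
  exists_smul_eq := by
    intro p q
    obtain ⟨g, hg, h⟩ := gc_trans1 p q
    exact ⟨⟨g, hg⟩, h⟩

theorem gc_card_stab1 (p : Cfsg.GolayPt) :
    Nat.card (MulAction.stabilizer Cfsg.M24 p) = 10200960 := by
  have h := gc_orbit_stab p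
  rw [gc_card_M24, Nat.card_eq_fintype_card (α := Cfsg.GolayPt), gc_card_pt] at h
  omega

theorem gc_card_stab2 (p q : Cfsg.GolayPt) (hpq : p ≠ q) :
    Nat.card ↥(MulAction.stabilizer Cfsg.M24 p ⊓ MulAction.stabilizer Cfsg.M24 q) = 443520 := by
  have e : MulAction.stabilizer Cfsg.M24 p ⊓ MulAction.stabilizer Cfsg.M24 q =
      MulAction.stabilizer Cfsg.M24 (p, q) := by
    ext g
    rw [Subgroup.mem_inf, MulAction.mem_stabilizer_iff, MulAction.mem_stabilizer_iff,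
      MulAction.mem_stabilizer_iff, Prod.smul_mk, Prod.mk.injEq]
  rw [e]
  have h1 := Subgroup.card_mul_index (MulAction.stabilizer Cfsg.M24 (p, q))
  rw [MulAction.index_stabilizer, gc_card_M24] at h1
  have h2 : MulAction.orbit Cfsg.M24 (p, q) =
      ↑((Finset.univ : Finset Cfsg.GolayPt).offDiag) := by
    ext ⟨a, b⟩
    rw [Finset.mem_coe, Finset.mem_offDiag, MulAction.mem_orbit_iff]
    constructor
    · rintro ⟨g, hg⟩
      rw [Prod.smul_mk, Prod.mk.injEq] at hg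
      refine ⟨Finset.mem_univ _, Finset.mem_univ _, ?_⟩
      rw [← hg.1, ← hg.2]
      intro hcon
      exact hpq (MulAction.injective g hcon)
    · rintro ⟨_, _, hab⟩
      obtain ⟨g, hg, h3, h4⟩ := gc_trans2 p q a b hpq hab
      refine ⟨⟨g, hg⟩, ?_⟩
      rw [Prod.smul_mk, Prod.mk.injEq]
      exact ⟨h3, h4⟩
  rw [h2, Set.ncard_coe_finset, Finset.offDiag_card, Finset.card_univ, gc_card_pt] at h1
  omega

end Cfsg.Agent.Lib.Helper7
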