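import Mathlib
import Cfsg.Prelude
import Cfsg.Agent.Lib.Helper7.GolayC13

set_option autoImplicit false

namespace Cfsg.Agent.Lib.Helper7

open scoped Pointwise

theorem gc_d0_fix_tab : ∀ u v : Fin 24, gcO0.testBit u.val = true → gcF5.testBit u.val = false →
    gcO0.testBit v.val = false →
    (∀ a : Fin 24, (gcD48 u.val v.val).testBit a.val = gcD0.testBit a.val) →
    ∀ a : Fin 24, gcEval (gcW48 u.val v.val) a = a := by
  decide +kernel

/-- an element fixing the five base points and the standard dodecad is trivial -/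
theorem gc_d0_stab_base {g : Equiv.Perm Cfsg.GolayPt} (hg : g ∈ Cfsg.M24)
    (hfix : ∀ j < 5, g (gcPt (gcBase j)) = gcPt (gcBase j))
    (hd : g • gcSet gcD0 = gcSet gcD0) : g = 1 := by
  obtain ⟨u, v, huv, rfl⟩ := gc_g5_word hg hfix
  rw [gc_word_set _ _ _ (gc_d48_tab u v huv.1 huv.2.1 huv.2.2)] at hd
  have hbits : ∀ a : Fin 24, (gcD48 u.val v.val).testBit a.val = gcD0.testBit a.val := by
    intro a
    have h1 := gc_mem_set (gcD48 u.val v.val) a
    have h2 := gc_mem_set gcD0 a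
    rw [hd] at h1
    have h3 := h1.symm.trans h2
    cases hA : (gcD48 u.val v.val).testBit a.val <;> cases hB : gcD0.testBit a.val <;>
      simp [hA, hB] at h3 ⊢
  have hid := gc_d0_fix_tab u v huv.1 huv.2.1 huv.2.2 hbits
  apply Equiv.ext
  intro p
  obtain ⟨a, rfl⟩ := gcEquiv.surjective p
  show gcWord (gcW48 u.val v.val) (gcPt a) = gcPt a
  rw [gc_word_rep, hid a]

/-- an element of the dodecad stabiliser fixing five points of the dodecad is trivial -/
theorem gc_dodecad_sharp (d : Finset Cfsg.GolayPt) (hd : d ∈ Cfsg.dodecads)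
    (x : Fin 5 ↪ Cfsg.GolayPt) (hx : ∀ i, x i ∈ d) {g : Equiv.Perm Cfsg.GolayPt}
    (hg : g ∈ Cfsg.M24) (hgd : g • d = d) (hgx : ∀ i, g (x i) = x i) : g = 1 := by
  obtain ⟨k, hk, hkx, hkd⟩ := gc_dodecad_norm d hd x hx
  have h1 : k * g * k⁻¹ = 1 := by
    apply gc_d0_stab_base (mul_mem (mul_mem hk hg) (inv_mem hk))
    · intro j hj
      have h2 := hkx ⟨j, hj⟩
      have h3 : k⁻¹ (gcPt (gcBase j)) = x ⟨j, hj⟩ := by
        rw [← h2]
        exact k.symm_apply_apply _
      rw [Equiv.Perm.mul_apply, Equiv.Perm.mul_apply, h3, hgx, h2]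
    · rw [← hkd, mul_smul, mul_smul, inv_smul_smul, hgd]
  have h2 : g = k⁻¹ * (k * g * k⁻¹) * k := by group
  rw [h2, h1]
  group

/-- existence of an element of the dodecad stabiliser carrying five points to five points -/
theorem gc_dodecad_five (d : Finset Cfsg.GolayPt) (hd : d ∈ Cfsg.dodecads)
    (x y : Fin 5 ↪ Cfsg.GolayPt) (hx : ∀ i, x i ∈ d) (hy : ∀ i, y i ∈ d) :
    ∃ g ∈ Cfsg.M24, g • d = d ∧ ∀ i, g (x i) = y i := by
  obtain ⟨k, hk, hkx, hkd⟩ := gc_dodecad_norm d hd x hx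
  obtain ⟨k', hk', hkx', hkd'⟩ := gc_dodecad_norm d hd y hy
  refine ⟨k'⁻¹ * k, mul_mem (inv_mem hk') hk, ?_, ?_⟩
  · rw [mul_smul, hkd, ← hkd', inv_smul_smul]
  · intro i
    rw [Equiv.Perm.mul_apply, hkx i, ← hkx' i]
    exact k'.symm_apply_apply _

theorem gc_exists_emb_pt (d : Finset Cfsg.GolayPt) (h : 5 ≤ d.card) (p : Cfsg.GolayPt)
    (hp : p ∈ d) : ∃ x : Fin 5 ↪ Cfsg.GolayPt, x 0 = p ∧ ∀ i, x i ∈ d := by
  have h4 : 4 ≤ (d.erase p).card := by
    rw [Finset.card_erase_of_mem hp]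
    omega
  obtain ⟨s, hs, hs4⟩ := Finset.exists_subset_card_eq h4
  have hinj : Function.Injective
      (Fin.cons p (fun i => ((s.equivFinOfCardEq hs4).symm i).val) : Fin 5 → Cfsg.GolayPt) := by
    rw [Fin.cons_injective_iff]
    constructor
    · rintro ⟨i, hi⟩
      have h1 := hs ((s.equivFinOfCardEq hs4).symm i).2
      have hi' : (((s.equivFinOfCardEq hs4).symm i) : Cfsg.GolayPt) = p := hi
      rw [hi'] at h1
      exact (Finset.notMem_erase p d) h1
    · intro i j hij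
      exact (s.equivFinOfCardEq hs4).symm.injective (Subtype.ext hij)
  refine ⟨⟨_, hinj⟩, rfl, ?_⟩
  intro i
  refine Fin.cases ?_ ?_ i
  · exact hp
  · intro j
    exact Finset.mem_of_mem_erase (hs ((s.equivFinOfCardEq hs4).symm j).2)

/-- the dodecad stabiliser is transitive on the dodecad -/
theorem gc_dodecad_pt_trans (d : Finset Cfsg.GolayPt) (hd : d ∈ Cfsg.dodecads)
    (p q : Cfsg.GolayPt) (hp : p ∈ d) (hq : q ∈ d) :
    ∃ g ∈ Cfsg.M24, g • d = d ∧ g p = q := by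
  have h5 : 5 ≤ d.card := by
    rw [((gc_dodecad_iff d).mp hd).2]
    norm_num
  obtain ⟨x, hx0, hx⟩ := gc_exists_emb_pt d h5 p hp
  obtain ⟨y, hy0, hy⟩ := gc_exists_emb_pt d h5 q hq
  obtain ⟨g, hg, hgd, hgx⟩ := gc_dodecad_five d hd x y hx hy
  refine ⟨g, hg, hgd, ?_⟩
  rw [← hx0, ← hy0]
  exact hgx 0

/-- the stabiliser of a dodecad and one of its points has order 7920 -/
theorem gc_card_stab_dodecad_pt (d : Finset Cfsg.GolayPt) (hd : d ∈ Cfsg.dodecads)
    (p : Cfsg.GolayPt) (hp : p ∈ d) :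
    Nat.card ↥(MulAction.stabilizer Cfsg.M24 d ⊓ MulAction.stabilizer Cfsg.M24 p) = 7920 := by
  have hHc := gc_card_stab_dodecad d hd
  have e1 : Nat.card ↥(MulAction.stabilizer Cfsg.M24 d ⊓ MulAction.stabilizer Cfsg.M24 p) =
      Nat.card ((MulAction.stabilizer Cfsg.M24 p).subgroupOf
        (MulAction.stabilizer Cfsg.M24 d)) := by
    rw [← Subgroup.inf_subgroupOf_left]
    exact (Nat.card_congr (Subgroup.subgroupOfEquivOfLe inf_le_left).toEquiv).symm
  have e2 : (MulAction.stabilizer Cfsg.M24 p).subgroupOf (MulAction.stabilizer Cfsg.M24 d) =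
      MulAction.stabilizer (MulAction.stabilizer Cfsg.M24 d) p := by
    ext g
    rw [Subgroup.mem_subgroupOf, MulAction.mem_stabilizer_iff, MulAction.mem_stabilizer_iff]
    rfl
  have horb : MulAction.orbit (MulAction.stabilizer Cfsg.M24 d) p = (d : Set Cfsg.GolayPt) := by
    ext q
    rw [MulAction.mem_orbit_iff]
    constructor
    · rintro ⟨g, rfl⟩
      have h2 : ((g : Cfsg.M24) : Equiv.Perm Cfsg.GolayPt) • d = d := g.2
      have h3 : ((g : Cfsg.M24) : Equiv.Perm Cfsg.GolayPt) • p ∈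
          ((g : Cfsg.M24) : Equiv.Perm Cfsg.GolayPt) • d := Finset.smul_mem_smul_finset hp
      rw [h2] at h3
      exact h3
    · intro hq
      obtain ⟨g, hg, hgd, hgp⟩ := gc_dodecad_pt_trans d hd p q hp hq
      exact ⟨⟨⟨g, hg⟩, hgd⟩, hgp⟩
  have h1 := Subgroup.card_mul_index (MulAction.stabilizer (MulAction.stabilizer Cfsg.M24 d) p)
  rw [MulAction.index_stabilizer, horb, Set.ncard_coe_finset, ((gc_dodecad_iff d).mp hd).2,
    hHc] at h1
  rw [e1, e2]
  omega

end Cfsg.Agent.Lib.Helper7
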