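import Mathlib
import Cfsg.Prelude
import Cfsg.Agent.Lib.Helper7.GolayC14

set_option autoImplicit false

namespace Cfsg.Agent.Lib.Helper7

open scoped Pointwise

theorem gc_word_append (w w' : List ℕ) : gcWord (w ++ w') = gcWord w * gcWord w' := by
  induction w with
  | nil => exact (one_mul _).symm
  | cons g w ih =>
    show gcGen g * gcWord (w ++ w') = gcGen g * gcWord w * gcWord w'
    rw [ih, mul_assoc]

/-- a word carrying five points to the base points -/
theorem gc_five_word (x : Fin 5 ↪ Cfsg.GolayPt) (n : ℕ) (hn : n ≤ 5) :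
    ∃ w : List ℕ, ∀ i : Fin 5, i.val < n → gcWord w (x i) = gcPt (gcBase i.val) := by
  induction n with
  | zero => exact ⟨[], fun i hi => absurd hi (Nat.not_lt_zero _)⟩
  | succ n ih =>
    obtain ⟨w, hw⟩ := ih (by omega)
    have hn5 : n < 5 := by omega
    obtain ⟨a, ha⟩ := gcEquiv.surjective (gcWord w (x ⟨n, hn5⟩))
    have ha0 : gcPt a = gcWord w (x ⟨n, hn5⟩) := ha
    have ha' : ∀ j < n, a ≠ gcBase j := by
      intro j hj h
      have hj5 : j < 5 := by omega
      have h1 := hw ⟨j, hj5⟩ hj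
      rw [← h, ha0] at h1
      have h2 := x.injective ((gcWord w).injective h1)
      rw [Fin.mk.injEq] at h2
      omega
    obtain ⟨h1, h2⟩ := gc_lvl_tab n hn5 a ha'
    refine ⟨gcLvl n a.val ++ w, fun i hi => ?_⟩
    rw [gc_word_append, Equiv.Perm.mul_apply]
    rcases Nat.lt_succ_iff_lt_or_eq.mp hi with hlt | heq
    · rw [hw i hlt, gc_word_rep, h1 i.val hlt]
    · have hi' : i = ⟨n, hn5⟩ := Fin.ext heq
      rw [hi', ← ha0, gc_word_rep, h2]

/-- every element of the group is a quotient of two words -/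
theorem gc_M24_word2 {g : Equiv.Perm Cfsg.GolayPt} (hg : g ∈ Cfsg.M24) :
    ∃ w w' : List ℕ, g = (gcWord w)⁻¹ * gcWord w' := by
  obtain ⟨w, hw⟩ := gc_five_word (gcX0.trans g.toEmbedding) 5 le_rfl
  have hfix : ∀ j < 5, (gcWord w * g) (gcPt (gcBase j)) = gcPt (gcBase j) := by
    intro j hj
    exact hw ⟨j, hj⟩ hj
  obtain ⟨u, v, _, he⟩ := gc_g5_word (mul_mem (gc_word_mem w) hg) hfix
  exact ⟨w, gcW48 u.val v.val, eq_inv_mul_of_mul_eq he⟩

theorem gc_gen_closure : Subgroup.closure {Equiv.optionCongr (Equiv.addRight (1 : ZMod 23)),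
    Cfsg.projInv, Cfsg.cubeTwist} = Cfsg.M24 := by
  apply le_antisymm
  · rw [Subgroup.closure_le]
    intro g hg
    rcases hg with rfl | rfl | rfl
    · exact gc_shift_mem
    · exact gc_projInv_mem
    · exact gc_cubeTwist_mem
  · have hw : ∀ w : List ℕ, gcWord w ∈ Subgroup.closure
        ({Equiv.optionCongr (Equiv.addRight (1 : ZMod 23)), Cfsg.projInv, Cfsg.cubeTwist} :
          Set (Equiv.Perm Cfsg.GolayPt)) := by
      intro w
      induction w with
      | nil => exact one_mem _
      | cons g w ih =>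
        refine mul_mem (Subgroup.subset_closure ?_) ih
        unfold gcGen
        split_ifs
        · exact Or.inl rfl
        · exact Or.inr (Or.inl rfl)
        · exact Or.inr (Or.inr rfl)
    intro g hg
    obtain ⟨w, w', rfl⟩ := gc_M24_word2 hg
    exact mul_mem (inv_mem (hw w)) (hw w')

end Cfsg.Agent.Lib.Helper7
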