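import Mathlib
import Cfsg.Prelude
import Cfsg.Agent.Lib.Helper7.GolayC15

set_option autoImplicit false

namespace Cfsg.Agent.Lib.Helper7

open scoped Pointwise

/-- conjugating a pointwise stabiliser -/
theorem gc_fix_conj {k g : Equiv.Perm Cfsg.GolayPt} (hk : k ∈ Cfsg.M24)
    (S T : Finset Cfsg.GolayPt) (hST : k • S = T)
    (hg : g ∈ Cfsg.M24 ⊓ fixingSubgroup (Equiv.Perm Cfsg.GolayPt) (T : Set Cfsg.GolayPt)) :
    k⁻¹ * g * k ∈ Cfsg.M24 ⊓ fixingSubgroup (Equiv.Perm Cfsg.GolayPt) (S : Set Cfsg.GolayPt) := by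
  obtain ⟨hg1, hg2⟩ := Subgroup.mem_inf.mp hg
  refine Subgroup.mem_inf.mpr ⟨mul_mem (mul_mem (inv_mem hk) hg1) hk, ?_⟩
  rw [mem_fixingSubgroup_iff]
  intro y hy
  have hy' : k y ∈ (T : Set Cfsg.GolayPt) := by
    rw [← hST]
    exact Finset.mem_coe.mpr (Finset.smul_mem_smul_finset (Finset.mem_coe.mp hy))
  have h2 : g (k y) = k y := (mem_fixingSubgroup_iff _).mp hg2 (k y) hy'
  show (k⁻¹ * g * k) y = y
  rw [Equiv.Perm.mul_apply, Equiv.Perm.mul_apply, h2]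
  exact k.symm_apply_apply y

theorem gc_o0_base : ∀ j < 5, gcO0.testBit (gcBase j).val = true := by decide

theorem gc_o0_fix_tab : ∀ v : Fin 24, gcO0.testBit v.val = false →
    (∀ a : Fin 24, gcO0.testBit a.val = true → gcEval (gcW48 5 v.val) a = a) ∧
    (∀ a : Fin 24, gcEval (gcW48 5 v.val) (gcEval (gcW48 5 v.val) a) = a) := by
  decide +kernel

theorem gc_o0_mem : gcSet gcO0 ∈ Cfsg.octads := gc_ol_octad gcO0 List.mem_cons_self

/-- elements fixing the standard octad pointwise are among sixteen words -/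
theorem gc_o0_fix_word {g : Equiv.Perm Cfsg.GolayPt}
    (hg : g ∈ Cfsg.M24 ⊓ fixingSubgroup (Equiv.Perm Cfsg.GolayPt)
      ((gcSet gcO0 : Finset Cfsg.GolayPt) : Set Cfsg.GolayPt)) :
    ∃ v : Fin 24, gcO0.testBit v.val = false ∧ g = gcWord (gcW48 5 v.val) := by
  obtain ⟨hg1, hg2⟩ := Subgroup.mem_inf.mp hg
  have hfixO : ∀ a : Fin 24, gcO0.testBit a.val = true → g (gcPt a) = gcPt a := fun a ha =>
    (mem_fixingSubgroup_iff _).mp hg2 (gcPt a) (Finset.mem_coe.mpr ((gc_mem_set _ _).mpr ha))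
  have hfix : ∀ j < 5, g (gcPt (gcBase j)) = gcPt (gcBase j) :=
    fun j hj => hfixO _ (gc_o0_base j hj)
  obtain ⟨u, v, huv, he⟩ := gc_g5_word hg1 hfix
  obtain ⟨h1, h2, h3⟩ := gc_w48_tab u v huv.1 huv.2.1 huv.2.2
  have h5 := hfixO 5 gc_o0_five.1
  rw [he, gc_word_rep, h2] at h5
  have hu : u = 5 := gcEquiv.injective h5
  subst hu
  exact ⟨v, huv.2.2, he⟩

theorem gc_o0_word_fix (v : Fin 24) (hv : gcO0.testBit v.val = false) :
    gcWord (gcW48 5 v.val) ∈ Cfsg.M24 ⊓ fixingSubgroup (Equiv.Perm Cfsg.GolayPt)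
      ((gcSet gcO0 : Finset Cfsg.GolayPt) : Set Cfsg.GolayPt) := by
  refine Subgroup.mem_inf.mpr ⟨gc_word_mem _, (mem_fixingSubgroup_iff _).mpr (fun y hy => ?_)⟩
  obtain ⟨a, rfl⟩ := gcEquiv.surjective y
  have ha : gcO0.testBit a.val = true := (gc_mem_set _ _).mp (Finset.mem_coe.mp hy)
  show gcWord (gcW48 5 v.val) (gcPt a) = gcPt a
  rw [gc_word_rep, (gc_o0_fix_tab v hv).1 a ha]

theorem gc_o0_fix_sq {g : Equiv.Perm Cfsg.GolayPt}
    (hg : g ∈ Cfsg.M24 ⊓ fixingSubgroup (Equiv.Perm Cfsg.GolayPt)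
      ((gcSet gcO0 : Finset Cfsg.GolayPt) : Set Cfsg.GolayPt)) : g * g = 1 := by
  obtain ⟨v, hv, rfl⟩ := gc_o0_fix_word hg
  apply Equiv.ext
  intro p
  obtain ⟨a, rfl⟩ := gcEquiv.surjective p
  show (gcWord (gcW48 5 v.val) * gcWord (gcW48 5 v.val)) (gcPt a) = gcPt a
  rw [Equiv.Perm.mul_apply, gc_word_rep, gc_word_rep, (gc_o0_fix_tab v hv).2 a]

theorem gc_o0_out_card : (Finset.univ.filter (fun v : Fin 24 => gcO0.testBit v.val = false)).card
    = 16 := by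
  decide +kernel

theorem gc_o0_fix_card : Nat.card ↥(Cfsg.M24 ⊓ fixingSubgroup (Equiv.Perm Cfsg.GolayPt)
    ((gcSet gcO0 : Finset Cfsg.GolayPt) : Set Cfsg.GolayPt)) = 16 := by
  have key : ∀ g : ↥(Cfsg.M24 ⊓ fixingSubgroup (Equiv.Perm Cfsg.GolayPt)
      ((gcSet gcO0 : Finset Cfsg.GolayPt) : Set Cfsg.GolayPt)),
      ∃ v : Fin 24, gcO0.testBit v.val = false ∧
        (g : Equiv.Perm Cfsg.GolayPt) = gcWord (gcW48 5 v.val) ∧
        gcIdx ((g : Equiv.Perm Cfsg.GolayPt) (gcPt 4)) = v := by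
    intro g
    obtain ⟨v, hv, he⟩ := gc_o0_fix_word g.2
    refine ⟨v, hv, he, ?_⟩
    obtain ⟨_, _, h3⟩ := gc_w48_tab 5 v gc_o0_five.1 gc_o0_five.2.1 hv
    rw [he, gc_word_rep, gc_idx_pt]
    exact h3
  have hmem : ∀ g : ↥(Cfsg.M24 ⊓ fixingSubgroup (Equiv.Perm Cfsg.GolayPt)
      ((gcSet gcO0 : Finset Cfsg.GolayPt) : Set Cfsg.GolayPt)),
      gcO0.testBit (gcIdx ((g : Equiv.Perm Cfsg.GolayPt) (gcPt 4))).val = false := by
    intro g
    obtain ⟨v, hv, _, h3⟩ := key g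
    rw [h3]
    exact hv
  have hbij : Function.Bijective (fun g : ↥(Cfsg.M24 ⊓ fixingSubgroup (Equiv.Perm Cfsg.GolayPt)
      ((gcSet gcO0 : Finset Cfsg.GolayPt) : Set Cfsg.GolayPt)) =>
      (⟨gcIdx ((g : Equiv.Perm Cfsg.GolayPt) (gcPt 4)), hmem g⟩ :
        {v : Fin 24 // gcO0.testBit v.val = false})) := by
    constructor
    · intro g g' h
      have h1 : gcIdx ((g : Equiv.Perm Cfsg.GolayPt) (gcPt 4)) =
          gcIdx ((g' : Equiv.Perm Cfsg.GolayPt) (gcPt 4)) := congrArg Subtype.val h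
      obtain ⟨v, _, he, h3⟩ := key g
      obtain ⟨v', _, he', h3'⟩ := key g'
      apply Subtype.ext
      rw [he, he', ← h3, ← h3', h1]
    · rintro ⟨v, hv⟩
      refine ⟨⟨gcWord (gcW48 5 v.val), gc_o0_word_fix v hv⟩, ?_⟩
      apply Subtype.ext
      obtain ⟨_, _, h3⟩ := gc_w48_tab 5 v gc_o0_five.1 gc_o0_five.2.1 hv
      show gcIdx (gcWord (gcW48 5 v.val) (gcPt 4)) = v
      rw [gc_word_rep, gc_idx_pt]
      exact h3
  rw [Nat.card_eq_of_bijective _ hbij, Nat.card_eq_fintype_card, Fintype.card_subtype,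
    gc_o0_out_card]

/-- the pointwise stabiliser of an octad has order 16 and exponent 2 -/
theorem gc_octad_fix (o : Finset Cfsg.GolayPt) (ho : o ∈ Cfsg.octads) :
    Nat.card ↥(Cfsg.M24 ⊓ fixingSubgroup (Equiv.Perm Cfsg.GolayPt) (o : Set Cfsg.GolayPt)) = 16 ∧
    ∀ g ∈ Cfsg.M24 ⊓ fixingSubgroup (Equiv.Perm Cfsg.GolayPt) (o : Set Cfsg.GolayPt),
      g * g = 1 := by
  obtain ⟨k, hk⟩ := gc_trans_octads (gcSet gcO0) o gc_o0_mem ho
  have hkp : (k : Equiv.Perm Cfsg.GolayPt) • gcSet gcO0 = o := hk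
  have hkp' : (k : Equiv.Perm Cfsg.GolayPt)⁻¹ • o = gcSet gcO0 := by
    rw [← hkp, inv_smul_smul]
  constructor
  · rw [← gc_o0_fix_card]
    refine Nat.card_congr
      { toFun := fun g => ⟨(k : Equiv.Perm Cfsg.GolayPt)⁻¹ * g * k, gc_fix_conj k.2 _ _ hkp g.2⟩
        invFun := fun h => ⟨(k : Equiv.Perm Cfsg.GolayPt) * h * (k : Equiv.Perm Cfsg.GolayPt)⁻¹,
          by
            have h1 := gc_fix_conj (inv_mem k.2) o (gcSet gcO0) hkp' h.2
            rwa [inv_inv] at h1⟩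
        left_inv := fun g => Subtype.ext (by
          show (k : Equiv.Perm Cfsg.GolayPt) * ((k : Equiv.Perm Cfsg.GolayPt)⁻¹ * g * k) *
            (k : Equiv.Perm Cfsg.GolayPt)⁻¹ = g
          group)
        right_inv := fun h => Subtype.ext (by
          show (k : Equiv.Perm Cfsg.GolayPt)⁻¹ * ((k : Equiv.Perm Cfsg.GolayPt) * h *
            (k : Equiv.Perm Cfsg.GolayPt)⁻¹) * k = h
          group) }
  · intro g hg
    have h1 := gc_o0_fix_sq (gc_fix_conj k.2 _ _ hkp hg)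
    have h2 : g * g = (k : Equiv.Perm Cfsg.GolayPt) * (((k : Equiv.Perm Cfsg.GolayPt)⁻¹ * g * k) *
        ((k : Equiv.Perm Cfsg.GolayPt)⁻¹ * g * k)) * (k : Equiv.Perm Cfsg.GolayPt)⁻¹ := by group
    rw [h2, h1]
    group

end Cfsg.Agent.Lib.Helper7
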