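import Mathlib
import Cfsg.Prelude
import Cfsg.Agent.Lib.Helper7.GolayC16

set_option autoImplicit false

namespace Cfsg.Agent.Lib.Helper7

open scoped Pointwise

/-- first index of a nontrivial word fixing the base points and a given point -/
def gcFixU : List ℕ := [14, 14, 14, 14, 17, 5, 14, 14, 17, 17, 17, 17, 14, 14, 5, 14, 14, 5, 17, 14, 14, 14, 14, 14]

/-- second index of a nontrivial word fixing the base points and a given point -/
def gcFixV : List ℕ := [6, 6, 6, 6, 4, 8, 18, 12, 21, 8, 12, 19, 10, 16, 8, 6, 22, 8, 6, 11, 19, 8, 13, 6]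

theorem gc_fix_tab : ∀ a : Fin 24,
    (∀ j < 5, gcEval (gcW48 (gcFixU.getD a.val 0) (gcFixV.getD a.val 0)) (gcBase j) = gcBase j) ∧
    gcEval (gcW48 (gcFixU.getD a.val 0) (gcFixV.getD a.val 0)) a = a ∧
    (gcEval (gcW48 (gcFixU.getD a.val 0) (gcFixV.getD a.val 0)) 4 ≠ 4 ∨
     gcEval (gcW48 (gcFixU.getD a.val 0) (gcFixV.getD a.val 0)) 5 ≠ 5) := by
  decide +kernel

/-- any six points are fixed by a nontrivial element -/
theorem gc_six_fix (B : Finset Cfsg.GolayPt) (hB : B.card ≤ 6) :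
    ∃ g ∈ Cfsg.M24, g ≠ 1 ∧ ∀ b ∈ B, g b = b := by
  classical
  have hSc : ∃ (S : Finset Cfsg.GolayPt) (c : Cfsg.GolayPt), S.card = 5 ∧ B ⊆ insert c S := by
    by_cases h5 : B.card ≤ 5
    · obtain ⟨S, hBS, hS⟩ := Finset.exists_superset_card_eq h5
        (by rw [gc_card_pt]; norm_num)
      have hne : S.Nonempty := Finset.card_pos.mp (by omega)
      obtain ⟨c, hc⟩ := hne
      exact ⟨S, c, hS, hBS.trans (Finset.subset_insert _ _)⟩
    · have h6 : B.card = 6 := by omega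
      have hne : B.Nonempty := Finset.card_pos.mp (by omega)
      obtain ⟨c, hc⟩ := hne
      refine ⟨B.erase c, c, by rw [Finset.card_erase_of_mem hc, h6], ?_⟩
      rw [Finset.insert_erase hc]
  obtain ⟨S, c, hS, hBS⟩ := hSc
  obtain ⟨k, hk, hkx⟩ := gc_five_aux
    ((S.equivFinOfCardEq hS).symm.toEmbedding.trans (Function.Embedding.subtype _)) 5 le_rfl
  obtain ⟨a, ha⟩ := gcEquiv.surjective (k c)
  have ha' : gcPt a = k c := ha
  obtain ⟨h1, h2, h3⟩ := gc_fix_tab a
  refine ⟨k⁻¹ * gcWord (gcW48 (gcFixU.getD a.val 0) (gcFixV.getD a.val 0)) * k,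
    mul_mem (mul_mem (inv_mem hk) (gc_word_mem _)) hk, ?_, ?_⟩
  · intro hone
    have h4 : gcWord (gcW48 (gcFixU.getD a.val 0) (gcFixV.getD a.val 0)) = 1 := by
      have h5 : gcWord (gcW48 (gcFixU.getD a.val 0) (gcFixV.getD a.val 0)) =
          k * (k⁻¹ * gcWord (gcW48 (gcFixU.getD a.val 0) (gcFixV.getD a.val 0)) * k) * k⁻¹ := by
        group
      rw [h5, hone]
      group
    rcases h3 with h3 | h3
    · apply h3
      have h6 := gc_word_rep (gcW48 (gcFixU.getD a.val 0) (gcFixV.getD a.val 0)) 4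
      rw [h4] at h6
      exact (gcEquiv.injective h6).symm
    · apply h3
      have h6 := gc_word_rep (gcW48 (gcFixU.getD a.val 0) (gcFixV.getD a.val 0)) 5
      rw [h4] at h6
      exact (gcEquiv.injective h6).symm
  · intro b hb
    have hb' := hBS hb
    rw [Finset.mem_insert] at hb'
    show (k⁻¹ * gcWord (gcW48 (gcFixU.getD a.val 0) (gcFixV.getD a.val 0)) * k) b = b
    rw [Equiv.Perm.mul_apply, Equiv.Perm.mul_apply]
    rcases hb' with rfl | hbS
    · rw [← ha', gc_word_rep, h2, ha']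
      exact k.symm_apply_apply b
    · have hxi : ((S.equivFinOfCardEq hS).symm.toEmbedding.trans (Function.Embedding.subtype _))
          (S.equivFinOfCardEq hS ⟨b, hbS⟩) = b := by
        simp
      have h7 := hkx (S.equivFinOfCardEq hS ⟨b, hbS⟩) (Fin.isLt _)
      rw [hxi] at h7
      rw [h7, gc_word_rep, h1 _ (Fin.isLt _), ← h7]
      exact k.symm_apply_apply b

theorem gc_f1_pop : gcPop gcF1 = 7 := by decide +kernel

theorem gc_base_size : (∀ B : Finset Cfsg.GolayPt, B.card ≤ 6 →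
      ∃ g ∈ Cfsg.M24, g ≠ 1 ∧ ∀ b ∈ B, g b = b) ∧
    (∃ B : Finset Cfsg.GolayPt, B.card = 7 ∧ ∀ g ∈ Cfsg.M24, (∀ b ∈ B, g b = b) → g = 1) := by
  refine ⟨gc_six_fix, gcSet gcF1, by rw [gc_set_card, gc_f1_pop], ?_⟩
  intro g hg hfix
  exact gc_base7 g hg (fun a ha => hfix _ ((gc_mem_set _ _).mpr ha))

end Cfsg.Agent.Lib.Helper7
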