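import Mathlib
import Cfsg.Prelude

set_option autoImplicit false

namespace Cfsg.Agent.Lib.Helper7

section
variable {α : Type*} [DecidableEq α]

theorem st_card_between (c Z : Finset α) (hZ : Z ⊆ c) (t : ℕ) (ht : Z.card ≤ t) :
    ((Finset.powersetCard t c).filter (fun s => Z ⊆ s)).card =
      Nat.choose (c.card - Z.card) (t - Z.card) := by
  rw [← Finset.card_sdiff_of_subset hZ, ← Finset.card_powersetCard]
  symm
  apply Finset.card_nbij' (fun u => u ∪ Z) (fun s => s \ Z)
  · intro u hu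
    rw [Finset.mem_coe, Finset.mem_powersetCard] at hu
    rw [Finset.mem_coe, Finset.mem_filter, Finset.mem_powersetCard]
    have hdisj : Disjoint u Z := Finset.disjoint_of_subset_left hu.1 Finset.sdiff_disjoint
    refine ⟨⟨Finset.union_subset (hu.1.trans Finset.sdiff_subset) hZ, ?_⟩,
      Finset.subset_union_right⟩
    rw [Finset.card_union_of_disjoint hdisj, hu.2]; omega
  · intro s hs
    rw [Finset.mem_coe, Finset.mem_filter, Finset.mem_powersetCard] at hs
    rw [Finset.mem_coe, Finset.mem_powersetCard]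
    refine ⟨Finset.sdiff_subset_sdiff hs.1.1 (subset_refl _), ?_⟩
    rw [Finset.card_sdiff_of_subset hs.2, hs.1.2]
  · intro u hu
    rw [Finset.mem_coe, Finset.mem_powersetCard] at hu
    have hdisj : Disjoint u Z := Finset.disjoint_of_subset_left hu.1 Finset.sdiff_disjoint
    exact Finset.union_sdiff_cancel_right hdisj
  · intro s hs
    rw [Finset.mem_coe, Finset.mem_filter] at hs
    exact Finset.sdiff_union_of_subset hs.2

/-- In a Steiner system `S(t,k,v)`, the number of blocks containing a set `Z` of size `i ≤ t`,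
times `C(k-i, t-i)`, is `C(v-i, t-i)`. -/
theorem st_lambda [Fintype α] {t k : ℕ} {B : Set (Finset α)} (hB : Cfsg.IsSteinerSystem t k B)
    (Bf : Finset (Finset α)) (hBf : ∀ b, b ∈ Bf ↔ b ∈ B) (Z : Finset α) (hZ : Z.card ≤ t) :
    (Bf.filter (fun c => Z ⊆ c)).card * Nat.choose (k - Z.card) (t - Z.card) =
      Nat.choose (Fintype.card α - Z.card) (t - Z.card) := by
  obtain ⟨hk, hU⟩ := hB
  have h1 : (Finset.powersetCard t (Finset.univ : Finset α)).filter (fun s => Z ⊆ s) =
      (Bf.filter (fun c => Z ⊆ c)).biUnion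
        (fun c => (Finset.powersetCard t c).filter (fun s => Z ⊆ s)) := by
    ext s
    simp only [Finset.mem_filter, Finset.mem_powersetCard, Finset.mem_biUnion]
    constructor
    · rintro ⟨⟨_, hs⟩, hZs⟩
      obtain ⟨b, ⟨hb, hsb⟩, _⟩ := hU s hs
      exact ⟨b, ⟨(hBf b).mpr hb, hZs.trans hsb⟩, ⟨hsb, hs⟩, hZs⟩
    · rintro ⟨b, ⟨hb, hZb⟩, ⟨hsb, hs⟩, hZs⟩
      exact ⟨⟨Finset.subset_univ _, hs⟩, hZs⟩
  have h2 : ((Bf.filter (fun c => Z ⊆ c)).biUnion
      (fun c => (Finset.powersetCard t c).filter (fun s => Z ⊆ s))).card =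
      ∑ c ∈ Bf.filter (fun c => Z ⊆ c),
        ((Finset.powersetCard t c).filter (fun s => Z ⊆ s)).card := by
    apply Finset.card_biUnion
    intro b hb b' hb' hne
    have hb := Finset.mem_coe.mp hb
    have hb' := Finset.mem_coe.mp hb'
    show Disjoint ((Finset.powersetCard t b).filter (fun s => Z ⊆ s))
      ((Finset.powersetCard t b').filter (fun s => Z ⊆ s))
    rw [Finset.disjoint_left]
    intro s hs hs'
    rw [Finset.mem_filter, Finset.mem_powersetCard] at hs hs'
    obtain ⟨b0, _, huniq⟩ := hU s hs.1.2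
    have e1 := huniq b ⟨(hBf b).mp (Finset.mem_filter.mp hb).1, hs.1.1⟩
    have e2 := huniq b' ⟨(hBf b').mp (Finset.mem_filter.mp hb').1, hs'.1.1⟩
    exact hne (e1.trans e2.symm)
  have h3 : ∑ c ∈ Bf.filter (fun c => Z ⊆ c),
      ((Finset.powersetCard t c).filter (fun s => Z ⊆ s)).card =
      (Bf.filter (fun c => Z ⊆ c)).card * Nat.choose (k - Z.card) (t - Z.card) := by
    have h0 : ∀ c ∈ Bf.filter (fun c => Z ⊆ c),
        ((Finset.powersetCard t c).filter (fun s => Z ⊆ s)).card =
          Nat.choose (k - Z.card) (t - Z.card) := by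
      intro c hc
      rw [Finset.mem_filter] at hc
      rw [st_card_between c Z hc.2 t hZ, hk c ((hBf c).mp hc.1)]
    rw [Finset.sum_congr rfl h0, Finset.sum_const, smul_eq_mul]
  rw [← h3, ← h2, ← h1, st_card_between Finset.univ Z (Finset.subset_univ _) t hZ,
    Finset.card_univ]

/-- Moment identity: `Σ_c C(|c ∩ Y|, i) · C(k-i, t-i) = C(|Y|, i) · C(v-i, t-i)` for `i ≤ t`. -/
theorem st_moment [Fintype α] {t k : ℕ} {B : Set (Finset α)} (hB : Cfsg.IsSteinerSystem t k B)
    (Bf : Finset (Finset α)) (hBf : ∀ b, b ∈ Bf ↔ b ∈ B) (Y : Finset α) (i : ℕ) (hi : i ≤ t) :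
    (∑ c ∈ Bf, Nat.choose (c ∩ Y).card i) * Nat.choose (k - i) (t - i) =
      Nat.choose Y.card i * Nat.choose (Fintype.card α - i) (t - i) := by
  have h1 : ∑ c ∈ Bf, Nat.choose (c ∩ Y).card i =
      ∑ Z ∈ Finset.powersetCard i Y, (Bf.filter (fun c => Z ⊆ c)).card := by
    have h0 : ∀ c, Nat.choose (c ∩ Y).card i =
        ((Finset.powersetCard i Y).filter (fun Z => Z ⊆ c)).card := by
      intro c
      rw [← Finset.card_powersetCard]
      congr 1
      ext Z
      simp only [Finset.mem_powersetCard, Finset.mem_filter, Finset.subset_inter_iff]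
      tauto
    simp_rw [h0, Finset.card_filter]
    exact Finset.sum_comm
  rw [h1, Finset.sum_mul]
  have h3 : ∀ Z ∈ Finset.powersetCard i Y,
      (Bf.filter (fun c => Z ⊆ c)).card * Nat.choose (k - i) (t - i) =
        Nat.choose (Fintype.card α - i) (t - i) := by
    intro Z hZ
    rw [Finset.mem_powersetCard] at hZ
    have h2 := st_lambda hB Bf hBf Z (by rw [hZ.2]; exact hi)
    rw [hZ.2] at h2
    exact h2
  rw [Finset.sum_congr rfl h3, Finset.sum_const, Finset.card_powersetCard, smul_eq_mul]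

theorem st_sum_fiber (S : Finset (Finset α)) (Y : Finset α) (m : ℕ)
    (hm : ∀ c ∈ S, (c ∩ Y).card < m) (f : ℕ → ℕ) :
    ∑ c ∈ S, f (c ∩ Y).card =
      ∑ j ∈ Finset.range m, (S.filter (fun c => (c ∩ Y).card = j)).card * f j := by
  rw [← Finset.sum_fiberwise_of_maps_to (g := fun c => (c ∩ Y).card) (t := Finset.range m)
    (fun c hc => Finset.mem_range.mpr (hm c hc))]
  apply Finset.sum_congr rfl
  intro j _
  have h0 : ∀ c ∈ S.filter (fun c => (c ∩ Y).card = j), f (c ∩ Y).card = f j := by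
    intro c hc
    rw [(Finset.mem_filter.mp hc).2]
  rw [Finset.sum_congr rfl h0, Finset.sum_const, smul_eq_mul]

/-- Two distinct blocks of a Steiner system `S(t,k,v)` meet in fewer than `t` points. -/
theorem st_inter_lt {t k : ℕ} {B : Set (Finset α)} (hB : Cfsg.IsSteinerSystem t k B)
    {b c : Finset α} (hb : b ∈ B) (hc : c ∈ B) (hbc : c ≠ b) : (c ∩ b).card < t := by
  by_contra hcon
  push Not at hcon
  obtain ⟨s, hs, hscard⟩ := Finset.exists_subset_card_eq hcon
  obtain ⟨b0, _, huniq⟩ := hB.2 s hscard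
  have e1 := huniq b ⟨hb, hs.trans Finset.inter_subset_right⟩
  have e2 := huniq c ⟨hc, hs.trans Finset.inter_subset_left⟩
  exact hbc (e2.trans e1.symm)

/-- Block-versus-block moment identity. -/
theorem st_block_moment [Fintype α] {t k : ℕ} {B : Set (Finset α)}
    (hB : Cfsg.IsSteinerSystem t k B) (Bf : Finset (Finset α)) (hBf : ∀ b, b ∈ Bf ↔ b ∈ B)
    (b : Finset α) (hb : b ∈ B) (i : ℕ) (hi : i ≤ t) :
    (∑ j ∈ Finset.range t, ((Bf.erase b).filter (fun c => (c ∩ b).card = j)).card * Nat.choose j i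
      + Nat.choose k i) * Nat.choose (k - i) (t - i) =
      Nat.choose k i * Nat.choose (Fintype.card α - i) (t - i) := by
  have h1 := st_moment hB Bf hBf b i hi
  rw [hB.1 b hb] at h1
  rw [← Finset.add_sum_erase Bf _ ((hBf b).mpr hb), Finset.inter_self, hB.1 b hb] at h1
  rw [st_sum_fiber (Bf.erase b) b t (fun c hc => by
    rw [Finset.mem_erase] at hc
    exact st_inter_lt hB hb ((hBf c).mp hc.2) hc.1) (fun j => Nat.choose j i)] at h1
  rw [add_comm]
  exact h1

end

end Cfsg.Agent.Lib.Helper7
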