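import Mathlib
import Cfsg.Prelude
import Cfsg.Agent.Lib.Helper7.GolayC
import Cfsg.Agent.Lib.Helper7.Steiner

set_option autoImplicit false

namespace Cfsg.Agent.Lib.Helper7

section
variable {ι : Type*} [Fintype ι] [DecidableEq ι]

theorem g24g_supp_inj : Function.Injective (Cfsg.support₂ : (ι → ZMod 2) → Finset ι) := by
  intro u v h
  rw [← g24_ind_supp u, ← g24_ind_supp v, h]

theorem g24g_words_ncard (C : Set (ι → ZMod 2)) [DecidablePred (fun c => c ∈ C)] (k : ℕ) :
    (Cfsg.wordsOfWeight C k).ncard =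
      (Finset.univ.filter (fun c : ι → ZMod 2 => c ∈ C ∧ hammingNorm c = k)).card := by
  have e : Cfsg.wordsOfWeight C k = Cfsg.support₂ ''
      (↑(Finset.univ.filter (fun c : ι → ZMod 2 => c ∈ C ∧ hammingNorm c = k)) :
        Set (ι → ZMod 2)) := by
    ext b
    simp only [Cfsg.wordsOfWeight, Cfsg.supports, Set.mem_setOf_eq, Set.mem_image,
      Finset.coe_filter, Finset.mem_univ, true_and]
    constructor
    · rintro ⟨⟨c, hc, rfl⟩, hk⟩
      exact ⟨c, ⟨hc, by rw [g24_norm_eq]; exact hk⟩, rfl⟩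
    · rintro ⟨c, ⟨hc, hk⟩, rfl⟩
      exact ⟨⟨c, hc, rfl⟩, by rw [← g24_norm_eq]; exact hk⟩
  rw [e, Set.ncard_image_of_injective _ g24g_supp_inj, Set.ncard_coe_finset]

end

theorem gc_one_mem : (1 : Cfsg.GolayPt → ZMod 2) ∈ Cfsg.golayCode :=
  Submodule.subset_span (Or.inr rfl)

theorem gc_norm_compl (w : Cfsg.GolayPt → ZMod 2) :
    hammingNorm (1 - w) + hammingNorm w = 24 := by
  have h := g24_norm_sub (1 : Cfsg.GolayPt → ZMod 2) w
  rw [gc_wt_one] at h
  have e : Cfsg.support₂ (1 : Cfsg.GolayPt → ZMod 2) ∩ Cfsg.support₂ w = Cfsg.support₂ w := by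
    apply Finset.inter_eq_right.mpr
    intro i _
    simp [g24_mem_supp]
  rw [e, ← g24_norm_eq] at h
  omega

theorem gc_compl_mem {w : Cfsg.GolayPt → ZMod 2} (hw : w ∈ Cfsg.golayCode) :
    1 - w ∈ Cfsg.golayCode := Submodule.sub_mem _ gc_one_mem hw

theorem gc_weights (w : Cfsg.GolayPt → ZMod 2) (hw : w ∈ Cfsg.golayCode) :
    hammingNorm w = 0 ∨ hammingNorm w = 8 ∨ hammingNorm w = 12 ∨ hammingNorm w = 16 ∨
      hammingNorm w = 24 := by
  have h4 := gc_doubly_even w hw
  have hc := gc_norm_compl w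
  have h1 : (1 - w) ∈ Cfsg.golayCode := gc_compl_mem hw
  have h4' := gc_doubly_even _ h1
  by_cases hw0 : w = 0
  · left; rw [hw0]; simp
  by_cases hw1 : 1 - w = 0
  · right; right; right; right
    rw [hw1] at hc; simp at hc; exact hc
  have m1 := gc_min w hw hw0
  have m2 := gc_min _ h1 hw1
  omega

theorem gc_steiner : Cfsg.IsSteinerSystem 5 8 Cfsg.octads := gc_g24.steiner

theorem gc_octads_card : Cfsg.octads.ncard = 759 := by
  classical
  have hS : Cfsg.IsSteinerSystem 5 8 Cfsg.octads := gc_steiner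
  have hfin : Cfsg.octads.Finite := Set.toFinite _
  have h := st_lambda hS hfin.toFinset (fun b => hfin.mem_toFinset) ∅ (by simp)
  rw [Set.ncard_eq_toFinset_card _ hfin]
  generalize hfin.toFinset = Bf at h
  rw [Finset.filter_true_of_mem (fun c _ => Finset.empty_subset c), Finset.card_empty,
    gc_card_pt] at h
  have e1 : Nat.choose (8 - 0) (5 - 0) = 56 := by decide
  have e2 : Nat.choose (24 - 0) (5 - 0) = 42504 := by decide +kernel
  rw [e1, e2] at h
  omega

open Classical in
/-- number of code words of weight `k` -/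
noncomputable def gcA (k : ℕ) : ℕ :=
  (Finset.univ.filter
    (fun c : Cfsg.GolayPt → ZMod 2 => c ∈ Cfsg.golayCode ∧ hammingNorm c = k)).card

theorem gc_words_ncard (k : ℕ) :
    (Cfsg.wordsOfWeight (Cfsg.golayCode : Set (Cfsg.GolayPt → ZMod 2)) k).ncard = gcA k := by
  classical
  unfold gcA
  rw [g24g_words_ncard]
  congr 1

theorem gc_A8 : gcA 8 = 759 := by
  rw [← gc_words_ncard]
  exact gc_octads_card

theorem gc_A0 : gcA 0 = 1 := by
  classical
  unfold gcA
  rw [Finset.card_eq_one]
  refine ⟨0, ?_⟩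
  ext c
  simp only [Finset.mem_filter, Finset.mem_univ, true_and, Finset.mem_singleton]
  constructor
  · rintro ⟨_, h⟩
    exact hammingNorm_eq_zero.mp h
  · rintro rfl
    exact ⟨Submodule.zero_mem _, by simp⟩

theorem gc_A24 : gcA 24 = 1 := by
  classical
  unfold gcA
  rw [Finset.card_eq_one]
  refine ⟨1, ?_⟩
  ext c
  simp only [Finset.mem_filter, Finset.mem_univ, true_and, Finset.mem_singleton]
  constructor
  · rintro ⟨_, h⟩
    have hc := gc_norm_compl c
    have h0 : hammingNorm (1 - c) = 0 := by omega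
    have := hammingNorm_eq_zero.mp h0
    exact (sub_eq_zero.mp this).symm
  · rintro rfl
    exact ⟨gc_one_mem, gc_wt_one⟩

theorem gc_A16 : gcA 16 = gcA 8 := by
  classical
  unfold gcA
  apply Finset.card_nbij' (fun w => 1 - w) (fun w => 1 - w)
  · intro w hw
    simp only [Finset.coe_filter, Finset.mem_univ, true_and, Set.mem_setOf_eq] at hw ⊢
    have hc := gc_norm_compl w
    exact ⟨gc_compl_mem hw.1, by omega⟩
  · intro w hw
    simp only [Finset.coe_filter, Finset.mem_univ, true_and, Set.mem_setOf_eq] at hw ⊢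
    have hc := gc_norm_compl w
    exact ⟨gc_compl_mem hw.1, by omega⟩
  · intro w _
    exact sub_sub_cancel 1 w
  · intro w _
    exact sub_sub_cancel 1 w

theorem gc_A_sum : gcA 0 + gcA 8 + gcA 12 + gcA 16 + gcA 24 = 4096 := by
  classical
  have hcard := gc_g24.cardf
  have hfib := Finset.card_eq_sum_card_fiberwise (f := fun c : Cfsg.GolayPt → ZMod 2 => hammingNorm c)
    (s := Finset.univ.filter (fun c : Cfsg.GolayPt → ZMod 2 => c ∈ Cfsg.golayCode))
    (t := ({0, 8, 12, 16, 24} : Finset ℕ)) (by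
      intro c hc
      have hc' : c ∈ Cfsg.golayCode := by simpa using hc
      have := gc_weights c hc'
      simp only [Finset.coe_insert, Finset.coe_singleton, Set.mem_insert_iff,
        Set.mem_singleton_iff]
      exact this)
  rw [hcard] at hfib
  have e : ∀ k : ℕ, ((Finset.univ.filter (fun c : Cfsg.GolayPt → ZMod 2 =>
      c ∈ Cfsg.golayCode)).filter (fun c => hammingNorm c = k)).card = gcA k := by
    intro k
    unfold gcA
    rw [Finset.filter_filter]
  simp only [e] at hfib
  rw [Finset.sum_insert (by decide), Finset.sum_insert (by decide), Finset.sum_insert (by decide),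
    Finset.sum_insert (by decide), Finset.sum_singleton] at hfib
  omega

theorem gc_A12 : gcA 12 = 2576 := by
  have h := gc_A_sum
  have h0 := gc_A0
  have h24 := gc_A24
  have h16 := gc_A16
  have h8 := gc_A8
  omega

theorem gc_dodecads_card : Cfsg.dodecads.ncard = 2576 := by
  unfold Cfsg.dodecads
  rw [gc_words_ncard]
  exact gc_A12

end Cfsg.Agent.Lib.Helper7
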