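import Mathlib
import Cfsg.Prelude
import Cfsg.Agent.Lib.Helper7.GolayC2

set_option autoImplicit false

namespace Cfsg.Agent.Lib.Helper7

section
variable {ι : Type*} [Fintype ι] [DecidableEq ι]

theorem g24_ind_sub (b b' : Finset ι) :
    g24Ind b - g24Ind b' = g24Ind ((b \ b') ∪ (b' \ b)) := by
  apply g24g_supp_inj
  rw [g24_supp_sub, g24_supp_ind, g24_supp_ind, g24_supp_ind]

theorem g24_card_symm (b b' : Finset ι) :
    ((b \ b') ∪ (b' \ b)).card + 2 * (b ∩ b').card = b.card + b'.card := by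
  have h := g24_norm_sub (g24Ind b) (g24Ind b')
  rw [g24_ind_sub, g24_norm_eq, g24_norm_eq, g24_norm_eq, g24_supp_ind, g24_supp_ind,
    g24_supp_ind] at h
  exact h

theorem g24_ind_univ : g24Ind (Finset.univ : Finset ι) = 1 := by
  funext i
  simp [g24Ind]

theorem g24_ind_compl (b : Finset ι) : g24Ind bᶜ = 1 - g24Ind b := by
  rw [← g24_ind_univ, g24_ind_sub]
  congr 1
  ext i
  simp

theorem g24_ind_inj : Function.Injective (g24Ind : Finset ι → ι → ZMod 2) := by
  intro b b' h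
  rw [← g24_supp_ind b, ← g24_supp_ind b', h]

end

theorem gc_supp_iff (b : Finset Cfsg.GolayPt) :
    b ∈ Cfsg.supports (Cfsg.golayCode : Set (Cfsg.GolayPt → ZMod 2)) ↔
      g24Ind b ∈ Cfsg.golayCode := by
  constructor
  · rintro ⟨c, hc, rfl⟩
    rw [g24_ind_supp]; exact hc
  · intro h
    exact ⟨g24Ind b, h, g24_supp_ind b⟩

theorem gc_words_iff (b : Finset Cfsg.GolayPt) (k : ℕ) :
    b ∈ Cfsg.wordsOfWeight (Cfsg.golayCode : Set (Cfsg.GolayPt → ZMod 2)) k ↔
      g24Ind b ∈ Cfsg.golayCode ∧ b.card = k := by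
  unfold Cfsg.wordsOfWeight
  rw [Set.mem_setOf_eq, gc_supp_iff]

theorem gc_octad_iff (b : Finset Cfsg.GolayPt) :
    b ∈ Cfsg.octads ↔ g24Ind b ∈ Cfsg.golayCode ∧ b.card = 8 := gc_words_iff b 8

theorem gc_dodecad_iff (b : Finset Cfsg.GolayPt) :
    b ∈ Cfsg.dodecads ↔ g24Ind b ∈ Cfsg.golayCode ∧ b.card = 12 := gc_words_iff b 12

theorem gc_symm_mem {b b' : Finset Cfsg.GolayPt} (hb : g24Ind b ∈ Cfsg.golayCode)
    (hb' : g24Ind b' ∈ Cfsg.golayCode) : g24Ind ((b \ b') ∪ (b' \ b)) ∈ Cfsg.golayCode := by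
  rw [← g24_ind_sub]; exact Submodule.sub_mem _ hb hb'

theorem gc_compl_ind_mem {b : Finset Cfsg.GolayPt} (hb : g24Ind b ∈ Cfsg.golayCode) :
    g24Ind bᶜ ∈ Cfsg.golayCode := by
  rw [g24_ind_compl]; exact gc_compl_mem hb

theorem gc_ind_inter_even {b b' : Finset Cfsg.GolayPt} (hb : g24Ind b ∈ Cfsg.golayCode)
    (hb' : g24Ind b' ∈ Cfsg.golayCode) : 2 ∣ (b ∩ b').card := by
  have h := g24g_inter_even _ _ (gc_orth _ hb _ hb')
  rwa [g24_supp_ind, g24_supp_ind] at h

theorem gc_card_mem {b : Finset Cfsg.GolayPt} (hb : g24Ind b ∈ Cfsg.golayCode) :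
    b.card = 0 ∨ b.card = 8 ∨ b.card = 12 ∨ b.card = 16 ∨ b.card = 24 := by
  have h := gc_weights _ hb
  rwa [g24_norm_eq, g24_supp_ind] at h

theorem gc_octad_dodecad {o d : Finset Cfsg.GolayPt} (ho : o ∈ Cfsg.octads)
    (hd : d ∈ Cfsg.dodecads) :
    (o ∩ d).card = 2 ∨ (o ∩ d).card = 4 ∨ (o ∩ d).card = 6 := by
  rw [gc_octad_iff] at ho
  rw [gc_dodecad_iff] at hd
  have h1 := gc_ind_inter_even ho.1 hd.1
  have h2 := gc_card_mem (gc_symm_mem ho.1 hd.1)
  have h3 := g24_card_symm o d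
  have h4 : (o ∩ d).card ≤ o.card := Finset.card_le_card Finset.inter_subset_left
  omega

theorem gc_octad_octad {o o' : Finset Cfsg.GolayPt} (ho : o ∈ Cfsg.octads)
    (ho' : o' ∈ Cfsg.octads) :
    (o ∩ o').card = 0 ∨ (o ∩ o').card = 2 ∨ (o ∩ o').card = 4 ∨ (o ∩ o').card = 8 := by
  rw [gc_octad_iff] at ho ho'
  have h1 := gc_ind_inter_even ho.1 ho'.1
  have h2 := gc_card_mem (gc_symm_mem ho.1 ho'.1)
  have h3 := g24_card_symm o o'
  omega

theorem gc_dodecad_dodecad {d d' : Finset Cfsg.GolayPt} (hd : d ∈ Cfsg.dodecads)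
    (hd' : d' ∈ Cfsg.dodecads) :
    (d ∩ d').card = 0 ∨ (d ∩ d').card = 4 ∨ (d ∩ d').card = 6 ∨ (d ∩ d').card = 8 ∨
      (d ∩ d').card = 12 := by
  rw [gc_dodecad_iff] at hd hd'
  have h1 := gc_ind_inter_even hd.1 hd'.1
  have h2 := gc_card_mem (gc_symm_mem hd.1 hd'.1)
  have h3 := g24_card_symm d d'
  omega

theorem gc_eq_of_inter_card {b b' : Finset Cfsg.GolayPt} (h : (b ∩ b').card = b.card)
    (h' : b'.card = b.card) : b = b' := by
  have h1 : b ∩ b' = b := Finset.eq_of_subset_of_card_le Finset.inter_subset_left (by omega)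
  have h2 : b ⊆ b' := by rw [← h1]; exact Finset.inter_subset_right
  exact Finset.eq_of_subset_of_card_le h2 (by omega)

/-- the finset of octads -/
noncomputable def gcOct : Finset (Finset Cfsg.GolayPt) := (Set.toFinite Cfsg.octads).toFinset

theorem gc_mem_oct (b : Finset Cfsg.GolayPt) : b ∈ gcOct ↔ b ∈ Cfsg.octads :=
  (Set.toFinite Cfsg.octads).mem_toFinset

/-- the finset of dodecads -/
noncomputable def gcDod : Finset (Finset Cfsg.GolayPt) := (Set.toFinite Cfsg.dodecads).toFinset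

theorem gc_mem_dod (b : Finset Cfsg.GolayPt) : b ∈ gcDod ↔ b ∈ Cfsg.dodecads :=
  (Set.toFinite Cfsg.dodecads).mem_toFinset

theorem gc_oct_card : gcOct.card = 759 := by
  rw [← gc_octads_card, Set.ncard_eq_toFinset_card _ (Set.toFinite Cfsg.octads)]
  rfl

theorem gc_dod_card : gcDod.card = 2576 := by
  rw [← gc_dodecads_card, Set.ncard_eq_toFinset_card _ (Set.toFinite Cfsg.dodecads)]
  rfl

/-- number of octads meeting `d` in `j` points -/
noncomputable def gcN (d : Finset Cfsg.GolayPt) (j : ℕ) : ℕ :=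
  (gcOct.filter (fun c => (c ∩ d).card = j)).card

theorem gc_N_set (d : Finset Cfsg.GolayPt) (j : ℕ) :
    {o : Finset Cfsg.GolayPt | o ∈ Cfsg.octads ∧ (o ∩ d).card = j}.ncard = gcN d j := by
  have e : {o : Finset Cfsg.GolayPt | o ∈ Cfsg.octads ∧ (o ∩ d).card = j} =
      ↑(gcOct.filter (fun c => (c ∩ d).card = j)) := by
    ext o
    simp only [Set.mem_setOf_eq, Finset.coe_filter, gc_mem_oct]
  rw [e, Set.ncard_coe_finset]
  rfl

theorem gc_N_dodecad (d : Finset Cfsg.GolayPt) (hd : d ∈ Cfsg.dodecads) :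
    gcN d 6 = 132 ∧ gcN d 2 = 132 ∧ gcN d 4 = 495 := by
  have hS := gc_steiner
  have hd12 : d.card = 12 := ((gc_dodecad_iff d).mp hd).2
  have h0 := st_moment hS gcOct gc_mem_oct d 0 (by norm_num)
  have h1 := st_moment hS gcOct gc_mem_oct d 1 (by norm_num)
  have h2 := st_moment hS gcOct gc_mem_oct d 2 (by norm_num)
  have hm : ∀ c ∈ gcOct, (c ∩ d).card < 9 := by
    intro c hc
    have hc8 : c.card = 8 := ((gc_octad_iff c).mp ((gc_mem_oct c).mp hc)).2
    have : (c ∩ d).card ≤ c.card := Finset.card_le_card Finset.inter_subset_left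
    omega
  rw [st_sum_fiber gcOct d 9 hm (fun j => Nat.choose j 0)] at h0
  rw [st_sum_fiber gcOct d 9 hm (fun j => Nat.choose j 1)] at h1
  rw [st_sum_fiber gcOct d 9 hm (fun j => Nat.choose j 2)] at h2
  have hz : ∀ j, j ≠ 2 → j ≠ 4 → j ≠ 6 → (gcOct.filter (fun c => (c ∩ d).card = j)).card = 0 := by
    intro j h2 h4 h6
    rw [Finset.card_eq_zero, Finset.filter_eq_empty_iff]
    intro c hc hj
    have := gc_octad_dodecad ((gc_mem_oct c).mp hc) hd
    omega
  rw [gc_card_pt, hd12] at h0 h1 h2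
  simp only [Finset.sum_range_succ, Finset.sum_range_zero] at h0 h1 h2
  rw [hz 0 (by norm_num) (by norm_num) (by norm_num), hz 1 (by norm_num) (by norm_num) (by norm_num),
    hz 3 (by norm_num) (by norm_num) (by norm_num), hz 5 (by norm_num) (by norm_num) (by norm_num),
    hz 7 (by norm_num) (by norm_num) (by norm_num),
    hz 8 (by norm_num) (by norm_num) (by norm_num)] at h0 h1 h2
  unfold gcN
  generalize (gcOct.filter (fun c => (c ∩ d).card = 2)).card = n2 at h0 h1 h2 ⊢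
  generalize (gcOct.filter (fun c => (c ∩ d).card = 4)).card = n4 at h0 h1 h2 ⊢
  generalize (gcOct.filter (fun c => (c ∩ d).card = 6)).card = n6 at h0 h1 h2 ⊢
  have e1 : Nat.choose (8 - 0) (5 - 0) = 56 := by decide
  have e2 : Nat.choose (24 - 0) (5 - 0) = 42504 := by decide +kernel
  have e3 : Nat.choose (8 - 1) (5 - 1) = 35 := by decide
  have e4 : Nat.choose (24 - 1) (5 - 1) = 8855 := by decide +kernel
  have e5 : Nat.choose (8 - 2) (5 - 2) = 20 := by decide
  have e6 : Nat.choose (24 - 2) (5 - 2) = 1540 := by decide +kernel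
  have e7 : Nat.choose 12 2 = 66 := by decide
  rw [e1, e2] at h0
  rw [e3, e4] at h1
  rw [e5, e6, e7] at h2
  norm_num [Nat.choose] at h0 h1 h2
  omega

end Cfsg.Agent.Lib.Helper7
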