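import Mathlib
import Cfsg.Prelude
import Cfsg.Agent.Lib.Helper7.GolayC3

set_option autoImplicit false

namespace Cfsg.Agent.Lib.Helper7

theorem gc_hexads (d : Finset Cfsg.GolayPt) (hd : d ∈ Cfsg.dodecads) :
    Cfsg.IsSteinerSystem 5 6 {h : Finset {p : Cfsg.GolayPt // p ∈ d} |
      ∃ o ∈ Cfsg.octads, (o ∩ d).card = 6 ∧ h = Finset.subtype (fun p => p ∈ d) o} := by
  constructor
  · rintro h ⟨o, ho, h6, rfl⟩
    rw [Finset.card_subtype, ← h6]
    congr 1
  · intro s hs
    have hs'card : (s.map (Function.Embedding.subtype _)).card = 5 := by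
      rw [Finset.card_map]; exact hs
    have hs'd : s.map (Function.Embedding.subtype _) ⊆ d := by
      intro p hp
      rw [Finset.mem_map] at hp
      obtain ⟨q, _, rfl⟩ := hp
      exact q.2
    obtain ⟨o, ⟨ho, hso⟩, huniq⟩ := gc_steiner.2 _ hs'card
    have h6 : (o ∩ d).card = 6 := by
      have h1 := gc_octad_dodecad ho hd
      have h2 : 5 ≤ (o ∩ d).card := by
        rw [← hs'card]; exact Finset.card_le_card (Finset.subset_inter hso hs'd)
      omega
    refine ⟨Finset.subtype (fun p => p ∈ d) o, ⟨⟨o, ho, h6, rfl⟩, ?_⟩, ?_⟩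
    · intro q hq
      rw [Finset.mem_subtype]
      exact hso (Finset.mem_map_of_mem _ hq)
    · rintro h ⟨⟨o', ho', _, rfl⟩, hsh⟩
      have hso' : s.map (Function.Embedding.subtype _) ⊆ o' := by
        intro p hp
        rw [Finset.mem_map] at hp
        obtain ⟨q, hq, rfl⟩ := hp
        have := hsh hq
        rwa [Finset.mem_subtype] at this
      rw [huniq o' ⟨ho', hso'⟩]

/-- number of dodecads meeting `d` in `j` points -/
noncomputable def gcM (d : Finset Cfsg.GolayPt) (j : ℕ) : ℕ :=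
  (gcDod.filter (fun c => (d ∩ c).card = j)).card

theorem gc_M_set (d : Finset Cfsg.GolayPt) (j : ℕ) :
    {d' : Finset Cfsg.GolayPt | d' ∈ Cfsg.dodecads ∧ (d ∩ d').card = j}.ncard = gcM d j := by
  have e : {d' : Finset Cfsg.GolayPt | d' ∈ Cfsg.dodecads ∧ (d ∩ d').card = j} =
      ↑(gcDod.filter (fun c => (d ∩ c).card = j)) := by
    ext o
    simp only [Set.mem_setOf_eq, Finset.coe_filter, gc_mem_dod]
  rw [e, Set.ncard_coe_finset]
  rfl

theorem gc_inter_symm (d b : Finset Cfsg.GolayPt) :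
    (d ∩ ((b \ d) ∪ (d \ b))).card + (b ∩ d).card = d.card := by
  have e : d ∩ ((b \ d) ∪ (d \ b)) = d \ b := by
    ext p
    simp only [Finset.mem_inter, Finset.mem_union, Finset.mem_sdiff]
    tauto
  rw [e, Finset.inter_comm]
  exact Finset.card_sdiff_add_card_inter d b

theorem gc_symm_symm (d b : Finset Cfsg.GolayPt) :
    ((((b \ d) ∪ (d \ b)) \ d) ∪ (d \ ((b \ d) ∪ (d \ b)))) = b := by
  ext p
  simp only [Finset.mem_union, Finset.mem_sdiff]
  tauto

theorem gc_inter_compl (d b : Finset Cfsg.GolayPt) :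
    (d ∩ bᶜ).card + (d ∩ b).card = d.card := by
  have e : d ∩ bᶜ = d \ b := by
    ext p
    simp only [Finset.mem_inter, Finset.mem_compl, Finset.mem_sdiff]
  rw [e]
  exact Finset.card_sdiff_add_card_inter d b

theorem gc_compl_dodecad {b : Finset Cfsg.GolayPt} (hb : b ∈ Cfsg.dodecads) :
    bᶜ ∈ Cfsg.dodecads := by
  rw [gc_dodecad_iff] at hb ⊢
  refine ⟨gc_compl_ind_mem hb.1, ?_⟩
  rw [Finset.card_compl, gc_card_pt, hb.2]

theorem gc_M8 (d : Finset Cfsg.GolayPt) (hd : d ∈ Cfsg.dodecads) : gcM d 8 = gcN d 4 := by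
  have hd' := (gc_dodecad_iff d).mp hd
  unfold gcM gcN
  symm
  apply Finset.card_nbij' (fun o => (o \ d) ∪ (d \ o)) (fun o => (o \ d) ∪ (d \ o))
  · intro o ho
    simp only [Finset.coe_filter, Set.mem_setOf_eq, gc_mem_oct, gc_mem_dod] at ho ⊢
    obtain ⟨ho1, ho2⟩ := ho
    have ho' := (gc_octad_iff o).mp ho1
    have h1 := g24_card_symm o d
    have h2 := gc_inter_symm d o
    refine ⟨(gc_dodecad_iff _).mpr ⟨gc_symm_mem ho'.1 hd'.1, by omega⟩, by omega⟩
  · intro o ho
    simp only [Finset.coe_filter, Set.mem_setOf_eq, gc_mem_oct, gc_mem_dod] at ho ⊢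
    obtain ⟨ho1, ho2⟩ := ho
    have ho' := (gc_dodecad_iff o).mp ho1
    have h1 := g24_card_symm o d
    have h2 := gc_inter_symm d o
    have h3 : (o ∩ d).card = 8 := by rw [Finset.inter_comm]; exact ho2
    refine ⟨(gc_octad_iff _).mpr ⟨gc_symm_mem ho'.1 hd'.1, by omega⟩, ?_⟩
    rw [Finset.inter_comm]
    omega
  · intro o _
    exact gc_symm_symm d o
  · intro o _
    exact gc_symm_symm d o

theorem gc_M4 (d : Finset Cfsg.GolayPt) (hd : d ∈ Cfsg.dodecads) : gcM d 4 = gcM d 8 := by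
  have hd' := (gc_dodecad_iff d).mp hd
  unfold gcM
  apply Finset.card_nbij' (fun o => oᶜ) (fun o => oᶜ)
  · intro o ho
    simp only [Finset.coe_filter, Set.mem_setOf_eq, gc_mem_dod] at ho ⊢
    have h2 := gc_inter_compl d o
    exact ⟨gc_compl_dodecad ho.1, by omega⟩
  · intro o ho
    simp only [Finset.coe_filter, Set.mem_setOf_eq, gc_mem_dod] at ho ⊢
    have h2 := gc_inter_compl d o
    exact ⟨gc_compl_dodecad ho.1, by omega⟩
  · intro o _
    exact compl_compl o
  · intro o _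
    exact compl_compl o

theorem gc_M12 (d : Finset Cfsg.GolayPt) (hd : d ∈ Cfsg.dodecads) : gcM d 12 = 1 := by
  have hd' := (gc_dodecad_iff d).mp hd
  unfold gcM
  rw [Finset.card_eq_one]
  refine ⟨d, ?_⟩
  ext c
  simp only [Finset.mem_filter, gc_mem_dod, Finset.mem_singleton]
  constructor
  · rintro ⟨hc, h12⟩
    have hc' := (gc_dodecad_iff c).mp hc
    exact (gc_eq_of_inter_card (by omega) (by omega)).symm
  · rintro rfl
    exact ⟨hd, by rw [Finset.inter_self]; exact hd'.2⟩

theorem gc_M0 (d : Finset Cfsg.GolayPt) (hd : d ∈ Cfsg.dodecads) : gcM d 0 = 1 := by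
  have hd' := (gc_dodecad_iff d).mp hd
  unfold gcM
  rw [Finset.card_eq_one]
  refine ⟨dᶜ, ?_⟩
  ext c
  simp only [Finset.mem_filter, gc_mem_dod, Finset.mem_singleton]
  constructor
  · rintro ⟨hc, h0⟩
    have hc' := (gc_dodecad_iff c).mp hc
    have hdc := (gc_dodecad_iff _).mp (gc_compl_dodecad hd)
    have h1 : c ⊆ dᶜ := by
      intro p hp
      rw [Finset.mem_compl]
      intro hpd
      have : p ∈ d ∩ c := Finset.mem_inter.mpr ⟨hpd, hp⟩
      rw [Finset.card_eq_zero] at h0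
      rw [h0] at this
      exact absurd this (Finset.notMem_empty p)
    exact Finset.eq_of_subset_of_card_le h1 (by omega)
  · rintro rfl
    refine ⟨gc_compl_dodecad hd, ?_⟩
    have h2 := gc_inter_compl d d
    rw [Finset.inter_self] at h2
    omega

theorem gc_M_sum (d : Finset Cfsg.GolayPt) (hd : d ∈ Cfsg.dodecads) :
    gcM d 0 + gcM d 4 + gcM d 6 + gcM d 8 + gcM d 12 = 2576 := by
  have hfib := Finset.card_eq_sum_card_fiberwise (f := fun c : Finset Cfsg.GolayPt => (d ∩ c).card)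
    (s := gcDod) (t := ({0, 4, 6, 8, 12} : Finset ℕ)) (by
      intro c hc
      have hc' : c ∈ Cfsg.dodecads := (gc_mem_dod c).mp hc
      have := gc_dodecad_dodecad hd hc'
      simp only [Finset.coe_insert, Finset.coe_singleton, Set.mem_insert_iff,
        Set.mem_singleton_iff]
      exact this)
  rw [gc_dod_card] at hfib
  rw [Finset.sum_insert (by decide), Finset.sum_insert (by decide), Finset.sum_insert (by decide),
    Finset.sum_insert (by decide), Finset.sum_singleton] at hfib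
  unfold gcM
  omega

theorem gc_M_dodecad (d : Finset Cfsg.GolayPt) (hd : d ∈ Cfsg.dodecads) :
    gcM d 4 = 495 ∧ gcM d 6 = 1584 ∧ gcM d 8 = 495 := by
  have h1 := gc_M_sum d hd
  have h2 := gc_M0 d hd
  have h3 := gc_M12 d hd
  have h4 := gc_M4 d hd
  have h5 := gc_M8 d hd
  have h6 := (gc_N_dodecad d hd).2.2
  omega

end Cfsg.Agent.Lib.Helper7
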