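import Mathlib
import Cfsg.Prelude
import Cfsg.Agent.Lib.Helper7.GolayC4

set_option autoImplicit false

namespace Cfsg.Agent.Lib.Helper7

open scoped Pointwise

theorem gc_span8 : Submodule.span (ZMod 2)
    {w : Cfsg.GolayPt → ZMod 2 | w ∈ Cfsg.golayCode ∧ hammingNorm w = 8} = Cfsg.golayCode := by
  apply le_antisymm
  · rw [Submodule.span_le]; intro w hw; exact hw.1
  · have key : ∀ n : ℕ, ∀ w ∈ Cfsg.golayCode, hammingNorm w ≤ n →
        w ∈ Submodule.span (ZMod 2)
          {w : Cfsg.GolayPt → ZMod 2 | w ∈ Cfsg.golayCode ∧ hammingNorm w = 8} := by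
      intro n
      induction n with
      | zero =>
        intro w _ hw
        have e : w = 0 := hammingNorm_eq_zero.mp (by omega)
        rw [e]; exact Submodule.zero_mem _
      | succ n ih =>
        intro w hw hwn
        by_cases hw0 : w = 0
        · rw [hw0]; exact Submodule.zero_mem _
        have h8 := gc_min w hw hw0
        rw [g24_norm_eq] at h8
        obtain ⟨s, hs, hsc⟩ := Finset.exists_subset_card_eq (by omega : 5 ≤ (Cfsg.support₂ w).card)
        obtain ⟨c, hc, hc8, hsc'⟩ := gc_g24.exists_octad s hsc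
        have hnorm := g24_norm_sub w c
        have h5 : 5 ≤ (Cfsg.support₂ w ∩ Cfsg.support₂ c).card := by
          rw [← hsc]; exact Finset.card_le_card (Finset.subset_inter hs hsc')
        have hlt : hammingNorm (w - c) ≤ n := by omega
        have h1 := ih (w - c) (Submodule.sub_mem _ hw hc) hlt
        have hcs : c ∈ Submodule.span (ZMod 2)
            {w : Cfsg.GolayPt → ZMod 2 | w ∈ Cfsg.golayCode ∧ hammingNorm w = 8} :=
          Submodule.subset_span ⟨hc, hc8⟩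
        have h2 := Submodule.add_mem _ h1 hcs
        rwa [sub_add_cancel] at h2
    intro w hw
    exact key _ w hw le_rfl

theorem gc_stab_iff (S : Set (Finset Cfsg.GolayPt)) (σ : Equiv.Perm Cfsg.GolayPt) :
    σ ∈ MulAction.stabilizer (Equiv.Perm Cfsg.GolayPt) S ↔
      (∀ b ∈ S, σ • b ∈ S) ∧ (∀ b ∈ S, σ⁻¹ • b ∈ S) := by
  constructor
  · intro h
    have h' := inv_mem h
    rw [MulAction.mem_stabilizer_iff] at h h'
    constructor
    · intro b hb
      have := Set.smul_mem_smul_set (a := σ) hb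
      rwa [h] at this
    · intro b hb
      have := Set.smul_mem_smul_set (a := σ⁻¹) hb
      rwa [h'] at this
  · rintro ⟨h1, h2⟩
    rw [MulAction.mem_stabilizer_iff]
    ext x
    rw [Set.mem_smul_set_iff_inv_smul_mem]
    constructor
    · intro hx
      have := h1 _ hx
      rwa [smul_inv_smul] at this
    · intro hx
      exact h2 x hx

theorem gc_ind_smul (σ : Equiv.Perm Cfsg.GolayPt) (b : Finset Cfsg.GolayPt) :
    g24Ind (σ • b) = fun p => g24Ind b (σ.symm p) := by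
  funext p
  unfold g24Ind
  have e : p ∈ σ • b ↔ σ.symm p ∈ b := by
    rw [← Finset.inv_smul_mem_iff]
    rfl
  simp only [e]

theorem gc_card_smul (σ : Equiv.Perm Cfsg.GolayPt) (b : Finset Cfsg.GolayPt) :
    (σ • b).card = b.card := Finset.card_smul_finset σ b

/-- a permutation mapping octads to octads maps code words to code words -/
theorem gc_perm_code (σ : Equiv.Perm Cfsg.GolayPt) (h : ∀ b ∈ Cfsg.octads, σ • b ∈ Cfsg.octads)
    (w : Cfsg.GolayPt → ZMod 2) (hw : w ∈ Cfsg.golayCode) :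
    (fun p => w (σ.symm p)) ∈ Cfsg.golayCode := by
  have hle : Submodule.span (ZMod 2)
      {w : Cfsg.GolayPt → ZMod 2 | w ∈ Cfsg.golayCode ∧ hammingNorm w = 8} ≤
      Submodule.comap (LinearMap.funLeft (ZMod 2) (ZMod 2) σ.symm) Cfsg.golayCode := by
    rw [Submodule.span_le]
    rintro c ⟨hc, hc8⟩
    have ho : Cfsg.support₂ c ∈ Cfsg.octads := by
      rw [gc_octad_iff, g24_ind_supp, ← g24_norm_eq]
      exact ⟨hc, hc8⟩
    have h1 := ((gc_octad_iff _).mp (h _ ho)).1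
    rw [gc_ind_smul, g24_ind_supp] at h1
    exact h1
  rw [gc_span8] at hle
  exact hle hw

theorem gc_perm_supports (σ : Equiv.Perm Cfsg.GolayPt)
    (h : ∀ b ∈ Cfsg.octads, σ • b ∈ Cfsg.octads) (b : Finset Cfsg.GolayPt)
    (hb : b ∈ Cfsg.supports (Cfsg.golayCode : Set (Cfsg.GolayPt → ZMod 2))) :
    σ • b ∈ Cfsg.supports (Cfsg.golayCode : Set (Cfsg.GolayPt → ZMod 2)) := by
  rw [gc_supp_iff] at hb ⊢
  rw [gc_ind_smul]
  exact gc_perm_code σ h _ hb

theorem gc_supports_words (σ : Equiv.Perm Cfsg.GolayPt)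
    (h : ∀ b ∈ Cfsg.supports (Cfsg.golayCode : Set (Cfsg.GolayPt → ZMod 2)),
      σ • b ∈ Cfsg.supports (Cfsg.golayCode : Set (Cfsg.GolayPt → ZMod 2))) (k : ℕ)
    (b : Finset Cfsg.GolayPt)
    (hb : b ∈ Cfsg.wordsOfWeight (Cfsg.golayCode : Set (Cfsg.GolayPt → ZMod 2)) k) :
    σ • b ∈ Cfsg.wordsOfWeight (Cfsg.golayCode : Set (Cfsg.GolayPt → ZMod 2)) k :=
  ⟨h b hb.1, by rw [gc_card_smul]; exact hb.2⟩

theorem gc_M24_iff (σ : Equiv.Perm Cfsg.GolayPt) :
    σ ∈ Cfsg.M24 ↔ (∀ b ∈ Cfsg.octads, σ • b ∈ Cfsg.octads) ∧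
      (∀ b ∈ Cfsg.octads, σ⁻¹ • b ∈ Cfsg.octads) := by
  constructor
  · intro h
    have h' := (gc_stab_iff _ σ).mp h
    exact ⟨fun b hb => gc_supports_words σ h'.1 8 b hb,
      fun b hb => gc_supports_words σ⁻¹ h'.2 8 b hb⟩
  · rintro ⟨h1, h2⟩
    exact (gc_stab_iff _ σ).mpr ⟨fun b hb => gc_perm_supports σ h1 b hb,
      fun b hb => gc_perm_supports σ⁻¹ h2 b hb⟩

theorem gc_M24_eq : Cfsg.M24 = Cfsg.setSystemAut Cfsg.octads := by
  ext σ
  rw [gc_M24_iff]
  exact (gc_stab_iff _ σ).symm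

/-- elements of `M24` preserve words of each weight -/
theorem gc_M24_words {σ : Equiv.Perm Cfsg.GolayPt} (hσ : σ ∈ Cfsg.M24) (k : ℕ)
    (b : Finset Cfsg.GolayPt)
    (hb : b ∈ Cfsg.wordsOfWeight (Cfsg.golayCode : Set (Cfsg.GolayPt → ZMod 2)) k) :
    σ • b ∈ Cfsg.wordsOfWeight (Cfsg.golayCode : Set (Cfsg.GolayPt → ZMod 2)) k :=
  gc_supports_words σ ((gc_stab_iff _ σ).mp hσ).1 k b hb

end Cfsg.Agent.Lib.Helper7
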