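import Mathlib
import Cfsg.Prelude
import Cfsg.Agent.Lib.Helper7.GolayC5

set_option autoImplicit false

namespace Cfsg.Agent.Lib.Helper7

theorem gc_coset_leaders (w : Cfsg.GolayPt → ZMod 2) :
    ({v : Cfsg.GolayPt → ZMod 2 | hammingNorm v ≤ 4 ∧ w - v ∈ Cfsg.golayCode}.ncard = 1 ∧
      ∃ v : Cfsg.GolayPt → ZMod 2, hammingNorm v ≤ 3 ∧ w - v ∈ Cfsg.golayCode) ∨
    ({v : Cfsg.GolayPt → ZMod 2 | hammingNorm v ≤ 4 ∧ w - v ∈ Cfsg.golayCode}.ncard = 6 ∧
      ∀ v : Cfsg.GolayPt → ZMod 2, w - v ∈ Cfsg.golayCode → hammingNorm v ≤ 4 →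
        hammingNorm v = 4) := by
  classical
  have hc := g24g_coset gc_card_pt gc_min gc_g24.cardf w
  have hswap : ∀ v : Cfsg.GolayPt → ZMod 2, w - v ∈ Cfsg.golayCode ↔ v - w ∈ Cfsg.golayCode := by
    intro v
    rw [← neg_sub]
    exact neg_mem_iff
  have e : {v : Cfsg.GolayPt → ZMod 2 | hammingNorm v ≤ 4 ∧ w - v ∈ Cfsg.golayCode} =
      ↑((Finset.univ.filter (fun u : Cfsg.GolayPt → ZMod 2 =>
          hammingNorm u ≤ 3 ∧ u - w ∈ Cfsg.golayCode)) ∪
        (Finset.univ.filter (fun u : Cfsg.GolayPt → ZMod 2 =>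
          hammingNorm u = 4 ∧ u - w ∈ Cfsg.golayCode))) := by
    ext v
    simp only [Set.mem_setOf_eq, Finset.coe_union, Finset.coe_filter, Finset.mem_univ, true_and,
      Set.mem_union, hswap]
    constructor
    · rintro ⟨h1, h2⟩
      rcases Nat.lt_or_ge (hammingNorm v) 4 with h | h
      · left; exact ⟨by omega, h2⟩
      · right; exact ⟨by omega, h2⟩
    · rintro (⟨h1, h2⟩ | ⟨h1, h2⟩)
      · exact ⟨by omega, h2⟩
      · exact ⟨by omega, h2⟩
  have hdisj : Disjoint (Finset.univ.filter (fun u : Cfsg.GolayPt → ZMod 2 =>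
          hammingNorm u ≤ 3 ∧ u - w ∈ Cfsg.golayCode))
        (Finset.univ.filter (fun u : Cfsg.GolayPt → ZMod 2 =>
          hammingNorm u = 4 ∧ u - w ∈ Cfsg.golayCode)) := by
    rw [Finset.disjoint_filter]
    intro v _ h1 h2
    omega
  rw [e, Set.ncard_coe_finset, Finset.card_union_of_disjoint hdisj]
  rcases hc with ⟨h1, h2⟩ | ⟨h1, h2⟩
  · left
    refine ⟨by omega, ?_⟩
    obtain ⟨v, hv⟩ := Finset.card_pos.mp (by omega : 0 < (Finset.univ.filter
      (fun u : Cfsg.GolayPt → ZMod 2 => hammingNorm u ≤ 3 ∧ u - w ∈ Cfsg.golayCode)).card)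
    rw [Finset.mem_filter] at hv
    exact ⟨v, hv.2.1, (hswap v).mpr hv.2.2⟩
  · right
    refine ⟨by omega, ?_⟩
    intro v hv h4
    by_contra hne
    have hmem : v ∈ Finset.univ.filter (fun u : Cfsg.GolayPt → ZMod 2 =>
        hammingNorm u ≤ 3 ∧ u - w ∈ Cfsg.golayCode) :=
      Finset.mem_filter.mpr ⟨Finset.mem_univ _, by omega, (hswap v).mp hv⟩
    rw [Finset.card_eq_zero] at h1
    rw [h1] at hmem
    exact Finset.notMem_empty _ hmem

/-- octads meeting `o` exactly in `s` -/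
noncomputable def gcX (o s : Finset Cfsg.GolayPt) : Finset (Finset Cfsg.GolayPt) :=
  gcOct.filter (fun o' => o ∩ o' = s)

theorem gc_X_set (o s : Finset Cfsg.GolayPt) :
    {o' : Finset Cfsg.GolayPt | o' ∈ Cfsg.octads ∧ o ∩ o' = s}.ncard = (gcX o s).card := by
  have e : {o' : Finset Cfsg.GolayPt | o' ∈ Cfsg.octads ∧ o ∩ o' = s} = ↑(gcX o s) := by
    ext o'
    simp only [Set.mem_setOf_eq, gcX, Finset.coe_filter, gc_mem_oct]
  rw [e, Set.ncard_coe_finset]

theorem gc_lambda (Z : Finset Cfsg.GolayPt) (hZ : Z.card ≤ 5) :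
    (gcOct.filter (fun c => Z ⊆ c)).card * Nat.choose (8 - Z.card) (5 - Z.card) =
      Nat.choose (24 - Z.card) (5 - Z.card) := by
  have h := st_lambda gc_steiner gcOct gc_mem_oct Z hZ
  rwa [gc_card_pt] at h

theorem gc_octad_card {o : Finset Cfsg.GolayPt} (ho : o ∈ Cfsg.octads) : o.card = 8 :=
  ((gc_octad_iff o).mp ho).2

theorem gc_octad_eq {o o' : Finset Cfsg.GolayPt} (ho : o ∈ Cfsg.octads) (ho' : o' ∈ Cfsg.octads)
    (h : (o ∩ o').card = 8) : o' = o := by
  have e1 := gc_octad_card ho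
  have e2 := gc_octad_card ho'
  exact (gc_eq_of_inter_card (by omega) (by omega)).symm

theorem gc_X4 (o s : Finset Cfsg.GolayPt) (ho : o ∈ Cfsg.octads) (hs : s ⊆ o) (h4 : s.card = 4) :
    (gcX o s).card = 4 := by
  have hl := gc_lambda s (by omega)
  rw [h4] at hl
  have e1 : Nat.choose (8 - 4) (5 - 4) = 4 := by decide
  have e2 : Nat.choose (24 - 4) (5 - 4) = 20 := by decide
  rw [e1, e2] at hl
  have e : gcX o s = (gcOct.filter (fun c => s ⊆ c)).erase o := by
    ext o'
    simp only [gcX, Finset.mem_filter, Finset.mem_erase, gc_mem_oct]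
    constructor
    · rintro ⟨ho', hi⟩
      refine ⟨?_, ho', ?_⟩
      · rintro rfl
        rw [Finset.inter_self] at hi
        have := gc_octad_card ho
        rw [hi] at this; omega
      · rw [← hi]; exact Finset.inter_subset_right
    · rintro ⟨hne, ho', hso'⟩
      refine ⟨ho', ?_⟩
      have h1 := gc_octad_octad ho ho'
      have h2 : s ⊆ o ∩ o' := Finset.subset_inter hs hso'
      have h3 := Finset.card_le_card h2
      have h8 : (o ∩ o').card ≠ 8 := fun h8 => hne (gc_octad_eq ho ho' h8)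
      exact (Finset.eq_of_subset_of_card_le h2 (by omega)).symm
  have ho_mem : o ∈ gcOct.filter (fun c => s ⊆ c) :=
    Finset.mem_filter.mpr ⟨(gc_mem_oct o).mpr ho, hs⟩
  rw [e, Finset.card_erase_of_mem ho_mem]
  omega

theorem gc_X2 (o s : Finset Cfsg.GolayPt) (ho : o ∈ Cfsg.octads) (hs : s ⊆ o) (h2 : s.card = 2) :
    (gcX o s).card = 16 := by
  have hl := gc_lambda s (by omega)
  rw [h2] at hl
  have e1 : Nat.choose (8 - 2) (5 - 2) = 20 := by decide
  have e2 : Nat.choose (24 - 2) (5 - 2) = 1540 := by decide +kernel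
  rw [e1, e2] at hl
  have hQ := st_card_between o s hs 4 (by omega)
  have ho8 := gc_octad_card ho
  rw [ho8, h2] at hQ
  have e3 : Nat.choose (8 - 2) (4 - 2) = 15 := by decide
  rw [e3] at hQ
  generalize hQdef : (Finset.powersetCard 4 o).filter (fun T => s ⊆ T) = Q at hQ
  have hQmem : ∀ T, T ∈ Q ↔ (T ⊆ o ∧ T.card = 4) ∧ s ⊆ T := by
    intro T
    rw [← hQdef, Finset.mem_filter, Finset.mem_powersetCard]
  have hdecomp : gcOct.filter (fun c => s ⊆ c) =
      insert o (gcX o s ∪ Q.biUnion (fun T => gcX o T)) := by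
    ext o'
    simp only [Finset.mem_filter, gc_mem_oct, Finset.mem_insert, Finset.mem_union,
      Finset.mem_biUnion, gcX]
    constructor
    · rintro ⟨ho', hso'⟩
      have h1 := gc_octad_octad ho ho'
      have hsub : s ⊆ o ∩ o' := Finset.subset_inter hs hso'
      have h3 := Finset.card_le_card hsub
      rcases h1 with h1 | h1 | h1 | h1
      · omega
      · right; left
        exact ⟨ho', (Finset.eq_of_subset_of_card_le hsub (by omega)).symm⟩
      · right; right
        exact ⟨o ∩ o', (hQmem _).mpr ⟨⟨Finset.inter_subset_left, h1⟩, hsub⟩, ho', rfl⟩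
      · left
        exact gc_octad_eq ho ho' h1
    · rintro (rfl | ⟨ho', hi⟩ | ⟨T, hT, ho', hi⟩)
      · exact ⟨ho, hs⟩
      · exact ⟨ho', by rw [← hi]; exact Finset.inter_subset_right⟩
      · rw [hQmem] at hT
        exact ⟨ho', hT.2.trans (by rw [← hi]; exact Finset.inter_subset_right)⟩
  have hcard := congrArg Finset.card hdecomp
  have hn1 : o ∉ gcX o s ∪ Q.biUnion (fun T => gcX o T) := by
    simp only [Finset.mem_union, Finset.mem_biUnion, gcX, Finset.mem_filter, Finset.inter_self]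
    rintro (⟨_, h⟩ | ⟨T, hT, _, h⟩)
    · rw [← h] at h2; omega
    · rw [hQmem] at hT
      rw [← h] at hT; omega
  have hn2 : Disjoint (gcX o s) (Q.biUnion (fun T => gcX o T)) := by
    rw [Finset.disjoint_left]
    intro o' h1 h2'
    simp only [gcX, Finset.mem_filter, Finset.mem_biUnion] at h1 h2'
    obtain ⟨T, hT, _, hi⟩ := h2'
    rw [hQmem] at hT
    have : s = T := h1.2.symm.trans hi
    rw [← this] at hT; omega
  have hn3 : ∀ T ∈ Q, ∀ T' ∈ Q, T ≠ T' → Disjoint (gcX o T) (gcX o T') := by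
    intro T _ T' _ hne
    rw [Finset.disjoint_left]
    intro o' h1 h2'
    simp only [gcX, Finset.mem_filter] at h1 h2'
    exact hne (h1.2.symm.trans h2'.2)
  rw [Finset.card_insert_of_notMem hn1, Finset.card_union_of_disjoint hn2,
    Finset.card_biUnion hn3] at hcard
  have hsum : ∑ T ∈ Q, (gcX o T).card = ∑ T ∈ Q, 4 := by
    apply Finset.sum_congr rfl
    intro T hT
    rw [hQmem] at hT
    exact gc_X4 o T ho hT.1.1 hT.1.2
  rw [hsum, Finset.sum_const, hQ, smul_eq_mul] at hcard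
  omega

end Cfsg.Agent.Lib.Helper7
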