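import Mathlib
import Cfsg.Prelude
import Cfsg.Agent.Lib.Helper7.GolayC6

set_option autoImplicit false

namespace Cfsg.Agent.Lib.Helper7

theorem gc_mem_X {o s o' : Finset Cfsg.GolayPt} : o' ∈ gcX o s ↔ o' ∈ Cfsg.octads ∧ o ∩ o' = s := by
  simp only [gcX, Finset.mem_filter, gc_mem_oct]

/-- two distinct octads through a 4-set meet exactly in it -/
theorem gc_inter_eq_of_sub {a b T : Finset Cfsg.GolayPt} (ha : a ∈ Cfsg.octads)
    (hb : b ∈ Cfsg.octads) (hne : a ≠ b) (hT : T.card = 4) (hTa : T ⊆ a) (hTb : T ⊆ b) :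
    a ∩ b = T := by
  have h1 := gc_octad_octad ha hb
  have h2 : T ⊆ a ∩ b := Finset.subset_inter hTa hTb
  have h3 := Finset.card_le_card h2
  have h8 : (a ∩ b).card ≠ 8 := fun h8 => hne (gc_octad_eq ha hb h8).symm
  exact (Finset.eq_of_subset_of_card_le h2 (by omega)).symm

theorem gc_symm_octad {a b : Finset Cfsg.GolayPt} (ha : a ∈ Cfsg.octads)
    (hb : b ∈ Cfsg.octads) (h4 : (a ∩ b).card = 4) : (a \ b) ∪ (b \ a) ∈ Cfsg.octads := by
  have ha' := (gc_octad_iff a).mp ha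
  have hb' := (gc_octad_iff b).mp hb
  have h1 := g24_card_symm a b
  exact (gc_octad_iff _).mpr ⟨gc_symm_mem ha'.1 hb'.1, by omega⟩

theorem gc_symm_dodecad {a b : Finset Cfsg.GolayPt} (ha : a ∈ Cfsg.octads)
    (hb : b ∈ Cfsg.octads) (h2 : (a ∩ b).card = 2) : (a \ b) ∪ (b \ a) ∈ Cfsg.dodecads := by
  have ha' := (gc_octad_iff a).mp ha
  have hb' := (gc_octad_iff b).mp hb
  have h1 := g24_card_symm a b
  exact (gc_dodecad_iff _).mpr ⟨gc_symm_mem ha'.1 hb'.1, by omega⟩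

/-- two octads meeting in four points have a common disjoint octad -/
theorem gc_common_disjoint {o o' : Finset Cfsg.GolayPt} (ho : o ∈ Cfsg.octads)
    (ho' : o' ∈ Cfsg.octads) (h4 : (o ∩ o').card = 4) :
    ∃ x ∈ Cfsg.octads, Disjoint o x ∧ Disjoint x o' := by
  have hX := gc_X4 o (o ∩ o') ho Finset.inter_subset_left h4
  have h1 : 0 < ((gcX o (o ∩ o')).erase o').card := by
    have := Finset.pred_card_le_card_erase (s := gcX o (o ∩ o')) (a := o')
    omega
  obtain ⟨a, ha⟩ := Finset.card_pos.mp h1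
  have h2 : 0 < (((gcX o (o ∩ o')).erase o').erase a).card := by
    have := Finset.pred_card_le_card_erase (s := gcX o (o ∩ o')) (a := o')
    have := Finset.pred_card_le_card_erase (s := (gcX o (o ∩ o')).erase o') (a := a)
    omega
  obtain ⟨b, hb⟩ := Finset.card_pos.mp h2
  rw [Finset.mem_erase, gc_mem_X] at ha
  rw [Finset.mem_erase, Finset.mem_erase, gc_mem_X] at hb
  obtain ⟨hao', haO, hoa⟩ := ha
  obtain ⟨hba, hbo', hbO, hob⟩ := hb
  have hTa : o ∩ o' ⊆ a := by rw [← hoa]; exact Finset.inter_subset_right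
  have hTb : o ∩ o' ⊆ b := by rw [← hob]; exact Finset.inter_subset_right
  have hab : a ∩ b = o ∩ o' := gc_inter_eq_of_sub haO hbO (Ne.symm hba) h4 hTa hTb
  have hao'' : a ∩ o' = o ∩ o' :=
    gc_inter_eq_of_sub haO ho' hao' h4 hTa Finset.inter_subset_right
  have hbo'' : b ∩ o' = o ∩ o' :=
    gc_inter_eq_of_sub hbO ho' hbo' h4 hTb Finset.inter_subset_right
  refine ⟨(a \ b) ∪ (b \ a), gc_symm_octad haO hbO (by rw [hab]; exact h4), ?_, ?_⟩
  · rw [Finset.disjoint_left]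
    intro p hp hx
    rw [Finset.mem_union, Finset.mem_sdiff, Finset.mem_sdiff] at hx
    rcases hx with ⟨hpa, hpb⟩ | ⟨hpb, hpa⟩
    · exact hpb (hTb (by rw [← hoa]; exact Finset.mem_inter.mpr ⟨hp, hpa⟩))
    · exact hpa (hTa (by rw [← hob]; exact Finset.mem_inter.mpr ⟨hp, hpb⟩))
  · rw [Finset.disjoint_left]
    intro p hx hp
    rw [Finset.mem_union, Finset.mem_sdiff, Finset.mem_sdiff] at hx
    rcases hx with ⟨hpa, hpb⟩ | ⟨hpb, hpa⟩
    · exact hpb (hTb (by rw [← hao'']; exact Finset.mem_inter.mpr ⟨hpa, hp⟩))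
    · exact hpa (hTa (by rw [← hbo'']; exact Finset.mem_inter.mpr ⟨hpb, hp⟩))

/-- two octads meeting in two points have no common disjoint octad -/
theorem gc_no_common_disjoint {o o' x : Finset Cfsg.GolayPt} (ho : o ∈ Cfsg.octads)
    (ho' : o' ∈ Cfsg.octads) (h2 : (o ∩ o').card = 2) (hx : x ∈ Cfsg.octads)
    (h1 : Disjoint o x) (h3 : Disjoint x o') : False := by
  have hd := gc_symm_dodecad ho ho' h2
  have h := gc_octad_dodecad hx hd
  have e : x ∩ ((o \ o') ∪ (o' \ o)) = ∅ := by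
    rw [Finset.eq_empty_iff_forall_notMem]
    intro p hp
    rw [Finset.mem_inter, Finset.mem_union, Finset.mem_sdiff, Finset.mem_sdiff] at hp
    rcases hp.2 with ⟨hpo, _⟩ | ⟨hpo', _⟩
    · exact Finset.disjoint_left.mp h1 hpo hp.1
    · exact Finset.disjoint_left.mp h3 hp.1 hpo'
  rw [e, Finset.card_empty] at h
  omega

/-- two octads meeting in two points are joined by a path of length three -/
theorem gc_path3 {o o' : Finset Cfsg.GolayPt} (ho : o ∈ Cfsg.octads)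
    (ho' : o' ∈ Cfsg.octads) (h2 : (o ∩ o').card = 2) :
    ∃ a ∈ Cfsg.octads, ∃ b ∈ Cfsg.octads, Disjoint o a ∧ Disjoint a b ∧ Disjoint b o' := by
  have ho8 := gc_octad_card ho
  have ho8' := gc_octad_card ho'
  have h6 : (o \ o').card = 6 := by
    have := Finset.card_sdiff_add_card_inter o o'
    omega
  have h6' : (o' \ o).card = 6 := by
    have := Finset.card_sdiff_add_card_inter o' o
    rw [Finset.inter_comm] at this
    omega
  obtain ⟨T, hT, hT4⟩ := Finset.exists_subset_card_eq (by omega : 4 ≤ (o \ o').card)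
  have hTo : T ⊆ o := hT.trans Finset.sdiff_subset
  have hTo' : ∀ p ∈ T, p ∉ o' := fun p hp => (Finset.mem_sdiff.mp (hT hp)).2
  have hX := gc_X4 o T ho hTo hT4
  have key : ∃ b ∈ gcX o T, Disjoint b o' := by
    by_contra hcon
    push Not at hcon
    have hge : ∀ b ∈ gcX o T, 2 ≤ (b ∩ o').card := by
      intro b hb
      have hb' := gc_mem_X.mp hb
      have h1 := gc_octad_octad hb'.1 ho'
      have h0 : (b ∩ o').card ≠ 0 := by
        intro h0
        rw [Finset.card_eq_zero] at h0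
        exact hcon b hb (Finset.disjoint_iff_inter_eq_empty.mpr h0)
      omega
    have hdisj : ∀ b ∈ gcX o T, ∀ b' ∈ gcX o T, b ≠ b' → Disjoint (b ∩ o') (b' ∩ o') := by
      intro b hb b' hb' hne
      have hbm := gc_mem_X.mp hb
      have hbm' := gc_mem_X.mp hb'
      have hTb : T ⊆ b := by rw [← hbm.2]; exact Finset.inter_subset_right
      have hTb' : T ⊆ b' := by rw [← hbm'.2]; exact Finset.inter_subset_right
      have hbb := gc_inter_eq_of_sub hbm.1 hbm'.1 hne hT4 hTb hTb'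
      rw [Finset.disjoint_left]
      intro p hp hp'
      rw [Finset.mem_inter] at hp hp'
      have : p ∈ T := by rw [← hbb]; exact Finset.mem_inter.mpr ⟨hp.1, hp'.1⟩
      exact hTo' p this hp.2
    have hsub : (gcX o T).biUnion (fun b => b ∩ o') ⊆ o' \ o := by
      intro p hp
      rw [Finset.mem_biUnion] at hp
      obtain ⟨b, hb, hpb⟩ := hp
      rw [Finset.mem_inter] at hpb
      have hbm := gc_mem_X.mp hb
      rw [Finset.mem_sdiff]
      refine ⟨hpb.2, fun hpo => ?_⟩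
      have : p ∈ T := by rw [← hbm.2]; exact Finset.mem_inter.mpr ⟨hpo, hpb.1⟩
      exact hTo' p this hpb.2
    have hc := Finset.card_le_card hsub
    rw [Finset.card_biUnion hdisj, h6'] at hc
    have hs : ∑ b ∈ gcX o T, 2 ≤ ∑ b ∈ gcX o T, (b ∩ o').card := Finset.sum_le_sum hge
    rw [Finset.sum_const, hX, smul_eq_mul] at hs
    omega
  obtain ⟨b, hb, hbo'⟩ := key
  have hbm := gc_mem_X.mp hb
  obtain ⟨a, ha, hoa, hab⟩ := gc_common_disjoint ho hbm.1 (by rw [hbm.2]; exact hT4)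
  exact ⟨a, ha, b, hbm.1, hoa, hab, hbo'⟩

theorem gc_adj_iff (a b : Cfsg.octads) :
    (Cfsg.blockGraph Cfsg.octads).Adj a b ↔ Disjoint (a : Finset Cfsg.GolayPt) b := by
  unfold Cfsg.blockGraph
  rw [SimpleGraph.fromRel_adj]
  constructor
  · rintro ⟨_, h | h⟩
    · exact h
    · exact h.symm
  · intro h
    refine ⟨?_, Or.inl h⟩
    intro hab
    rw [hab, disjoint_self, Finset.bot_eq_empty] at h
    have := gc_octad_card b.2
    rw [h] at this
    simp at this

theorem gc_inter_cases {o o' : Finset Cfsg.GolayPt} (ho : o ∈ Cfsg.octads)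
    (ho' : o' ∈ Cfsg.octads) (hne : o ≠ o') :
    (o ∩ o').card = 0 ∨ (o ∩ o').card = 2 ∨ (o ∩ o').card = 4 := by
  have h1 := gc_octad_octad ho ho'
  have h8 : (o ∩ o').card ≠ 8 := fun h8 => hne (gc_octad_eq ho ho' h8).symm
  omega

theorem gc_reach (a b : Cfsg.octads) : (Cfsg.blockGraph Cfsg.octads).Reachable a b := by
  by_cases hab : a = b
  · rw [hab]
  have hne : (a : Finset Cfsg.GolayPt) ≠ b := fun h => hab (Subtype.ext h)
  rcases gc_inter_cases a.2 b.2 hne with h | h | h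
  · rw [Finset.card_eq_zero] at h
    exact ((gc_adj_iff a b).mpr (Finset.disjoint_iff_inter_eq_empty.mpr h)).reachable
  · obtain ⟨x, hx, y, hy, h1, h2, h3⟩ := gc_path3 a.2 b.2 h
    have e1 : (Cfsg.blockGraph Cfsg.octads).Adj a ⟨x, hx⟩ := (gc_adj_iff _ _).mpr h1
    have e2 : (Cfsg.blockGraph Cfsg.octads).Adj ⟨x, hx⟩ ⟨y, hy⟩ := (gc_adj_iff _ _).mpr h2
    have e3 : (Cfsg.blockGraph Cfsg.octads).Adj ⟨y, hy⟩ b := (gc_adj_iff _ _).mpr h3
    exact e1.reachable.trans (e2.reachable.trans e3.reachable)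
  · obtain ⟨x, hx, h1, h2⟩ := gc_common_disjoint a.2 b.2 h
    have e1 : (Cfsg.blockGraph Cfsg.octads).Adj a ⟨x, hx⟩ := (gc_adj_iff _ _).mpr h1
    have e2 : (Cfsg.blockGraph Cfsg.octads).Adj ⟨x, hx⟩ b := (gc_adj_iff _ _).mpr h2
    exact e1.reachable.trans e2.reachable

theorem gc_dist (a b : Cfsg.octads) (hab : a ≠ b) :
    (((a : Finset Cfsg.GolayPt) ∩ b).card = 0 → (Cfsg.blockGraph Cfsg.octads).dist a b = 1) ∧
    (((a : Finset Cfsg.GolayPt) ∩ b).card = 4 → (Cfsg.blockGraph Cfsg.octads).dist a b = 2) ∧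
    (((a : Finset Cfsg.GolayPt) ∩ b).card = 2 → (Cfsg.blockGraph Cfsg.octads).dist a b = 3) := by
  have hpos : (Cfsg.blockGraph Cfsg.octads).dist a b ≠ 0 := by
    intro h0
    exact hab (((gc_reach a b).dist_eq_zero_iff).mp h0)
  refine ⟨?_, ?_, ?_⟩
  · intro h
    rw [Finset.card_eq_zero] at h
    exact SimpleGraph.dist_eq_one_iff_adj.mpr
      ((gc_adj_iff a b).mpr (Finset.disjoint_iff_inter_eq_empty.mpr h))
  · intro h
    have hnadj : ¬ (Cfsg.blockGraph Cfsg.octads).Adj a b := by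
      rw [gc_adj_iff, Finset.disjoint_iff_inter_eq_empty]
      intro h0
      rw [h0] at h
      simp at h
    have hne1 : (Cfsg.blockGraph Cfsg.octads).dist a b ≠ 1 := fun h1 =>
      hnadj (SimpleGraph.dist_eq_one_iff_adj.mp h1)
    obtain ⟨x, hx, h1, h2⟩ := gc_common_disjoint a.2 b.2 h
    have e1 : (Cfsg.blockGraph Cfsg.octads).Adj a ⟨x, hx⟩ := (gc_adj_iff _ _).mpr h1
    have e2 : (Cfsg.blockGraph Cfsg.octads).Adj ⟨x, hx⟩ b := (gc_adj_iff _ _).mpr h2
    have hle := SimpleGraph.dist_le (SimpleGraph.Walk.cons e1 (SimpleGraph.Walk.cons e2 .nil))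
    simp only [SimpleGraph.Walk.length_cons, SimpleGraph.Walk.length_nil] at hle
    omega
  · intro h
    have hnadj : ¬ (Cfsg.blockGraph Cfsg.octads).Adj a b := by
      rw [gc_adj_iff, Finset.disjoint_iff_inter_eq_empty]
      intro h0
      rw [h0] at h
      simp at h
    have hne1 : (Cfsg.blockGraph Cfsg.octads).dist a b ≠ 1 := fun h1 =>
      hnadj (SimpleGraph.dist_eq_one_iff_adj.mp h1)
    have hne2 : (Cfsg.blockGraph Cfsg.octads).dist a b ≠ 2 := by
      intro h2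
      unfold SimpleGraph.dist at h2
      rw [ENat.toNat_eq_iff (by norm_num)] at h2
      have h2' : (Cfsg.blockGraph Cfsg.octads).edist a b = 2 := h2
      rw [SimpleGraph.edist_eq_two_iff] at h2'
      obtain ⟨x, hx⟩ := h2'.2.2
      rw [SimpleGraph.mem_commonNeighbors] at hx
      exact gc_no_common_disjoint a.2 b.2 h x.2 ((gc_adj_iff _ _).mp hx.1)
        ((gc_adj_iff _ _).mp hx.2.symm)
    obtain ⟨x, hx, y, hy, h1, h2, h3⟩ := gc_path3 a.2 b.2 h
    have e1 : (Cfsg.blockGraph Cfsg.octads).Adj a ⟨x, hx⟩ := (gc_adj_iff _ _).mpr h1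
    have e2 : (Cfsg.blockGraph Cfsg.octads).Adj ⟨x, hx⟩ ⟨y, hy⟩ := (gc_adj_iff _ _).mpr h2
    have e3 : (Cfsg.blockGraph Cfsg.octads).Adj ⟨y, hy⟩ b := (gc_adj_iff _ _).mpr h3
    have hle := SimpleGraph.dist_le
      (SimpleGraph.Walk.cons e1 (SimpleGraph.Walk.cons e2 (SimpleGraph.Walk.cons e3 .nil)))
    simp only [SimpleGraph.Walk.length_cons, SimpleGraph.Walk.length_nil] at hle
    omega

theorem gc_octad_graph (o o' : Finset Cfsg.GolayPt) (ho : o ∈ Cfsg.octads)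
    (ho' : o' ∈ Cfsg.octads) (hne : o ≠ o') :
    (Cfsg.blockGraph Cfsg.octads).Connected ∧
    ((Cfsg.blockGraph Cfsg.octads).dist ⟨o, ho⟩ ⟨o', ho'⟩ = 1 ↔ (o ∩ o').card = 0) ∧
    ((Cfsg.blockGraph Cfsg.octads).dist ⟨o, ho⟩ ⟨o', ho'⟩ = 2 ↔ (o ∩ o').card = 4) ∧
    ((Cfsg.blockGraph Cfsg.octads).dist ⟨o, ho⟩ ⟨o', ho'⟩ = 3 ↔ (o ∩ o').card = 2) := by
  have hconn : (Cfsg.blockGraph Cfsg.octads).Connected :=
    { preconnected := gc_reach
      nonempty := ⟨⟨o, ho⟩⟩ }
  have hab : (⟨o, ho⟩ : Cfsg.octads) ≠ ⟨o', ho'⟩ := fun h => hne (congrArg Subtype.val h)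
  obtain ⟨d1, d2, d3⟩ := gc_dist ⟨o, ho⟩ ⟨o', ho'⟩ hab
  have hc := gc_inter_cases ho ho' hne
  refine ⟨hconn, ⟨?_, d1⟩, ⟨?_, d2⟩, ⟨?_, d3⟩⟩
  · intro h
    rcases hc with h0 | h0 | h0
    · exact h0
    · have := d3 h0; omega
    · have := d2 h0; omega
  · intro h
    rcases hc with h0 | h0 | h0
    · have := d1 h0; omega
    · have := d3 h0; omega
    · exact h0
  · intro h
    rcases hc with h0 | h0 | h0
    · have := d1 h0; omega
    · exact h0
    · have := d2 h0; omega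

end Cfsg.Agent.Lib.Helper7
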