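import Mathlib
import Cfsg.Prelude

set_option autoImplicit false

namespace Cfsg.Agent.Lib.Helper7

open Equiv

section
variable {α : Type*} [Fintype α] [DecidableEq α]

theorem ks_inv_of_image (σ : Perm α) (s : Finset α) (h : s.image σ = s) :
    ∀ x, σ x ∈ s ↔ x ∈ s := by
  intro x
  constructor
  · intro hx
    rw [← h] at hx
    obtain ⟨y, hy, e⟩ := Finset.mem_image.mp hx
    rw [← σ.injective e]
    exact hy
  · intro hx
    rw [← h]
    exact Finset.mem_image_of_mem _ hx

theorem ks_image_of_inv (σ : Perm α) (s : Finset α) (h : ∀ x, σ x ∈ s ↔ x ∈ s) :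
    s.image σ = s := by
  ext y
  rw [Finset.mem_image]
  constructor
  · rintro ⟨z, hz, rfl⟩
    exact (h z).mpr hz
  · intro hy
    refine ⟨σ.symm y, ?_, σ.apply_symm_apply y⟩
    rw [← h, σ.apply_symm_apply]
    exact hy

theorem ks_mod (σ : Perm α) (r : ℕ) (hr : r.Prime) (hσ : orderOf σ = r) (s : Finset α)
    (h : s.image σ = s) :
    ∃ b, b ≤ (Finset.univ.filter (fun x => σ x = x)).card ∧ s.card ≡ b [MOD r] := by
  haveI : Fact r.Prime := ⟨hr⟩
  have hinv := ks_inv_of_image σ s h
  have hval : ∀ (i : ℕ) (x : {x // x ∈ s}), (((σ.subtypePerm hinv) ^ i) x : α) = (σ ^ i) x := by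
    intro i
    induction i with
    | zero => intro x; rfl
    | succ i ih =>
      intro x
      rw [pow_succ, pow_succ, Perm.mul_apply, Perm.mul_apply, ih]
      rfl
  have hτ : (σ.subtypePerm hinv) ^ r ^ 1 = 1 := by
    rw [pow_one]
    ext x
    rw [hval, ← hσ, pow_orderOf_eq_one]
    rfl
  have hmod := Equiv.Perm.card_compl_support_modEq hτ
  refine ⟨(σ.subtypePerm hinv).supportᶜ.card, ?_, ?_⟩
  · apply Finset.card_le_card_of_injOn (fun x => x.1)
    · intro x hx
      rw [Finset.mem_coe, Finset.mem_compl, Perm.notMem_support] at hx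
      rw [Finset.mem_coe, Finset.mem_filter]
      refine ⟨Finset.mem_univ _, ?_⟩
      exact congrArg Subtype.val hx
    · intro x _ y _ hxy
      exact Subtype.ext hxy
  · have e : Fintype.card {x // x ∈ s} = s.card := Fintype.card_coe s
    rw [← e]
    exact hmod.symm

theorem ks_lcm_rep (r : ℕ) (c : ℕ) : (Multiset.replicate (c + 1) r).lcm = r := by
  induction c with
  | zero => simp
  | succ c ih =>
    rw [Multiset.replicate_succ, Multiset.lcm_cons, ih]
    simp

theorem ks_orbit (σ : Perm α) (r : ℕ) (hr : r.Prime) (hσ : orderOf σ = r) (x : α)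
    (hx : σ x ≠ x) :
    ((σ.cycleOf x).support).card = r ∧
    (∀ y, σ y ∈ (σ.cycleOf x).support ↔ y ∈ (σ.cycleOf x).support) ∧
    (σ.cycleOf x).support ⊆ σ.support ∧ x ∈ (σ.cycleOf x).support := by
  have hc := Equiv.Perm.isCycle_cycleOf σ hx
  refine ⟨?_, ?_, Equiv.Perm.support_cycleOf_le σ x, ?_⟩
  · rw [← hc.orderOf]
    have hd := Equiv.Perm.orderOf_cycleOf_dvd_orderOf σ x
    rw [hσ] at hd
    rcases (Nat.dvd_prime hr).mp hd with h1 | h1
    · exfalso
      have h0 : σ.cycleOf x = 1 := orderOf_eq_one_iff.mp h1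
      have h2 := Equiv.Perm.cycleOf_apply_self σ x
      rw [h0] at h2
      exact hx h2.symm
    · exact h1
  · intro y
    rw [Equiv.Perm.mem_support_cycleOf_iff' hx, Equiv.Perm.mem_support_cycleOf_iff' hx,
      Equiv.Perm.sameCycle_apply_right]
  · rw [Equiv.Perm.mem_support_cycleOf_iff' hx]

theorem ks_cycles (σ : Perm α) (r : ℕ) (hr : r.Prime) (hσ : orderOf σ = r) :
    ∀ a : ℕ, r * a ≤ σ.support.card →
      ∃ u : Finset α, u ⊆ σ.support ∧ u.card = r * a ∧ ∀ y, σ y ∈ u ↔ y ∈ u := by
  intro a
  induction a with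
  | zero =>
    intro _
    exact ⟨∅, Finset.empty_subset _, by simp, by simp⟩
  | succ a ih =>
    intro ha
    have hexp : r * (a + 1) = r * a + r := by ring
    obtain ⟨u, hu1, hu2, hu3⟩ := ih (by omega)
    have hlt : u.card < σ.support.card := by
      have := hr.pos
      omega
    obtain ⟨x, hxS, hxu⟩ := Finset.exists_mem_notMem_of_card_lt_card hlt
    have hx : σ x ≠ x := Perm.mem_support.mp hxS
    obtain ⟨h1, h2, h3, h4⟩ := ks_orbit σ r hr hσ x hx
    have hpow : ∀ i : ℕ, ∀ z, z ∉ u → (σ ^ i) z ∉ u := by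
      intro i
      induction i with
      | zero =>
        intro z hz
        exact hz
      | succ i ihi =>
        intro z hz
        rw [pow_succ, Perm.mul_apply]
        exact ihi (σ z) (fun hh => hz ((hu3 z).mp hh))
    have hdisj : Disjoint u (σ.cycleOf x).support := by
      rw [Finset.disjoint_left]
      intro y hyu hyo
      rw [Equiv.Perm.mem_support_cycleOf_iff' hx] at hyo
      obtain ⟨i, hi⟩ := hyo.exists_nat_pow_eq
      apply hpow i x hxu
      rw [hi]
      exact hyu
    refine ⟨u ∪ (σ.cycleOf x).support, Finset.union_subset hu1 h3, ?_, ?_⟩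
    · rw [Finset.card_union_of_disjoint hdisj, hu2, h1, hexp]
    · intro y
      rw [Finset.mem_union, Finset.mem_union, hu3 y, h2 y]

theorem ks_build (σ : Perm α) (r : ℕ) (hr : r.Prime) (hσ : orderOf σ = r) (k : ℕ)
    (hk : k ≤ Fintype.card α)
    (hmod : k % r ≤ (Finset.univ.filter (fun x => σ x = x)).card) :
    ∃ s : Finset α, s.card = k ∧ s.image σ = s := by
  have hFS : (Finset.univ.filter (fun x => σ x = x)).card + σ.support.card =
      Fintype.card α := by
    have e : (Finset.univ.filter (fun x => σ x = x)) = σ.supportᶜ := by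
      ext x
      simp [Perm.mem_support]
    rw [e, Finset.card_compl]
    have := Finset.card_le_univ σ.support
    omega
  obtain ⟨a, b, hab, ha, hb⟩ : ∃ a b, r * a + b = k ∧ r * a ≤ σ.support.card ∧
      b ≤ (Finset.univ.filter (fun x => σ x = x)).card := by
    by_cases hcase : r * (k / r) ≤ σ.support.card
    · exact ⟨k / r, k % r, Nat.div_add_mod k r, hcase, hmod⟩
    · obtain ⟨c, hc⟩ := Equiv.Perm.cycleType_prime_order (σ := σ) (by rw [hσ]; exact hr)
      have hS : σ.support.card = r * (c + 1) := by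
        rw [← Equiv.Perm.sum_cycleType, hc, Multiset.sum_replicate, smul_eq_mul, hσ,
          Nat.mul_comm]
      have h2 : r * (k / r) ≤ k := Nat.mul_div_le k r
      refine ⟨c + 1, k - r * (c + 1), ?_, ?_, ?_⟩
      · omega
      · omega
      · omega
  obtain ⟨t, htF, htc⟩ := Finset.exists_subset_card_eq hb
  obtain ⟨u, huS, huc, huinv⟩ := ks_cycles σ r hr hσ a ha
  have htfix : ∀ y ∈ t, σ y = y := by
    intro y hy
    exact (Finset.mem_filter.mp (htF hy)).2
  have hdisj : Disjoint t u := by
    rw [Finset.disjoint_left]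
    intro y hyt hyu
    exact (Perm.mem_support.mp (huS hyu)) (htfix y hyt)
  refine ⟨t ∪ u, ?_, ?_⟩
  · rw [Finset.card_union_of_disjoint hdisj, htc, huc]
    omega
  · apply ks_image_of_inv
    intro y
    rw [Finset.mem_union, Finset.mem_union, huinv y]
    constructor
    · rintro (h | h)
      · left
        have h2 : σ y = y := σ.injective (htfix _ h)
        rw [h2] at h
        exact h
      · exact Or.inr h
    · rintro (h | h)
      · left
        rw [htfix y h]
        exact h
      · exact Or.inr h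

end

theorem ks_exists (n r : ℕ) (hr : r.Prime) (hrn : r ≤ n) :
    ∃ σ : Perm (Fin n), orderOf σ = r ∧
      (Finset.univ.filter (fun x => σ x = x)).card = n % r := by
  obtain ⟨σ, hσ⟩ := (Equiv.Perm.exists_with_cycleType_iff (α := Fin n)
    (m := Multiset.replicate (n / r) r)).mpr ⟨by
      rw [Multiset.sum_replicate, smul_eq_mul, Fintype.card_fin]
      exact Nat.div_mul_le_self n r, by
      intro a ha
      rw [Multiset.eq_of_mem_replicate ha]
      exact hr.two_le⟩
  refine ⟨σ, ?_, ?_⟩
  · rw [← Equiv.Perm.lcm_cycleType, hσ]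
    obtain ⟨c, hc⟩ : ∃ c, n / r = c + 1 :=
      ⟨n / r - 1, by have := Nat.div_pos hrn hr.pos; omega⟩
    rw [hc]
    exact ks_lcm_rep r c
  · have h1 : (Finset.univ.filter (fun x => σ x = x)) = σ.supportᶜ := by
      ext x
      simp [Perm.mem_support]
    rw [h1, Finset.card_compl, ← Equiv.Perm.sum_cycleType, hσ, Multiset.sum_replicate,
      smul_eq_mul, Fintype.card_fin]
    have h3 : n / r * r + n % r = n := by
      rw [Nat.mul_comm]
      exact Nat.div_add_mod n r
    omega

theorem ks_main (n k : ℕ) (hk : 1 ≤ k) (hkn : 2 * k < n) (r : ℕ) (hr : r.Prime) (hrd : r ∣ Nat.choose n k) :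
    (r ≠ 2 → ((∀ σ : Equiv.Perm (Fin n), orderOf σ = r → ∃ s : Finset (Fin n), s.card = k ∧ s.image σ = s) ↔
      (r ≤ k ∧ k % r ≤ n % r))) ∧
    (r = 2 → ((∀ σ : Equiv.Perm (Fin n), orderOf σ = 2 → ∃ s : Finset (Fin n), s.card = k ∧ s.image σ = s) ↔
      (Even k ∨ Odd n))) := by
  haveI : Fact r.Prime := ⟨hr⟩
  have hkn' : k ≤ n := by omega
  have hrn : r ≤ n := by
    have h1 : r ∣ n.factorial := by
      rw [← Nat.choose_mul_factorial_mul_factorial hkn']
      exact Dvd.dvd.mul_right (Dvd.dvd.mul_right hrd _) _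
    exact (Nat.Prime.dvd_factorial hr).mp h1
  have hfix : ∀ σ : Perm (Fin n), orderOf σ = r →
      (Finset.univ.filter (fun x => σ x = x)).card % r = n % r := by
    intro σ hσ
    have hpow : σ ^ r ^ 1 = 1 := by
      rw [pow_one, ← hσ]
      exact pow_orderOf_eq_one σ
    have h := Equiv.Perm.card_compl_support_modEq hpow
    have e : (Finset.univ.filter (fun x => σ x = x)) = σ.supportᶜ := by
      ext x
      simp [Perm.mem_support]
    rw [e]
    rw [Fintype.card_fin] at h
    exact h
  have key_fwd : (∀ σ : Perm (Fin n), orderOf σ = r →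
      ∃ s : Finset (Fin n), s.card = k ∧ s.image σ = s) → k % r ≤ n % r := by
    intro hall
    obtain ⟨σ, hσ, hfx⟩ := ks_exists n r hr hrn
    obtain ⟨s, hs, hinv⟩ := hall σ hσ
    obtain ⟨b, hb, hmod⟩ := ks_mod σ r hr hσ s hinv
    rw [hs] at hmod
    rw [hfx] at hb
    have hlt : n % r < r := Nat.mod_lt n hr.pos
    have h1 : k % r = b % r := hmod
    have hb' : b < r := lt_of_le_of_lt hb hlt
    rw [Nat.mod_eq_of_lt hb'] at h1
    rw [h1]
    exact hb
  have key_bwd : k % r ≤ n % r → (∀ σ : Perm (Fin n), orderOf σ = r →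
      ∃ s : Finset (Fin n), s.card = k ∧ s.image σ = s) := by
    intro hle σ hσ
    apply ks_build σ r hr hσ k (by rw [Fintype.card_fin]; exact hkn')
    have h1 := hfix σ hσ
    have h2 := Nat.mod_le (Finset.univ.filter (fun x => σ x = x)).card r
    omega
  constructor
  · intro _
    constructor
    · intro hall
      have h1 := key_fwd hall
      refine ⟨?_, h1⟩
      by_contra hlt
      push_neg at hlt
      have hL := Choose.choose_modEq_choose_mod_mul_choose_div_nat (n := n) (k := k) (p := r)
      rw [Nat.mod_eq_of_lt hlt, Nat.div_eq_of_lt hlt, Nat.choose_zero_right, mul_one] at hL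
      rw [Nat.mod_eq_of_lt hlt] at h1
      have hd : r ∣ Nat.choose (n % r) k := (Nat.ModEq.dvd_iff hL (dvd_refl r)).mp hrd
      have hd2 : r ∣ (n % r).factorial := by
        rw [← Nat.choose_mul_factorial_mul_factorial h1]
        exact Dvd.dvd.mul_right (Dvd.dvd.mul_right hd _) _
      have hle := (Nat.Prime.dvd_factorial hr).mp hd2
      have := Nat.mod_lt n hr.pos
      omega
    · rintro ⟨_, h⟩
      exact key_bwd h
  · intro h2
    subst h2
    constructor
    · intro hall
      have h1 := key_fwd hall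
      rcases Nat.even_or_odd k with hk2 | hk2
      · exact Or.inl hk2
      · right
        rw [Nat.odd_iff] at hk2 ⊢
        have := Nat.mod_lt n (show 2 > 0 by norm_num)
        omega
    · intro h
      apply key_bwd
      rcases h with h | h
      · rw [Nat.even_iff] at h
        omega
      · rw [Nat.odd_iff] at h
        have := Nat.mod_lt k (show 2 > 0 by norm_num)
        omega

end Cfsg.Agent.Lib.Helper7
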