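import Mathlib

set_option autoImplicit false

namespace Cfsg.Agent.Lib.Helper7

/-- A finite group cannot contain two nontrivial malnormal subgroups whose conjugates are
disjoint outside the identity. -/
theorem two_malnormal_false {K : Type*} [Group K] [Finite K] (L₁ L₂ : Subgroup K)
    (h₁ : L₁ ≠ ⊥) (h₂ : L₂ ≠ ⊥)
    (m₁ : ∀ k x : K, x ∈ L₁ → x ≠ 1 → k * x * k⁻¹ ∈ L₁ → k ∈ L₁)
    (m₂ : ∀ k x : K, x ∈ L₂ → x ≠ 1 → k * x * k⁻¹ ∈ L₂ → k ∈ L₂)
    (hd : ∀ k₁ k₂ x₁ x₂ : K, x₁ ∈ L₁ → x₁ ≠ 1 → x₂ ∈ L₂ →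
      k₁ * x₁ * k₁⁻¹ ≠ k₂ * x₂ * k₂⁻¹) : False := by
  let φ : ∀ L : Subgroup K, (K ⧸ L) × {x : L // x ≠ 1} → K :=
    fun L pr => pr.1.out * ((pr.2.1 : L) : K) * pr.1.out⁻¹
  have hφ : ∀ L : Subgroup K, (∀ k x : K, x ∈ L → x ≠ 1 → k * x * k⁻¹ ∈ L → k ∈ L) →
      Function.Injective (φ L) := by
    rintro L m ⟨q, x⟩ ⟨q', x'⟩ heq
    have heq' : q.out * ((x.1 : L) : K) * q.out⁻¹ = q'.out * ((x'.1 : L) : K) * q'.out⁻¹ := heq
    have hx1 : ((x.1 : L) : K) ≠ 1 := fun h => x.2 (Subtype.ext h)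
    have h1 : (q'.out⁻¹ * q.out) * ((x.1 : L) : K) * (q'.out⁻¹ * q.out)⁻¹ = ((x'.1 : L) : K) := by
      calc (q'.out⁻¹ * q.out) * ((x.1 : L) : K) * (q'.out⁻¹ * q.out)⁻¹
          = q'.out⁻¹ * (q.out * ((x.1 : L) : K) * q.out⁻¹) * q'.out := by group
        _ = ((x'.1 : L) : K) := by rw [heq']; group
    have h2 : q'.out⁻¹ * q.out ∈ L := m _ _ x.1.2 hx1 (h1 ▸ x'.1.2)
    have h3 : q' = q := by
      rw [← QuotientGroup.out_eq' q', ← QuotientGroup.out_eq' q]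
      exact QuotientGroup.eq.mpr h2
    subst h3
    have h4 : ((x.1 : L) : K) = ((x'.1 : L) : K) := mul_left_cancel (mul_right_cancel heq')
    have h5 : x = x' := Subtype.ext (Subtype.ext h4)
    rw [h5]
  have hne1 : ∀ (L : Subgroup K) (pr : (K ⧸ L) × {x : L // x ≠ 1}), φ L pr ≠ 1 := by
    intro L pr h
    have h' : pr.1.out * ((pr.2.1 : L) : K) * pr.1.out⁻¹ = 1 := h
    have h2 : ((pr.2.1 : L) : K) = 1 := by
      calc ((pr.2.1 : L) : K) = pr.1.out⁻¹ * (pr.1.out * ((pr.2.1 : L) : K) * pr.1.out⁻¹) * pr.1.out := by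
            group
        _ = 1 := by rw [h']; group
    exact pr.2.2 (Subtype.ext h2)
  let Ψ : Option (((K ⧸ L₁) × {x : L₁ // x ≠ 1}) ⊕ ((K ⧸ L₂) × {x : L₂ // x ≠ 1})) → K :=
    fun o => o.elim 1 (Sum.elim (φ L₁) (φ L₂))
  have hΨ : Function.Injective Ψ := by
    intro a b hab
    rcases a with _ | (a | a) <;> rcases b with _ | (b | b)
    · rfl
    · exact absurd hab.symm (hne1 L₁ b)
    · exact absurd hab.symm (hne1 L₂ b)
    · exact absurd hab (hne1 L₁ a)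
    · have : a = b := hφ L₁ m₁ hab
      rw [this]
    · exfalso
      exact hd _ _ _ _ a.2.1.2 (fun h => a.2.2 (Subtype.ext h)) b.2.1.2 hab
    · exact absurd hab (hne1 L₂ a)
    · exfalso
      exact hd _ _ _ _ b.2.1.2 (fun h => b.2.2 (Subtype.ext h)) a.2.1.2 hab.symm
    · have : a = b := hφ L₂ m₂ hab
      rw [this]
  have hcard := Nat.card_le_card_of_injective Ψ hΨ
  rw [Finite.card_option, Nat.card_sum, Nat.card_prod, Nat.card_prod] at hcard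
  have hL : ∀ L : Subgroup K, L ≠ ⊥ →
      Nat.card L = Nat.card {x : L // x ≠ 1} + 1 ∧ 1 ≤ Nat.card {x : L // x ≠ 1} := by
    classical
    intro L hL
    constructor
    · rw [← Finite.card_option]
      exact (Nat.card_congr (Equiv.optionSubtypeNe (1 : L))).symm
    · obtain ⟨a, ha⟩ := (Subgroup.ne_bot_iff_exists_ne_one).mp hL
      have : Nonempty {x : L // x ≠ 1} := ⟨⟨a, ha⟩⟩
      exact Nat.card_pos
  obtain ⟨c1, n1⟩ := hL L₁ h₁
  obtain ⟨c2, n2⟩ := hL L₂ h₂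
  have e1 := Subgroup.card_eq_card_quotient_mul_card_subgroup L₁
  have e2 := Subgroup.card_eq_card_quotient_mul_card_subgroup L₂
  rw [c1] at e1
  rw [c2] at e2
  generalize Nat.card {x : L₁ // x ≠ 1} = a1 at *
  generalize Nat.card {x : L₂ // x ≠ 1} = a2 at *
  generalize Nat.card (K ⧸ L₁) = j1 at *
  generalize Nat.card (K ⧸ L₂) = j2 at *
  generalize Nat.card K = N at *
  have f1 : j1 ≤ j1 * a1 := Nat.le_mul_of_pos_right _ n1
  have f2 : j2 ≤ j2 * a2 := Nat.le_mul_of_pos_right _ n2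
  have g1 : N = j1 * a1 + j1 := by rw [e1]; ring
  have g2 : N = j2 * a2 + j2 := by rw [e2]; ring
  linarith

end Cfsg.Agent.Lib.Helper7
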